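import Mathlib

/-! Largest abelian subgroups of symmetric and alternating groups. -/

set_option autoImplicit false

namespace Cfsg.Agent.H80.AbPerm

open MulAction

/-- the maximal product of positive integers with a given sum -/
def mx : ℕ → ℕ
  | 0 => 1
  | 1 => 1
  | 2 => 2
  | 3 => 3
  | 4 => 4
  | (n+5) => 3 * mx (n+2)

theorem mx_step {n : ℕ} (h : 5 ≤ n) : mx n = 3 * mx (n - 3) := by
  obtain ⟨m, rfl⟩ := Nat.exists_eq_add_of_le' h
  simp [mx]

theorem mx_mul : ∀ N a b : ℕ, a + b = N → mx a * mx b ≤ mx (a + b) := by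
  intro N
  induction N using Nat.strong_induction_on with
  | _ N ih =>
    intro a b hab
    by_cases ha : 5 ≤ a
    · have h1 := ih (a - 3 + b) (by omega) (a - 3) b rfl
      have h2 : a + b - 3 = a - 3 + b := by omega
      rw [mx_step ha, mx_step (n := a + b) (by omega), h2, mul_assoc]
      exact Nat.mul_le_mul_left 3 h1
    · by_cases hb : 5 ≤ b
      · have h1 := ih (a + (b - 3)) (by omega) a (b - 3) rfl
        have h2 : a + b - 3 = a + (b - 3) := by omega
        rw [mx_step hb, mx_step (n := a + b) (by omega), h2, mul_left_comm]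
        exact Nat.mul_le_mul_left 3 h1
      · clear ih hab
        have ha' : a ≤ 4 := by omega
        have hb' : b ≤ 4 := by omega
        interval_cases a <;> interval_cases b <;> simp [mx]

theorem mx_pos : ∀ n : ℕ, 0 < mx n := by
  intro n
  induction n using Nat.strong_induction_on with
  | _ n ih =>
    by_cases h : 5 ≤ n
    · rw [mx_step h]
      have := ih (n - 3) (by omega)
      omega
    · have h' : n ≤ 4 := by omega
      interval_cases n <;> simp [mx]

theorem le_mx : ∀ n : ℕ, n ≤ mx n := by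
  intro n
  induction n using Nat.strong_induction_on with
  | _ n ih =>
    by_cases h : 5 ≤ n
    · rw [mx_step h]
      have := ih (n - 3) (by omega)
      omega
    · have h' : n ≤ 4 := by omega
      interval_cases n <;> simp [mx]

theorem le_mx' : ∀ n : ℕ, 5 ≤ n → 6 * n ≤ 5 * mx n := by
  intro n
  induction n using Nat.strong_induction_on with
  | _ n ih =>
    intro h
    rw [mx_step h]
    by_cases h8 : 8 ≤ n
    · have := ih (n - 3) (by omega) (by omega)
      omega
    · have h' : n ≤ 7 := by omega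
      interval_cases n <;> simp [mx]

theorem prod_le {ι : Type*} (s : Finset ι) (m : ι → ℕ) : ∏ i ∈ s, m i ≤ mx (∑ i ∈ s, m i) := by
  classical
  induction s using Finset.induction_on with
  | empty => simp [mx]
  | insert a s has ih =>
    rw [Finset.prod_insert has, Finset.sum_insert has]
    exact le_trans (Nat.mul_le_mul (le_mx _) ih) (mx_mul _ _ _ rfl)

theorem mx0 (k : ℕ) : mx (3 * k) = 3 ^ k := by
  induction k with
  | zero => rfl
  | succ k ih =>
    rcases Nat.eq_zero_or_pos k with rfl | hk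
    · rfl
    · rw [mx_step (by omega), show 3 * (k + 1) - 3 = 3 * k by omega, ih, pow_succ]; ring

theorem mx1 (k : ℕ) : mx (3 * (k + 1) + 1) = 4 * 3 ^ k := by
  induction k with
  | zero => rfl
  | succ k ih =>
    rw [mx_step (by omega), show 3 * (k + 1 + 1) + 1 - 3 = 3 * (k + 1) + 1 by omega, ih, pow_succ]
    ring

theorem mx2 (k : ℕ) : mx (3 * k + 2) = 2 * 3 ^ k := by
  induction k with
  | zero => rfl
  | succ k ih =>
    rw [mx_step (by omega), show 3 * (k + 1) + 2 - 3 = 3 * k + 2 by omega, ih, pow_succ]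
    ring

/-- the extremal case in degree `3k+2` -/
theorem extremal {ι : Type*} [Fintype ι] (m : ι → ℕ) (k : ℕ)
    (hs : ∑ i, m i = 3 * (k + 2) + 2) (hp : 16 * 3 ^ k < ∏ i, m i) :
    (∀ i, m i = 2 ∨ m i = 3) ∧ ∃ i, m i = 2 ∧ ∀ j, m j = 2 → j = i := by
  classical
  have h3 : 0 < 3 ^ k := by positivity
  have key : ∀ i, m i * mx (3 * (k + 2) + 2 - m i) > 16 * 3 ^ k := by
    intro i
    have h1 := Finset.mul_prod_erase Finset.univ m (Finset.mem_univ i)
    have h2 := Finset.add_sum_erase Finset.univ m (Finset.mem_univ i)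
    have h3 := prod_le (Finset.univ.erase i) m
    have h4 : ∑ x ∈ Finset.univ.erase i, m x = 3 * (k + 2) + 2 - m i := by omega
    rw [h4] at h3
    rw [← h1] at hp
    exact lt_of_lt_of_le hp (Nat.mul_le_mul_left _ h3)
  have hle : ∀ i, m i ≤ 3 * (k + 2) + 2 := by
    intro i
    rw [← hs]
    exact Finset.single_le_sum (f := m) (fun _ _ => Nat.zero_le _) (Finset.mem_univ i)
  have e1 : mx (3 * (k + 2) + 1) = 12 * 3 ^ k := by
    have := mx1 (k + 1)
    rw [show 3 * (k + 1 + 1) + 1 = 3 * (k + 2) + 1 by ring] at this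
    rw [this, pow_succ]; ring
  have e2 : mx (3 * (k + 1) + 1) = 4 * 3 ^ k := mx1 k
  have e3 : mx (3 * (k + 2) + 2) = 18 * 3 ^ k := by rw [mx2, pow_add]; ring
  have h23 : ∀ i, m i = 2 ∨ m i = 3 := by
    intro i
    have hk := key i
    by_cases h5 : 5 ≤ m i
    · exfalso
      have h1 := le_mx' (m i) h5
      have h2 := mx_mul _ (m i) (3 * (k + 2) + 2 - m i) rfl
      rw [show m i + (3 * (k + 2) + 2 - m i) = 3 * (k + 2) + 2 by have := hle i; omega, e3] at h2
      set x := mx (3 * (k + 2) + 2 - m i) with hx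
      have h4 : 6 * (m i * x) ≤ 5 * (mx (m i) * x) := by
        calc 6 * (m i * x) = (6 * m i) * x := by ring
          _ ≤ (5 * mx (m i)) * x := Nat.mul_le_mul_right _ h1
          _ = _ := by ring
      omega
    · have h5' : m i ≤ 4 := by omega
      rcases (show m i = 0 ∨ m i = 1 ∨ m i = 2 ∨ m i = 3 ∨ m i = 4 by omega) with h | h | h | h | h
      · rw [h] at hk; omega
      · rw [h, show 3 * (k + 2) + 2 - 1 = 3 * (k + 2) + 1 by omega, e1] at hk; omega
      · exact Or.inl h
      · exact Or.inr h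
      · rw [h, show 3 * (k + 2) + 2 - 4 = 3 * (k + 1) + 1 by omega, e2] at hk; omega
  refine ⟨h23, ?_⟩
  have hex : ∃ i, m i = 2 := by
    by_contra hcon
    push Not at hcon
    have : ∀ i, m i = 3 := fun i => (h23 i).resolve_left (hcon i)
    simp only [this, Finset.sum_const, smul_eq_mul] at hs
    omega
  obtain ⟨i, hi⟩ := hex
  refine ⟨i, hi, fun j hj => ?_⟩
  by_contra hji
  have h1 := Finset.mul_prod_erase Finset.univ m (Finset.mem_univ i)
  have h2 := Finset.add_sum_erase Finset.univ m (Finset.mem_univ i)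
  have hj' : j ∈ Finset.univ.erase i := by simp [hji]
  have h3' := Finset.mul_prod_erase _ m hj'
  have h4 := Finset.add_sum_erase _ m hj'
  have h5 := prod_le ((Finset.univ.erase i).erase j) m
  have h6 : ∑ x ∈ (Finset.univ.erase i).erase j, m x = 3 * (k + 1) + 1 := by omega
  rw [h6, e2] at h5
  rw [← h1, ← h3', hi, hj] at hp
  omega

section orbits

variable {A Ω : Type*} [Group A] [MulAction A Ω]

/-- an element of an abelian group fixing a point fixes its orbit -/
theorem fix_orbit (hc : ∀ a b : A, a * b = b * a) {a b : A} {x y : Ω} (h : a • x = b • x)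
    (hy : y ∈ orbit A x) : a • y = b • y := by
  obtain ⟨c, rfl⟩ := hy
  show a • c • x = b • c • x
  rw [smul_smul, smul_smul, hc a c, hc b c, mul_smul, mul_smul, h]

theorem card_le_prod [Finite A] [Finite Ω] [FaithfulSMul A Ω]
    [Fintype (orbitRel.Quotient A Ω)] (hc : ∀ a b : A, a * b = b * a) :
    Nat.card A ≤ ∏ ω : orbitRel.Quotient A Ω, Nat.card ω.orbit := by
  classical
  rw [← Nat.card_pi]
  let f : A → ∀ ω : orbitRel.Quotient A Ω, ω.orbit := fun a ω =>
    ⟨a • ω.out, by
      rw [orbitRel.Quotient.orbit_eq_orbit_out ω Quotient.out_eq']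
      exact mem_orbit _ _⟩
  refine Nat.card_le_card_of_injective f ?_
  intro a b hab
  apply FaithfulSMul.eq_of_smul_eq_smul (α := Ω)
  intro x
  let ω : orbitRel.Quotient A Ω := Quotient.mk'' x
  have h1 : a • ω.out = b • ω.out := by
    have := congrFun hab ω
    exact congrArg Subtype.val this
  have h2 : x ∈ orbit A ω.out := by
    have h3 : (Quotient.mk'' ω.out : orbitRel.Quotient A Ω) = Quotient.mk'' x := Quotient.out_eq' _
    exact orbitRel_apply.1 (Quotient.exact' h3.symm)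
  exact fix_orbit hc h1 h2

theorem sum_orbits [Finite Ω] [Fintype (orbitRel.Quotient A Ω)] :
    ∑ ω : orbitRel.Quotient A Ω, Nat.card ω.orbit = Nat.card Ω := by
  classical
  rw [Nat.card_congr (selfEquivSigmaOrbits' A Ω), Nat.card_sigma]

end orbits

theorem upper {n : ℕ} (A : Subgroup (Equiv.Perm (Fin n))) (hA : IsMulCommutative A) :
    Nat.card A ≤ mx n := by
  classical
  have := Fintype.ofFinite (orbitRel.Quotient A (Fin n))
  have h1 := card_le_prod (A := A) (Ω := Fin n) hA.is_comm.comm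
  have h2 := sum_orbits (A := A) (Ω := Fin n)
  rw [Nat.card_fin] at h2
  have h3 := prod_le (Finset.univ : Finset (orbitRel.Quotient A (Fin n))) (fun ω => Nat.card ω.orbit)
  rw [h2] at h3
  exact h1.trans h3

/-- the even case -/
theorem upper_alt {k n : ℕ} (hn : n = 3 * (k + 2) + 2) (A : Subgroup (Equiv.Perm (Fin n)))
    (hA : IsMulCommutative A)
    (hev : ∀ a ∈ A, Equiv.Perm.sign a = 1) :
    Nat.card A ≤ 16 * 3 ^ k := by
  classical
  by_contra hcon
  push Not at hcon
  have := Fintype.ofFinite (orbitRel.Quotient A (Fin n))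
  have h1 := card_le_prod (A := A) (Ω := Fin n) hA.is_comm.comm
  have h2 := sum_orbits (A := A) (Ω := Fin n)
  rw [Nat.card_fin] at h2
  replace h2 := h2.trans hn
  obtain ⟨h23, ω0, h0, huniq⟩ := extremal (fun ω : orbitRel.Quotient A (Fin n) => Nat.card ω.orbit) k h2
    (lt_of_lt_of_le hcon h1)
  -- 2 divides |A|
  have hdiv : 2 ∣ Nat.card A := by
    have h3 : Nat.card (orbit A ω0.out) = 2 := by
      rw [← orbitRel.Quotient.orbit_eq_orbit_out ω0 Quotient.out_eq']; exact h0
    have h4 := MulAction.card_orbit_mul_card_stabilizer_eq_card_group A ω0.out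
    simp only [← Nat.card_eq_fintype_card] at h4
    rw [← h4, h3]
    exact Dvd.intro _ rfl
  haveI : Fact (Nat.Prime 2) := ⟨Nat.prime_two⟩
  obtain ⟨t, ht⟩ := exists_prime_orderOf_dvd_card' 2 hdiv
  have htt : t * t = 1 := by rw [← pow_two, ← ht, pow_orderOf_eq_one]
  -- t fixes every point outside the orbit ω0
  have hfix : ∀ x : Fin n, (Quotient.mk'' x : orbitRel.Quotient A (Fin n)) ≠ ω0 → t • x = x := by
    intro x hx
    have h3 := (h23 (Quotient.mk'' x)).resolve_left (fun h => hx (huniq _ h))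
    rw [orbitRel.Quotient.orbit_mk] at h3
    have h4 := MulAction.card_orbit_mul_card_stabilizer_eq_card_group A x
    have h5 : (stabilizer A x).index = 3 := by
      rw [MulAction.index_stabilizer]; exact h3
    haveI : (stabilizer A x).Normal := ⟨fun a ha b => by
      rw [hA.is_comm.comm b a, mul_inv_cancel_right]; exact ha⟩
    have h6 : t ^ 3 ∈ stabilizer A x := by
      rw [← h5]; exact Subgroup.pow_index_mem _ t
    have h7 : t ^ 3 = t := by rw [pow_succ, pow_two, htt, one_mul]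
    rw [h7] at h6
    exact h6
  have hsupp : (t : Equiv.Perm (Fin n)).support ⊆ (ω0.orbit : Set (Fin n)).toFinset := by
    intro x hx
    rw [Set.mem_toFinset, orbitRel.Quotient.mem_orbit]
    by_contra hne
    exact (Equiv.Perm.mem_support.1 hx) (hfix x hne)
  have hcard : (t : Equiv.Perm (Fin n)).support.card ≤ 2 := by
    refine (Finset.card_le_card hsupp).trans ?_
    rw [Set.toFinset_card, ← Nat.card_eq_fintype_card, h0]
  have ht1 : (t : Equiv.Perm (Fin n)) ≠ 1 := by
    intro h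
    have : t = 1 := Subtype.ext h
    rw [this, orderOf_one] at ht
    omega
  have h8 := Equiv.Perm.two_le_card_support_of_ne_one ht1
  have h9 : (t : Equiv.Perm (Fin n)).IsSwap := Equiv.Perm.card_support_eq_two.1 (le_antisymm hcard h8)
  have h10 := h9.sign_eq
  rw [hev _ t.2] at h10
  exact absurd h10 (by decide)

/-- existence of an abelian (even) subgroup of order `c` -/
def Good (ev : Prop) (α : Type) [Fintype α] [DecidableEq α] (c : ℕ) : Prop :=
  ∃ A : Subgroup (Equiv.Perm α), (ev → ∀ a ∈ A, Equiv.Perm.sign a = 1) ∧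
    (∀ a ∈ A, ∀ b ∈ A, a * b = b * a) ∧ Nat.card A = c

theorem Good.congr {ev : Prop} {α β : Type} [Fintype α] [DecidableEq α] [Fintype β] [DecidableEq β]
    (e : α ≃ β) {c : ℕ} (h : Good ev α c) : Good ev β c := by
  obtain ⟨A, h1, h2, h3⟩ := h
  refine ⟨A.map e.permCongrHom.toMonoidHom, ?_, ?_, ?_⟩
  · rintro hev _ ⟨a, ha, rfl⟩
    show Equiv.Perm.sign (e.permCongr a) = 1
    rw [Equiv.Perm.sign_permCongr]
    exact h1 hev a ha
  · rintro _ ⟨a, ha, rfl⟩ _ ⟨b, hb, rfl⟩
    rw [← map_mul, ← map_mul, h2 a ha b hb]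
  · rw [← h3]
    exact (Nat.card_congr (A.equivMapOfInjective _ (MulEquiv.injective _)).toEquiv).symm

theorem Good.sum {ev : Prop} {α β : Type} [Fintype α] [DecidableEq α] [Fintype β] [DecidableEq β]
    {c d : ℕ} (h : Good ev α c) (h' : Good ev β d) : Good ev (α ⊕ β) (c * d) := by
  obtain ⟨A, h1, h2, h3⟩ := h
  obtain ⟨B, g1, g2, g3⟩ := h'
  refine ⟨(A.prod B).map (Equiv.Perm.sumCongrHom α β), ?_, ?_, ?_⟩
  · rintro hev _ ⟨⟨a, b⟩, hab, rfl⟩
    rw [Equiv.Perm.sumCongrHom_apply, Equiv.Perm.sign_sumCongr, h1 hev a hab.1, g1 hev b hab.2, one_mul]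
  · rintro _ ⟨⟨a, b⟩, hab, rfl⟩ _ ⟨⟨a', b'⟩, hab', rfl⟩
    rw [← map_mul, ← map_mul, Prod.mk_mul_mk, Prod.mk_mul_mk, h2 a hab.1 a' hab'.1, g2 b hab.2 b' hab'.2]
  · rw [← Nat.card_congr ((A.prod B).equivMapOfInjective _ Equiv.Perm.sumCongrHom_injective).toEquiv,
      Nat.card_congr (A.prodEquiv B).toEquiv, Nat.card_prod, h3, g3]

theorem Good.add {ev : Prop} {n m : ℕ} {c d : ℕ} (h : Good ev (Fin n) c) (h' : Good ev (Fin m) d) :
    Good ev (Fin (n + m)) (c * d) :=
  (h.sum h').congr finSumFinEquiv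

theorem good0 (ev : Prop) : Good ev (Fin 0) 1 := by
  refine ⟨⊥, ?_, ?_, by simp⟩
  · rintro _ a ha
    rw [Subgroup.mem_bot.1 ha]; simp
  · intro a ha b hb
    rw [Subgroup.mem_bot.1 ha, Subgroup.mem_bot.1 hb]

theorem good3 (ev : Prop) : Good ev (Fin 3) 3 := by
  refine ⟨Subgroup.zpowers (finRotate 3), ?_, ?_, ?_⟩
  · rintro _ a ⟨i, rfl⟩
    simp only [map_zpow]
    rw [show Equiv.Perm.sign (finRotate 3) = 1 by decide, one_zpow]
  · rintro _ ⟨i, rfl⟩ _ ⟨j, rfl⟩
    exact (Commute.refl _).zpow_zpow i j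
  · rw [Nat.card_zpowers]
    exact orderOf_eq_prime (p := 3) (by decide) (by decide)

theorem good4 (ev : Prop) : Good ev (Fin 4) 4 := by
  let S : Finset (Equiv.Perm (Fin 4)) := {1, Equiv.swap 0 1 * Equiv.swap 2 3,
    Equiv.swap 0 2 * Equiv.swap 1 3, Equiv.swap 0 3 * Equiv.swap 1 2}
  have hmul : ∀ a ∈ S, ∀ b ∈ S, a * b ∈ S ∧ a * b = b * a := by decide
  have hinv : ∀ a ∈ S, a⁻¹ ∈ S ∧ Equiv.Perm.sign a = 1 := by decide
  have hone : (1 : Equiv.Perm (Fin 4)) ∈ S := by decide
  refine ⟨⟨⟨⟨S, fun {a b} ha hb => (hmul a ha b hb).1⟩, hone⟩, fun {a} ha => (hinv a ha).1⟩,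
    ?_, ?_, ?_⟩
  · intro _ a ha
    exact (hinv a ha).2
  · intro a ha b hb
    exact (hmul a ha b hb).2
  · show Nat.card (S : Set (Equiv.Perm (Fin 4))) = 4
    rw [Nat.card_coe_set_eq, Set.ncard_coe_finset]
    decide

theorem good2 : Good False (Fin 2) 2 := by
  refine ⟨⊤, fun h => h.elim, ?_, ?_⟩
  · have : ∀ a b : Equiv.Perm (Fin 2), a * b = b * a := by decide
    exact fun a _ b _ => this a b
  · rw [Subgroup.card_top, Nat.card_eq_fintype_card]
    decide

theorem good3k (ev : Prop) (k : ℕ) : Good ev (Fin (3 * k)) (3 ^ k) := by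
  induction k with
  | zero => exact good0 ev
  | succ k ih => rw [Nat.mul_succ, pow_succ]; exact ih.add (good3 ev)

theorem good3k1 (ev : Prop) (k : ℕ) : Good ev (Fin (3 * (k + 1) + 1)) (4 * 3 ^ k) := by
  have := (good3k ev k).add (good4 ev)
  rw [mul_comm 4, show 3 * (k + 1) + 1 = 3 * k + 4 by ring]
  exact this

theorem good3k2 (k : ℕ) : Good False (Fin (3 * k + 2)) (2 * 3 ^ k) := by
  rw [mul_comm 2]
  exact (good3k False k).add good2

theorem good3k2' (ev : Prop) (k : ℕ) : Good ev (Fin (3 * (k + 2) + 2)) (16 * 3 ^ k) := by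
  have := ((good3k ev k).add (good4 ev)).add (good4 ev)
  rw [show 16 * 3 ^ k = 3 ^ k * 4 * 4 by ring, show 3 * (k + 2) + 2 = 3 * k + 4 + 4 by ring]
  exact this

theorem exists_sym {n c : ℕ} (h : Good False (Fin n) c) :
    ∃ A : Subgroup (Equiv.Perm (Fin n)), IsMulCommutative A ∧ Nat.card A = c := by
  obtain ⟨A, _, h2, h3⟩ := h
  exact ⟨A, ⟨⟨fun a b => Subtype.ext (h2 a a.2 b b.2)⟩⟩, h3⟩

theorem exists_alt {n c : ℕ} (h : Good True (Fin n) c) :
    ∃ A : Subgroup (alternatingGroup (Fin n)), IsMulCommutative A ∧ Nat.card A = c := by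
  obtain ⟨A, h1, h2, h3⟩ := h
  refine ⟨A.subgroupOf (alternatingGroup (Fin n)),
    ⟨⟨fun a b => Subtype.ext (Subtype.ext (h2 _ a.2 _ b.2))⟩⟩, ?_⟩
  rw [← h3]
  exact Nat.card_congr (Subgroup.subgroupOfEquivOfLe (fun a ha => h1 trivial a ha)).toEquiv

theorem alt_to_sym {n : ℕ} (A : Subgroup (alternatingGroup (Fin n))) (hA : IsMulCommutative A) :
    ∃ B : Subgroup (Equiv.Perm (Fin n)), IsMulCommutative B ∧ (∀ b ∈ B, Equiv.Perm.sign b = 1) ∧
      Nat.card B = Nat.card A := by
  refine ⟨A.map (alternatingGroup (Fin n)).subtype, ⟨⟨?_⟩⟩, ?_, ?_⟩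
  · rintro ⟨_, a, ha, rfl⟩ ⟨_, b, hb, rfl⟩
    apply Subtype.ext
    have := congrArg (fun x : A => ((x : alternatingGroup (Fin n)) : Equiv.Perm (Fin n)))
      (hA.is_comm.comm ⟨a, ha⟩ ⟨b, hb⟩)
    exact this
  · rintro _ ⟨a, _, rfl⟩
    exact a.2
  · exact (Nat.card_congr (A.equivMapOfInjective _ (Subgroup.subtype_injective _)).toEquiv).symm

end Cfsg.Agent.H80.AbPerm
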