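import Cfsg.Prelude.Def_Transfer

/-!
# A group of order 512 with a unique abelian subgroup of order 64 (owner: helper80)
-/

set_option autoImplicit false

namespace Cfsg.Agent.H80.Abel64

open Cfsg

variable {S : Type*} [Group S] [Finite S]

theorem card_inf_mul (E A : Subgroup S) : Nat.card ↥(E ⊓ A) * E.relIndex A = Nat.card A := by
  have h := Subgroup.relIndex_mul_relIndex (⊥ : Subgroup S) (E ⊓ A) A bot_le inf_le_right
  rwa [Subgroup.relIndex_bot_left, Subgroup.relIndex_bot_left, Subgroup.inf_relIndex_right] at h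

theorem card_le_two_mul (E X : Subgroup S) {a : S} (h : ∀ b ∈ X, b ∉ E → a⁻¹ * b ∈ E) (ha : a ∈ X) :
    Nat.card X ≤ 2 * Nat.card ↥(E ⊓ X) := by
  have h1 : (X : Set S) ⊆ ((E ⊓ X : Subgroup S) : Set S) ∪ (fun y => a * y) '' ((E ⊓ X : Subgroup S) : Set S) := by
    intro x hx
    by_cases hxE : x ∈ E
    · exact Or.inl ⟨hxE, hx⟩
    · right
      exact ⟨a⁻¹ * x, ⟨h x hx hxE, X.mul_mem (X.inv_mem ha) hx⟩, by simp⟩
  have h2 := Set.ncard_le_ncard h1 (Set.toFinite _)
  have h3 := Set.ncard_union_le ((E ⊓ X : Subgroup S) : Set S) ((fun y => a * y) '' ((E ⊓ X : Subgroup S) : Set S))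
  have h4 := Set.ncard_image_le (s := ((E ⊓ X : Subgroup S) : Set S)) (f := fun y => a * y) (Set.toFinite _)
  rw [← Nat.card_coe_set_eq] at h2 h3
  have e1 : Nat.card ((X : Set S) : Type _) = Nat.card X := rfl
  rw [← Nat.card_coe_set_eq ((E ⊓ X : Subgroup S) : Set S)] at h3 h4
  have e2 : Nat.card (((E ⊓ X : Subgroup S) : Set S) : Type _) = Nat.card ↥(E ⊓ X) := rfl
  have e3 := Nat.card_coe_set_eq (((E ⊓ X : Subgroup S) : Set S) ∪ (fun y => a * y) '' ((E ⊓ X : Subgroup S) : Set S))
  omega

theorem main (hS : Nat.card S = 512) (E : Subgroup S) (hE : Nat.card E = 64)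
    (hcomm : ∀ x ∈ E, ∀ y ∈ E, x * y = y * x) (hsq : ∀ x ∈ E, x ^ 2 = 1)
    (h1 : ∀ a, a ∉ E → {x : S | x ∈ E ∧ x * a = a * x}.ncard ≤ 16)
    (h2 : ∀ a b, a ∉ E → b ∉ E → a⁻¹ * b ∉ E → {x : S | x ∈ E ∧ x * a = a * x ∧ x * b = b * x}.ncard ≤ 8)
    (h3 : {x : S | x ∈ E ∧ ∀ s, x * s = s * x}.ncard ≤ 4) :
    (∀ M : Subgroup S, IsCoatom M → Nat.card ↥(Subgroup.center ↥M) ≤ 8) ∧
      (∃ A : Subgroup S, IsElementaryAbelian 2 A ∧ Nat.card ↥A = 64) ∧
      ∀ A B : Subgroup S, IsMulCommutative ↥A → Nat.card ↥A = 64 → IsMulCommutative ↥B → Nat.card ↥B = 64 → A = B := by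
  have : Fact (Nat.Prime 2) := ⟨Nat.prime_two⟩
  have hidx : E.index = 8 := by
    have := E.card_mul_index
    rw [hE, hS] at this; omega
  have hEc : IsMulCommutative E := ⟨⟨fun x y => Subtype.ext (hcomm x x.2 y y.2)⟩⟩
  have hrel : ∀ A : Subgroup S, E.relIndex A ≤ 8 := by
    intro A
    rw [← hidx, ← Subgroup.relIndex_top_right]
    apply Subgroup.relIndex_le_of_le_right le_top
    rw [Subgroup.relIndex_top_right, hidx]; norm_num
  refine ⟨?_, ⟨E, ⟨hEc, hsq⟩, hE⟩, ?_⟩
  · intro M hM
    have hM256 : Nat.card M = 256 := by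
      have hdvd : Nat.card M ∣ 2 ^ 9 := by
        have := Subgroup.card_subgroup_dvd_card M
        rw [hS] at this; exact this
      obtain ⟨k, hk, hMk⟩ := (Nat.dvd_prime_pow Nat.prime_two).1 hdvd
      have hk9 : k ≠ 9 := by
        rintro rfl
        apply hM.1
        apply Subgroup.eq_top_of_card_eq
        rw [hMk, hS]; norm_num
      have hk8 : k = 8 := by
        by_contra hne
        obtain ⟨K, hK, hMK⟩ := Sylow.exists_subgroup_card_pow_succ (p := 2) (n := k) (by
          rw [hS, show (512 : ℕ) = 2 ^ 9 by norm_num]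
          exact pow_dvd_pow 2 (by omega)) hMk
        have hlt : M < K := by
          refine lt_of_le_of_ne hMK ?_
          rintro rfl
          rw [hMk] at hK
          have := Nat.pow_right_injective (le_refl 2) hK
          omega
        have := hM.2 K hlt
        rw [this, Subgroup.card_top, hS, show (512 : ℕ) = 2 ^ 9 by norm_num] at hK
        have := Nat.pow_right_injective (le_refl 2) hK
        omega
      rw [hMk, hk8]; norm_num
    have hMidx : M.index = 2 := by
      have := M.card_mul_index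
      rw [hM256, hS] at this; omega
    have hEM : 32 ≤ Nat.card ↥(M ⊓ E) := by
      have h4 := card_inf_mul M E
      have h5 : M.relIndex E ≤ 2 := by
        rw [← hMidx, ← Subgroup.relIndex_top_right]
        apply Subgroup.relIndex_le_of_le_right le_top
        rw [Subgroup.relIndex_top_right, hMidx]; norm_num
      rw [hE] at h4
      nlinarith
    have hEM' : Nat.card ↥(E ⊓ M) ≤ 64 := by
      rw [← hE]
      exact Nat.card_le_card_of_injective _ (Subgroup.inclusion_injective (inf_le_left : E ⊓ M ≤ E))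
    obtain ⟨a, haM, haE⟩ : ∃ a ∈ M, a ∉ E := by
      by_contra hc
      push Not at hc
      have := Nat.card_le_card_of_injective _ (Subgroup.inclusion_injective (show M ≤ E from hc))
      omega
    obtain ⟨b, hbM, hbE, hab⟩ : ∃ b ∈ M, b ∉ E ∧ a⁻¹ * b ∉ E := by
      by_contra hc
      push Not at hc
      have := card_le_two_mul E M hc haM
      omega
    have hcE : ∀ c : S, c ∈ M → (∀ m ∈ M, c * m = m * c) → c ∈ E := by
      intro c hcM hc
      by_contra hcE
      have h4 := h1 c hcE
      have h5 : ((M ⊓ E : Subgroup S) : Set S) ⊆ {x : S | x ∈ E ∧ x * c = c * x} := by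
        rintro x ⟨hxM, hxE⟩
        exact ⟨hxE, (hc x hxM).symm⟩
      have h6 := Set.ncard_le_ncard h5 (Set.toFinite _)
      rw [← Nat.card_coe_set_eq] at h6
      have e1 : Nat.card (((M ⊓ E : Subgroup S) : Set S) : Type _) = Nat.card ↥(M ⊓ E) := rfl
      omega
    have h7 : ((fun x : Subgroup.center M => ((x : M) : S)) '' Set.univ) ⊆
        {x : S | x ∈ E ∧ x * a = a * x ∧ x * b = b * x} := by
      rintro _ ⟨x, -, rfl⟩
      have hx := Subgroup.mem_center_iff.1 x.2
      have hc : ∀ m ∈ M, ((x : M) : S) * m = m * (x : M) := fun m hm => (congrArg Subtype.val (hx ⟨m, hm⟩)).symm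
      exact ⟨hcE _ (x : M).2 hc, hc a haM, hc b hbM⟩
    have h8 := Set.ncard_le_ncard h7 (Set.toFinite _)
    rw [Set.ncard_image_of_injective _ (fun x y h => Subtype.ext (Subtype.ext h)), Set.ncard_univ] at h8
    exact h8.trans (h2 a b haE hbE hab)
  · -- uniqueness
    have key : ∀ A : Subgroup S, IsMulCommutative ↥A → Nat.card ↥A = 64 → A = E := by
      intro A hA hA64
      by_contra hne
      have hAc : ∀ x ∈ A, ∀ y ∈ A, x * y = y * x := fun x hx y hy =>
        congrArg Subtype.val (hA.is_comm.comm ⟨x, hx⟩ ⟨y, hy⟩)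
      obtain ⟨a, haA, haE⟩ : ∃ a ∈ A, a ∉ E := by
        by_contra hc
        push Not at hc
        apply hne
        exact Subgroup.eq_of_le_of_card_ge hc (by rw [hE, hA64])
      have h4 : Nat.card ↥(E ⊓ A) ≤ 16 := by
        refine le_trans ?_ (h1 a haE)
        have h5 : ((E ⊓ A : Subgroup S) : Set S) ⊆ {x : S | x ∈ E ∧ x * a = a * x} := by
          rintro x ⟨hxE, hxA⟩
          exact ⟨hxE, hAc x hxA a haA⟩
        have h6 := Set.ncard_le_ncard h5 (Set.toFinite _)
        rw [← Nat.card_coe_set_eq] at h6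
        exact h6
      obtain ⟨b, hbA, hbE, hab⟩ : ∃ b ∈ A, b ∉ E ∧ a⁻¹ * b ∉ E := by
        by_contra hc
        push Not at hc
        have := card_le_two_mul E A hc haA
        omega
      have h5 : Nat.card ↥(E ⊓ A) ≤ 8 := by
        refine le_trans ?_ (h2 a b haE hbE hab)
        have h5 : ((E ⊓ A : Subgroup S) : Set S) ⊆ {x : S | x ∈ E ∧ x * a = a * x ∧ x * b = b * x} := by
          rintro x ⟨hxE, hxA⟩
          exact ⟨hxE, hAc x hxA a haA, hAc x hxA b hbA⟩
        have h6 := Set.ncard_le_ncard h5 (Set.toFinite _)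
        rw [← Nat.card_coe_set_eq] at h6
        exact h6
      have h6 := card_inf_mul E A
      rw [hA64] at h6
      have h7 : 8 ≤ E.relIndex A := by
        by_contra hlt
        have : E.relIndex A ≤ 7 := by omega
        nlinarith
      have h8 : E.relIndex A = 8 := le_antisymm (hrel A) h7
      have h9 : Nat.card ↥(E ⊓ A) = 8 := by rw [h8] at h6; omega
      have h10 : ((E ⊓ A : Subgroup S) : Set S) ⊆ {x : S | x ∈ E ∧ ∀ s, x * s = s * x} := by
        rintro x ⟨hxE, hxA⟩
        refine ⟨hxE, ?_⟩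
        have hAC : A ≤ Subgroup.centralizer {x} := by
          intro y hy
          rw [Subgroup.mem_centralizer_singleton_iff]
          exact hAc y hy x hxA
        have hEC : E ≤ Subgroup.centralizer {x} := by
          intro y hy
          rw [Subgroup.mem_centralizer_singleton_iff]
          exact hcomm y hy x hxE
        have h11 : E.relIndex A ≤ E.relIndex (Subgroup.centralizer {x}) := by
          apply Subgroup.relIndex_le_of_le_right hAC
          have := card_inf_mul E (Subgroup.centralizer {x})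
          intro h0
          rw [h0, mul_zero] at this
          exact Nat.card_pos.ne this
        have h12 := card_inf_mul E (Subgroup.centralizer {x})
        rw [inf_eq_left.2 hEC, hE] at h12
        have h13 : Subgroup.centralizer {x} = ⊤ := by
          apply Subgroup.eq_top_of_le_card
          rw [hS]; omega
        intro s
        have : s ∈ Subgroup.centralizer {x} := by rw [h13]; trivial
        rw [Subgroup.mem_centralizer_singleton_iff] at this
        exact this.symm
      have h14 := Set.ncard_le_ncard h10 (Set.toFinite _)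
      rw [← Nat.card_coe_set_eq] at h14
      have e1 : Nat.card (((E ⊓ A : Subgroup S) : Set S) : Type _) = Nat.card ↥(E ⊓ A) := rfl
      omega
    intro A B hA hA64 hB hB64
    rw [key A hA hA64, key B hB hB64]

end Cfsg.Agent.H80.Abel64
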