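import Cfsg.Agent.H80.ClassTwo
import Cfsg.Agent.Blk.Orth
import Cfsg.Agent.H76.Congr
import Cfsg.Agent.Char.Correspondence

/-!
# Characters of a block over a character of a normal subgroup (owner: helper80)
-/

set_option autoImplicit false

namespace Cfsg.Agent.H80

open scoped ComplexConjugate BigOperators
open Cfsg Cfsg.Agent.CharBase Cfsg.Agent.H75 Cfsg.Agent.Char

universe u v

variable {G : Type u} [Group G] [Fintype G]

/-- `∑_w f(w) χ(w x) = ω_χ(f) χ(x)` for class functions `f`. -/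
theorem sum_classFun_mul {χ : G → ℂ} (hχ : IsIrrCharacter G χ) {f : G → ℂ}
    (hf : IsClassFunction G f) (x : G) :
    ∑ w : G, f w * χ (w * x) = omega χ f * χ x := by
  classical
  obtain ⟨n, ρ, hρ, rfl⟩ := hχ
  have h1 := omega_rep_mul hρ hf (fun y => if y = x then 1 else 0)
  have h0 : ρ.character 1 ≠ 0 := irr_one_ne_zero ⟨n, ρ, hρ, rfl⟩
  have h2 : omega ρ.character (fun y => if y = x then (1 : ℂ) else 0) =
      ρ.character x / ρ.character 1 := by
    unfold omega
    congr 1
    simp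
  have hconv : ∀ z : G, conv f (fun y => if y = x then (1 : ℂ) else 0) z = f (z * x⁻¹) := by
    intro z
    unfold conv
    rw [Finset.sum_eq_single (z * x⁻¹)]
    · dsimp only
      rw [if_pos (by group : (z * x⁻¹)⁻¹ * z = x), mul_one]
    · intro b _ hb
      dsimp only
      rw [if_neg, mul_zero]
      intro h
      apply hb
      rw [← h]; group
    · intro h; exact absurd (Finset.mem_univ _) h
  have h3 : omega ρ.character (conv f (fun y => if y = x then (1 : ℂ) else 0)) =
      (∑ w : G, f w * ρ.character (w * x)) / ρ.character 1 := by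
    unfold omega
    congr 1
    simp only [hconv]
    refine (Fintype.sum_equiv (Equiv.mulRight x) _ _ (fun w => ?_)).symm
    change f w * ρ.character (w * x) = f (w * x * x⁻¹) * ρ.character (w * x)
    rw [mul_inv_cancel_right]
  rw [h2, h3] at h1
  rw [div_eq_iff h0] at h1
  rw [h1]
  field_simp

/-- The scalar attached to `θ^G`. -/
theorem omega_ind (N : Subgroup G) [N.Normal] [Fintype N] (θ : IrrCharacter N) (χ : IrrCharacter G) :
    omega (χ : G → ℂ) (fun g => conj (indFun N (θ : N → ℂ) g)) =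
      if classInner (fun n : N => (χ : G → ℂ) n) (θ : N → ℂ) ≠ 0 then
        (Nat.card G : ℂ) / ((inertia N (θ : N → ℂ)).index * (θ : N → ℂ) 1) else 0 := by
  classical
  have h1 : omega (χ : G → ℂ) (fun g => conj (indFun N (θ : N → ℂ) g)) =
      (Nat.card G : ℂ) * classInner (fun n : N => (χ : G → ℂ) n) (θ : N → ℂ) / (χ : G → ℂ) 1 := by
    rw [← frobenius_reciprocity' N (θ : N → ℂ) _ (irr_isClassFunction χ)]
    unfold omega classInner
    have hG0 : (Nat.card G : ℂ) ≠ 0 := by exact_mod_cast Nat.card_pos.ne'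
    rw [← mul_assoc, mul_inv_cancel₀ hG0, one_mul]
    congr 1
    exact Finset.sum_congr rfl (fun g _ => mul_comm _ _)
  rw [h1]
  split_ifs with h
  · have h2 := clifford_degree N χ.2 θ.2 h
    have h3 := irr_one_ne_zero θ.2
    have h4 : ((inertia N (θ : N → ℂ)).index : ℂ) ≠ 0 := by
      exact_mod_cast Subgroup.index_ne_zero_of_finite
    rw [h2]
    field_simp
  · push Not at h
    rw [h]; simp

variable {p : ℕ} {M : Ideal AlgInt}

open Classical in
/-- The characters of `B` over `θ`: `∑ χ(1) χ(x) = 0` for `p`-elements `x` outside `N`. -/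
theorem sum_over_eq_zero [Fintype (IrrCharacter G)] (hM : IsPModular p M)
    {B : Set (IrrCharacter G)} (hB : IsPBlock M B)
    (N : Subgroup G) [N.Normal] [Fintype N] (θ : IrrCharacter N) {x : G} (hxN : x ∉ N)
    (hx : ∃ k, orderOf x = p ^ k) :
    ∑ χ ∈ Finset.univ.filter (fun χ : IrrCharacter G => χ ∈ B ∧
      classInner (fun n : N => (χ : G → ℂ) n) (θ : N → ℂ) ≠ 0), (χ : G → ℂ) 1 * (χ : G → ℂ) x = 0 := by
  have hcl : IsClassFunction G (fun g => conj (indFun N (θ : N → ℂ) g)) :=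
    isClassFunction_conj (indFun_isClassFunction N _)
  have hΦ : ∀ y : G, p ∣ orderOf y →
      ∑ χ : IrrCharacter G, (if χ ∈ B then (χ : G → ℂ) 1 * (χ : G → ℂ) y else 0) = 0 := by
    intro y hy
    have h1 := Blk.weak_block_orthogonality hM hB (x := 1) (y := y)
      (by rw [orderOf_one]; exact hM.1.one_lt.ne' ∘ Nat.dvd_one.mp) hy
    rw [finsum_mem_eq_finite_toFinset_sum _ (Set.toFinite B)] at h1
    have h2 := congrArg conj h1
    rw [map_sum, map_zero] at h2
    rw [← Finset.sum_filter, ← h2]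
    refine Finset.sum_congr (by ext χ; simp) (fun χ _ => ?_)
    rw [map_mul, Complex.conj_conj, deg_spec χ, Complex.conj_natCast]
  have hsum : ∑ w : G, conj (indFun N (θ : N → ℂ) w) *
      ∑ χ : IrrCharacter G, (if χ ∈ B then (χ : G → ℂ) 1 * (χ : G → ℂ) (w * x) else 0) = 0 := by
    refine Finset.sum_eq_zero (fun w _ => ?_)
    by_cases hw : w ∈ N
    · rw [hΦ, mul_zero]
      obtain ⟨k, hk⟩ := hx
      have h1 : ((w * x : G) : G ⧸ N) = (x : G ⧸ N) := by
        rw [QuotientGroup.mk_mul, (QuotientGroup.eq_one_iff w).mpr hw, one_mul]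
      have h2 : orderOf (x : G ⧸ N) ∣ orderOf (w * x) := by
        rw [← h1]
        exact orderOf_map_dvd (QuotientGroup.mk' N) (w * x)
      refine dvd_trans ?_ h2
      have h3 : orderOf (x : G ⧸ N) ∣ p ^ k := by
        rw [← hk]; exact orderOf_map_dvd (QuotientGroup.mk' N) x
      rw [Nat.dvd_prime_pow hM.1] at h3
      obtain ⟨j, -, hj⟩ := h3
      rw [hj]
      refine dvd_pow_self p ?_
      rintro rfl
      rw [pow_zero, orderOf_eq_one_iff, QuotientGroup.eq_one_iff] at hj
      exact hxN hj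
    · rw [indFun_normal_of_notMem N _ hw, map_zero, zero_mul]
  have hswap : ∑ w : G, conj (indFun N (θ : N → ℂ) w) *
      ∑ χ : IrrCharacter G, (if χ ∈ B then (χ : G → ℂ) 1 * (χ : G → ℂ) (w * x) else 0) =
      ∑ χ : IrrCharacter G, (if χ ∈ B then (χ : G → ℂ) 1 *
        (omega (χ : G → ℂ) (fun g => conj (indFun N (θ : N → ℂ) g)) * (χ : G → ℂ) x) else 0) := by
    simp only [Finset.mul_sum]
    rw [Finset.sum_comm]
    refine Finset.sum_congr rfl (fun χ _ => ?_)
    by_cases hχ : χ ∈ B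
    · simp only [if_pos hχ]
      rw [← sum_classFun_mul χ.2 hcl, Finset.mul_sum]
      exact Finset.sum_congr rfl (fun w _ => by ring)
    · simp only [if_neg hχ, mul_zero, Finset.sum_const_zero]
  rw [hswap] at hsum
  set s : ℂ := (Nat.card G : ℂ) / ((inertia N (θ : N → ℂ)).index * (θ : N → ℂ) 1) with hs
  have hs0 : s ≠ 0 := by
    have h3 := irr_one_ne_zero θ.2
    have h4 : ((inertia N (θ : N → ℂ)).index : ℂ) ≠ 0 := by
      exact_mod_cast Subgroup.index_ne_zero_of_finite
    have hG0 : (Nat.card G : ℂ) ≠ 0 := by exact_mod_cast Nat.card_pos.ne'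
    exact div_ne_zero hG0 (mul_ne_zero h4 h3)
  have h5 : ∑ χ : IrrCharacter G, (if χ ∈ B then (χ : G → ℂ) 1 *
        (omega (χ : G → ℂ) (fun g => conj (indFun N (θ : N → ℂ) g)) * (χ : G → ℂ) x) else 0) =
      s * ∑ χ ∈ Finset.univ.filter (fun χ : IrrCharacter G => χ ∈ B ∧
      classInner (fun n : N => (χ : G → ℂ) n) (θ : N → ℂ) ≠ 0), (χ : G → ℂ) 1 * (χ : G → ℂ) x := by
    rw [Finset.sum_filter, Finset.mul_sum]
    refine Finset.sum_congr rfl (fun χ _ => ?_)
    rw [omega_ind N θ χ]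
    by_cases hχ : χ ∈ B
    · by_cases h6 : classInner (fun n : N => (χ : G → ℂ) n) (θ : N → ℂ) ≠ 0
      · rw [if_pos hχ, if_pos h6, if_pos ⟨hχ, h6⟩]
        ring
      · rw [if_pos hχ, if_neg h6, if_neg (fun h => h6 h.2)]
        ring
    · rw [if_neg hχ, if_neg (fun h => hχ h.1), mul_zero]
  rw [h5] at hsum
  exact (mul_eq_zero.mp hsum).resolve_left hs0

open Classical in
/-- the count modulo `p`. -/
theorem dvd_sum_over [Fintype (IrrCharacter G)] (hM : IsPModular p M)
    {B : Set (IrrCharacter G)} (hB : IsPBlock M B)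
    (N : Subgroup G) [N.Normal] [Fintype N] (θ : IrrCharacter N) {x : G} (hxN : x ∉ N)
    (hx : ∃ k, orderOf x = p ^ k) :
    p ∣ ∑ χ ∈ Finset.univ.filter (fun χ : IrrCharacter G => χ ∈ B ∧
      classInner (fun n : N => (χ : G → ℂ) n) (θ : N → ℂ) ≠ 0), deg χ ^ 2 := by
  have hMp : M.IsPrime := hM.2.1.isPrime
  rw [← Blk.mli_natCast_iff hM]
  have h1 := sum_over_eq_zero hM hB N θ hxN hx
  have h2 : ((∑ χ ∈ Finset.univ.filter (fun χ : IrrCharacter G => χ ∈ B ∧
      classInner (fun n : N => (χ : G → ℂ) n) (θ : N → ℂ) ≠ 0), deg χ ^ 2 : ℕ) : ℂ) =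
      -∑ χ ∈ Finset.univ.filter (fun χ : IrrCharacter G => χ ∈ B ∧
      classInner (fun n : N => (χ : G → ℂ) n) (θ : N → ℂ) ≠ 0),
        (χ : G → ℂ) 1 * ((χ : G → ℂ) x - (χ : G → ℂ) 1) := by
    simp only [mul_sub, Finset.sum_sub_distrib]
    rw [h1]
    push_cast
    rw [zero_sub, neg_neg]
    refine Finset.sum_congr rfl (fun χ _ => ?_)
    rw [deg_spec χ]; ring
  rw [h2]
  refine Blk.mli_neg (Blk.mli_sum _ _ (fun χ _ => ?_))
  exact Blk.mli_mul_left (Blk.mlr_of_isIntegral (irr_isIntegral χ 1))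
    (H76.mli_char_sub_one hM (irr_isCharacter χ) hx)

end Cfsg.Agent.H80
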