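import Cfsg.Agent.H80.ClassTwo
import Cfsg.Agent.H63.PG

/-!
# p-groups with characters of equal degree Galois conjugate (owner: helper80)
-/

set_option autoImplicit false

namespace Cfsg.Agent.H80

open scoped ComplexConjugate BigOperators commutatorElement
open Cfsg Cfsg.Agent.CharBase Cfsg.Agent.H75 Cfsg.Agent.Char

universe u v

variable {P : Type u} [Group P] [Finite P]

theorem mem_comap_center {G : Type u} [Group G] (N : Subgroup G) [N.Normal] (x : G) :
    x ∈ (Subgroup.center (G ⧸ N)).comap (QuotientGroup.mk' N) ↔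
      ∀ y : G, x * y * x⁻¹ * y⁻¹ ∈ N := by
  rw [Subgroup.mem_comap, Subgroup.mem_center_iff]
  constructor
  · intro h y
    have h1 := h (y : G ⧸ N)
    rw [QuotientGroup.mk'_apply, ← QuotientGroup.mk_mul, ← QuotientGroup.mk_mul,
      QuotientGroup.eq] at h1
    have h2 := (inferInstance : N.Normal).conj_mem _ h1 (x * y)
    have h3 : x * y * ((y * x)⁻¹ * (x * y)) * (x * y)⁻¹ = x * y * x⁻¹ * y⁻¹ := by group
    rwa [h3] at h2
  · intro h y
    induction y using QuotientGroup.induction_on with
    | H y =>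
    rw [QuotientGroup.mk'_apply, ← QuotientGroup.mk_mul, ← QuotientGroup.mk_mul, QuotientGroup.eq]
    have h2 := (inferInstance : N.Normal).conj_mem _ (h y) (x * y)⁻¹
    have h3 : (x * y)⁻¹ * (x * y * x⁻¹ * y⁻¹) * (x * y)⁻¹⁻¹ = (y * x)⁻¹ * (x * y) := by group
    rwa [h3] at h2

theorem commutator_central_of_card {p : ℕ} [Fact p.Prime] (hP : IsPGroup p P)
    (h : Nat.card (commutator P) = p) (x y : P) : x * y * x⁻¹ * y⁻¹ ∈ Subgroup.center P :=
  H63.le_center_of_card_eq_prime hP (commutator P) h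
    (Subgroup.commutator_mem_commutator (Subgroup.mem_top x) (Subgroup.mem_top y))

theorem mem_ker_zpow {G : Type u} [Group G] [Finite G] (χ : IrrCharacter G) {x y : G}
    (hx : (χ : G → ℂ) x = (χ : G → ℂ) 1) (hy : y ∈ Subgroup.zpowers x) :
    (χ : G → ℂ) y = (χ : G → ℂ) 1 := by
  rw [← mem_charKer (irr_isCharacter χ)] at hx ⊢
  exact (Subgroup.zpowers_le.mpr hx) hy

/-- `|P'| = p`: a faithful nonlinear character exists. -/
theorem SameKer.claim1 {p : ℕ} [hp : Fact p.Prime] (h : SameKer P)
    (hc : Nat.card (commutator P) = p) : ∃ χ : IrrCharacter P, deg χ ≠ 1 ∧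
      ∀ g : P, (χ : P → ℂ) g = (χ : P → ℂ) 1 → g = 1 := by
  have hnt : Nontrivial (commutator P) := by
    rw [← Finite.one_lt_card_iff_nontrivial, hc]
    exact hp.out.one_lt
  obtain ⟨⟨z, hz⟩, hz1⟩ := exists_ne (1 : commutator P)
  have hz1' : z ≠ 1 := fun h0 => hz1 (Subtype.ext h0)
  obtain ⟨χ, hχ⟩ := exists_irr_ne_one hz1'
  have hd : deg χ ≠ 1 := fun h0 => hχ (mem_ker_of_linear χ h0 hz)
  refine ⟨χ, hd, fun x hx => ?_⟩
  by_contra hx1
  have hxc := h.ker_le χ hd hx
  apply hχ
  apply mem_ker_zpow χ hx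
  have h1 : Subgroup.zpowers (⟨x, hxc⟩ : commutator P) = ⊤ := by
    apply Subgroup.eq_top_of_card_eq
    rw [Nat.card_zpowers, hc]
    have h4 : orderOf (⟨x, hxc⟩ : commutator P) ∣ p := hc ▸ orderOf_dvd_natCard _
    rcases (Nat.dvd_prime hp.out).mp h4 with h5 | h5
    · exact absurd (congrArg Subtype.val (orderOf_eq_one_iff.mp h5)) hx1
    · exact h5
  obtain ⟨i, hi⟩ : (⟨z, hz⟩ : commutator P) ∈ Subgroup.zpowers (⟨x, hxc⟩ : commutator P) := by
    rw [h1]; trivial
  exact ⟨i, congrArg Subtype.val hi⟩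

/-- index of the preimage of a cyclic centre of a quotient. -/
theorem card_comap_center_dvd {p : ℕ} (L : Subgroup P) [L.Normal]
    (hP : ∀ x y : P, x * y * x⁻¹ * y⁻¹ ∈ Subgroup.center P)
    (hL : L ≤ Subgroup.center P) (hLp : ∀ l ∈ L, l ^ p = 1) (hcyc : IsCyclic (Subgroup.center (P ⧸ L))) :
    ∃ a, a ∣ p ∧ Nat.card ((Subgroup.center (P ⧸ L)).comap (QuotientGroup.mk' L)) =
      Nat.card (Subgroup.center P) * a := by
  set Z := (Subgroup.center (P ⧸ L)).comap (QuotientGroup.mk' L) with hZ
  have hle : Subgroup.center P ≤ Z := by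
    intro x hx
    rw [hZ, mem_comap_center]
    intro y
    have h1 := Subgroup.mem_center_iff.mp hx y
    have : x * y * x⁻¹ * y⁻¹ = 1 := by rw [← h1]; group
    rw [this]; exact L.one_mem
  obtain ⟨⟨c, hc⟩, hgen⟩ := hcyc.exists_generator
  obtain ⟨x, rfl⟩ := QuotientGroup.mk_surjective c
  have hxZ : x ∈ Z := hc
  have hxp : x ^ p ∈ Subgroup.center P := by
    rw [Subgroup.mem_center_iff]
    intro y
    set t := x * y * x⁻¹ * y⁻¹ with ht
    have htL : t ∈ L := (mem_comap_center L x).mp hxZ y
    have htc : t ∈ Subgroup.center P := hP x y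
    have h1 : ∀ k : ℕ, x ^ k * y = t ^ k * y * x ^ k := by
      intro k
      induction k with
      | zero => simp
      | succ k ih =>
        have hcomm : ∀ w : P, w * t = t * w := fun w => Subgroup.mem_center_iff.mp htc w
        have hxy : x * y = t * y * x := by rw [ht]; group
        rw [pow_succ', mul_assoc, ih]
        have h2 : x * (t ^ k * y * x ^ k) = t ^ k * (x * y) * x ^ k := by
          have h3 : x * t ^ k = t ^ k * x := (Commute.pow_right (hcomm x) k)
          calc x * (t ^ k * y * x ^ k) = (x * t ^ k) * y * x ^ k := by group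
            _ = t ^ k * x * y * x ^ k := by rw [h3]
            _ = _ := by group
        rw [h2, hxy]
        calc t ^ k * (t * y * x) * x ^ k = (t ^ k * t) * y * (x * x ^ k) := by group
          _ = _ := by rw [← pow_succ]
    rw [h1 p, hLp t htL, one_mul]
  refine ⟨(Subgroup.center P).relIndex Z, ?_, (H63.card_mul_relIndex hle).symm⟩
  have h2 : (QuotientGroup.mk' (Subgroup.center P)).ker.relIndex Z =
      Nat.card (Z.map (QuotientGroup.mk' (Subgroup.center P))) := Subgroup.relIndex_ker _ _
  rw [QuotientGroup.ker_mk'] at h2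
  rw [h2]
  have h3 : Z.map (QuotientGroup.mk' (Subgroup.center P)) ≤
      Subgroup.zpowers (QuotientGroup.mk' (Subgroup.center P) x) := by
    rintro _ ⟨y, hy, rfl⟩
    obtain ⟨j, hj⟩ := hgen ⟨(y : P ⧸ L), hy⟩
    have h4 : (x : P ⧸ L) ^ j = (y : P ⧸ L) := congrArg Subtype.val hj
    rw [← QuotientGroup.mk_zpow, QuotientGroup.eq] at h4
    refine ⟨j, ?_⟩
    change (QuotientGroup.mk' (Subgroup.center P) x) ^ j = _
    rw [← map_zpow, QuotientGroup.mk'_apply, QuotientGroup.mk'_apply, QuotientGroup.eq]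
    exact hL h4
  refine (Subgroup.card_dvd_of_le h3).trans ?_
  rw [Nat.card_zpowers, orderOf_dvd_iff_pow_eq_one, ← map_pow, QuotientGroup.mk'_apply,
    QuotientGroup.eq_one_iff]
  exact hxp

/-- An abelian subgroup together with an element centralizing it. -/
theorem comm_sup_zpowers {G : Type u} [Group G] (A : Subgroup G) (c : G)
    (hA : ∀ a ∈ A, ∀ b ∈ A, a * b = b * a) (hc : ∀ a ∈ A, a * c = c * a) :
    ∀ a b : (A ⊔ Subgroup.zpowers c : Subgroup G), a * b = b * a := by
  set B := A ⊔ Subgroup.zpowers c with hB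
  have h1 : B ≤ Subgroup.centralizer (B : Set G) := by
    have hAA : A ≤ Subgroup.centralizer (A : Set G) := fun a ha b hb => hA b hb a ha
    have h2 : A ≤ Subgroup.centralizer (B : Set G) := by
      rw [← Subgroup.le_centralizer_iff, hB]
      refine sup_le hAA ?_
      rw [Subgroup.zpowers_le]
      exact fun a ha => hc a ha
    have h3 : Subgroup.zpowers c ≤ Subgroup.centralizer (B : Set G) := by
      rw [← Subgroup.le_centralizer_iff, hB]
      refine sup_le ?_ ?_
      · rw [Subgroup.le_centralizer_iff, Subgroup.zpowers_le]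
        exact fun a ha => hc a ha
      · rintro a ⟨i, rfl⟩ b ⟨j, rfl⟩
        exact (Commute.refl c).zpow_zpow j i
    rw [hB] at h2 h3 ⊢
    exact sup_le h2 h3
  intro a b
  exact Subtype.ext (h1 b.2 a a.2)

/-- deflation to the quotient by the kernel, with degree formula. -/
theorem deg_sq_of_central (ψ : IrrCharacter P)
    (hc : ∀ x y : P, x * y * x⁻¹ * y⁻¹ ∈ Subgroup.center P) :
    ∃ R : Subgroup P, (∀ x, x ∈ R ↔ ∀ y : P, (ψ : P → ℂ) (x * y * x⁻¹ * y⁻¹) = (ψ : P → ℂ) 1) ∧
      deg ψ ^ 2 = R.index := by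
  have hn := charKer_normal (irr_isCharacter ψ)
  obtain ⟨ψ', h1, h2⟩ := exists_deflate_ker ψ _ le_rfl
  refine ⟨(Subgroup.center (P ⧸ charKer (irr_isCharacter ψ))).comap (QuotientGroup.mk' _), ?_, ?_⟩
  · intro x
    rw [mem_comap_center]
    simp only [mem_charKer]
  · rw [Subgroup.index_comap_of_surjective _ (QuotientGroup.mk'_surjective _), ← h2]
    apply deg_sq_eq_index_center
    · intro g
      induction g using QuotientGroup.induction_on with
      | H x =>
      intro hx
      rw [h1, ← QuotientGroup.mk_one, h1] at hx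
      rw [QuotientGroup.eq_one_iff, mem_charKer]
      exact hx
    · intro x y
      induction x using QuotientGroup.induction_on with
      | H x =>
      induction y using QuotientGroup.induction_on with
      | H y =>
      rw [Subgroup.mem_center_iff]
      intro g
      induction g using QuotientGroup.induction_on with
      | H g =>
      have h3 := Subgroup.mem_center_iff.mp (hc x y) g
      exact congrArg (QuotientGroup.mk : P → P ⧸ charKer (irr_isCharacter ψ)) h3

theorem sq_parity {p a b d e : ℕ} (hp : p.Prime) (hd : 0 < d) (he : 0 < e) (ha : a ∣ p) (hb : b ∣ p)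
    (h : a * d ^ 2 = b * e ^ 2) : d = e := by
  have key : ∀ {d e : ℕ}, 0 < d → 0 < e → d ^ 2 ≠ p * e ^ 2 := by
    intro d e hd he h
    have h1 : (d ^ 2).factorization p = (p * e ^ 2).factorization p := by rw [h]
    rw [Nat.factorization_mul hp.ne_zero (pow_pos he 2).ne', Nat.factorization_pow,
      Nat.factorization_pow] at h1
    simp only [Finsupp.add_apply, Finsupp.smul_apply, hp.factorization_self, smul_eq_mul] at h1
    omega
  rcases (Nat.dvd_prime hp).mp ha with rfl | rfl <;> rcases (Nat.dvd_prime hp).mp hb with rfl | rfl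
  · rw [one_mul, one_mul] at h
    exact Nat.pow_left_injective (by norm_num : 2 ≠ 0) h
  · rw [one_mul] at h
    exact absurd h (key hd he)
  · rw [one_mul] at h
    exact absurd h.symm (key he hd)
  · exact Nat.pow_left_injective (by norm_num : 2 ≠ 0) (Nat.eq_of_mul_eq_mul_left hp.pos h)

end Cfsg.Agent.H80
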