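import Cfsg.Agent.H80.GalConj

/-!
# p-groups with characters of equal degree Galois conjugate: main induction (owner: helper80)
-/

set_option autoImplicit false

namespace Cfsg.Agent.H80

open scoped ComplexConjugate BigOperators commutatorElement
open Cfsg Cfsg.Agent.CharBase Cfsg.Agent.H75 Cfsg.Agent.Char

universe u v

/-- The `|P'| = p²` situation with `P'` central. -/
theorem caseA {p : ℕ} [hp : Fact p.Prime] {P : Type u} [Group P] [Finite P]
    (N : Subgroup P) [N.Normal] (hNc : N ≤ Subgroup.center P)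
    (hN : Nat.card N = p) {z : P} (hzN : z ∈ N) (hNP : N ≤ commutator P)
    (hP2 : Nat.card (commutator P) = p * p)
    (ih : ∀ L : Subgroup P, ∀ [L.Normal], L ≠ ⊥ → L < commutator P →
      IsCyclic (Subgroup.center (P ⧸ L)))
    (hcent : commutator P ≤ Subgroup.center P)
    {d : ℕ} (hdpos : 0 < d) (hd : d ^ 2 = (Subgroup.center (P ⧸ N)).index)
    (ψ : IrrCharacter P) (hψ : (ψ : P → ℂ) z ≠ (ψ : P → ℂ) 1) : d = deg ψ := by
  have hpp := hp.out
  have hcen : ∀ x y : P, x * y * x⁻¹ * y⁻¹ ∈ Subgroup.center P := fun x y => hcent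
    (Subgroup.commutator_mem_commutator (Subgroup.mem_top x) (Subgroup.mem_top y))
  -- the preimage of the centre of P/N
  have hNlt : N < commutator P := by
    refine lt_of_le_of_ne hNP ?_
    intro h0
    rw [← h0, hN] at hP2
    have := hpp.one_lt
    nlinarith
  have hNbot : N ≠ ⊥ := by
    rintro rfl
    rw [Subgroup.card_bot] at hN
    exact hpp.one_lt.ne hN
  have hpow : ∀ (L : Subgroup P), Nat.card L = p → ∀ l ∈ L, l ^ p = 1 := by
    intro L hL l hl
    have : (⟨l, hl⟩ : L) ^ p = 1 := by rw [← hL]; exact pow_card_eq_one'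
    exact congrArg Subtype.val this
  obtain ⟨a, ha, haZ⟩ := card_comap_center_dvd (p := p) N hcen hNc (hpow N hN) (ih N hNbot hNlt)
  have hZ1 := ((Subgroup.center (P ⧸ N)).comap (QuotientGroup.mk' N)).card_mul_index
  rw [Subgroup.index_comap_of_surjective _ (QuotientGroup.mk'_surjective _), ← hd, haZ] at hZ1
  -- the subgroup attached to ψ
  obtain ⟨R, hR, hRd⟩ := deg_sq_of_central ψ hcen
  have hR1 := R.card_mul_index
  rw [← hRd] at hR1
  have hker := charKer_normal (irr_isCharacter ψ)
  set L := charKer (irr_isCharacter ψ) ⊓ commutator P with hL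
  have hLn : L.Normal := by rw [hL]; infer_instance
  have hzL : z ∉ L := fun h0 => hψ ((mem_charKer _ _).mp h0.1)
  have hLlt : L < commutator P := lt_of_le_of_ne inf_le_right (fun h0 => hzL (h0 ▸ hNP hzN))
  have hRL : ∀ x, x ∈ R ↔ ∀ y : P, x * y * x⁻¹ * y⁻¹ ∈ L := by
    intro x
    rw [hR]
    constructor
    · intro h1 y
      exact ⟨(mem_charKer _ _).mpr (h1 y), Subgroup.commutator_mem_commutator
        (Subgroup.mem_top x) (Subgroup.mem_top y)⟩
    · intro h1 y
      exact (mem_charKer _ _).mp (h1 y).1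
  have hb : ∃ b, b ∣ p ∧ Nat.card R = Nat.card (Subgroup.center P) * b := by
    by_cases hLb : L = ⊥
    · refine ⟨1, one_dvd _, ?_⟩
      have : R = Subgroup.center P := by
        ext x
        rw [hRL, hLb, Subgroup.mem_center_iff]
        constructor
        · intro h1 y
          have h2 := Subgroup.mem_bot.mp (h1 y)
          have h3 : x * y * x⁻¹ = y := mul_inv_eq_one.mp h2
          exact (mul_inv_eq_iff_eq_mul.mp h3).symm
        · intro h1 y
          rw [Subgroup.mem_bot, ← h1 y]; group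
      rw [this, mul_one]
    · have hLp : Nat.card L = p := by
        have h1 : Nat.card L ∣ p * p := by rw [← hP2]; exact Subgroup.card_dvd_of_le hLlt.le
        have h2 : Nat.card L ∣ p ^ 2 := by rwa [sq]
        rw [Nat.dvd_prime_pow hpp] at h2
        obtain ⟨k, hk, hk2⟩ := h2
        interval_cases k
        · exact absurd (Subgroup.card_eq_one.mp (by simpa using hk2)) hLb
        · simpa using hk2
        · exfalso
          have h3 : L = commutator P := Subgroup.eq_of_le_of_card_ge hLlt.le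
            (by rw [hP2, hk2, sq])
          exact hLlt.ne h3
      obtain ⟨b, hb, hbZ⟩ := card_comap_center_dvd (p := p) L hcen (hLlt.le.trans hcent)
        (hpow L hLp) (ih L hLb hLlt)
      refine ⟨b, hb, ?_⟩
      rw [← hbZ]
      congr 1
      have : R = (Subgroup.center (P ⧸ L)).comap (QuotientGroup.mk' L) := by
        ext x
        rw [hRL, mem_comap_center]
      rw [this]
  obtain ⟨b, hb, hbR⟩ := hb
  rw [hbR] at hR1
  apply sq_parity hpp hdpos (deg_pos ψ) ha hb
  have h1 : 0 < Nat.card (Subgroup.center P) := Nat.card_pos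
  apply Nat.eq_of_mul_eq_mul_left h1
  rw [← mul_assoc, hZ1, ← mul_assoc, hR1]

theorem deg_eq_p_of_le {p : ℕ} [hp : Fact p.Prime] {P : Type u} [Group P] [Finite P]
    (hP : IsPGroup p P) (χ : IrrCharacter P) (h1 : deg χ ≠ 1) (hle : deg χ ≤ p) : deg χ = p := by
  obtain ⟨n, hn⟩ := IsPGroup.iff_card.mp hP
  have h2 := deg_dvd χ
  rw [hn, Nat.dvd_prime_pow hp.out] at h2
  obtain ⟨k, -, hk⟩ := h2
  rw [hk] at h1 hle ⊢
  have hk0 : k ≠ 0 := by rintro rfl; exact h1 (pow_zero p)
  have hk1 : k ≤ 1 := (Nat.pow_le_pow_iff_right hp.out.one_lt).mp (by rwa [pow_one])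
  have : k = 1 := by omega
  rw [this, pow_one]

/-- The `|P'| = p²` situation with `P'` not central. -/
theorem caseB {p : ℕ} [hp : Fact p.Prime] {P : Type u} [Group P] [Finite P] (hP : IsPGroup p P)
    (N : Subgroup P) [N.Normal] (hNc : N ≤ Subgroup.center P)
    (hN : Nat.card N = p) {z : P} (hzN : z ∈ N) (hNP : N ≤ commutator P)
    (hP2 : Nat.card (commutator P) = p * p)
    (hQ : Nat.card (commutator (P ⧸ N)) = p)
    (hcyc : IsCyclic (Subgroup.center (P ⧸ N)))
    (hcent : ¬ commutator P ≤ Subgroup.center P)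
    (χ' : IrrCharacter (P ⧸ N)) (hd : deg χ' ^ 2 = (Subgroup.center (P ⧸ N)).index)
    (hd1 : deg χ' ≠ 1)
    (ψ : IrrCharacter P) (hψ : (ψ : P → ℂ) z ≠ (ψ : P → ℂ) 1) : deg χ' = deg ψ := by
  classical
  have := Fintype.ofFinite P
  have := Fintype.ofFinite (P ⧸ N)
  have hpp := hp.out
  have hQp : IsPGroup p (P ⧸ N) := hP.to_quotient N
  obtain ⟨w, hw, hwc⟩ := SetLike.not_le_iff_exists.mp hcent
  have hwN : w ∉ N := fun h0 => hwc (hNc h0)
  set Zt := (Subgroup.center (P ⧸ N)).comap (QuotientGroup.mk' N) with hZt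
  have hmemZ : ∀ x, x ∈ Zt ↔ ∀ y : P, x * y * x⁻¹ * y⁻¹ ∈ N := fun x => mem_comap_center N x
  have hPZ : commutator P ≤ Zt := by
    intro x hx
    rw [hZt, Subgroup.mem_comap]
    apply H63.le_center_of_card_eq_prime hQp (commutator (P ⧸ N)) hQ
    have h1 : (commutator P).map (QuotientGroup.mk' N) ≤ commutator (P ⧸ N) := by
      rw [commutator_def, commutator_def, Subgroup.map_commutator]
      exact Subgroup.commutator_mono le_top le_top
    exact h1 ⟨x, hx, rfl⟩
  -- centralizer of an element of Zt has index at most p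
  have hcentidx : ∀ x ∈ Zt, (Subgroup.centralizer ({x} : Set P)).index ≤ p := by
    intro x hx
    rw [← card_isConj_eq_index, ← hN]
    refine Nat.card_le_card_of_injective
      (fun y : {y : P // IsConj x y} => (⟨x * y.1⁻¹, ?_⟩ : N)) ?_
    · obtain ⟨y, hy⟩ := y
      obtain ⟨g, rfl⟩ := isConj_iff.mp hy
      have h1 := (hmemZ x).mp hx g
      have h2 : x * (g * x * g⁻¹)⁻¹ = x * g * x⁻¹ * g⁻¹ := by group
      rw [h2]; exact h1
    · intro a b hab
      have h1 := congrArg Subtype.val hab
      exact Subtype.ext (inv_injective (mul_left_cancel h1))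
  set C := Subgroup.centralizer ({w} : Set P) with hC
  have hCidx : C.index = p := by
    have h1 := hcentidx w (hPZ hw)
    rw [← hC] at h1
    have h2 : C.index ∣ Nat.card P := C.index_dvd_card
    obtain ⟨n, hn⟩ := IsPGroup.iff_card.mp hP
    rw [hn, Nat.dvd_prime_pow hpp] at h2
    obtain ⟨k, -, hk⟩ := h2
    have hk0 : k ≠ 0 := by
      rintro rfl
      rw [pow_zero, Subgroup.index_eq_one] at hk
      apply hwc
      rw [Subgroup.mem_center_iff]
      intro g
      have : g ∈ C := by rw [hk]; trivial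
      exact Subgroup.mem_centralizer_singleton_iff.mp this
    rw [hk] at h1 ⊢
    have hk1 : k ≤ 1 := (Nat.pow_le_pow_iff_right hpp.one_lt).mp (by rwa [pow_one])
    have : k = 1 := by omega
    rw [this, pow_one]
  -- Zt centralizes P'
  have hZP : Zt ≤ Subgroup.centralizer (commutator P : Set P) := by
    have h1 : ⁅Zt, (⊤ : Subgroup P)⁆ ≤ N := by
      rw [Subgroup.commutator_le]
      intro x hx y _
      exact (hmemZ x).mp hx y
    have h2 : ⁅⁅Zt, (⊤ : Subgroup P)⁆, (⊤ : Subgroup P)⁆ = ⊥ := by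
      rw [Subgroup.commutator_eq_bot_iff_le_centralizer]
      refine (h1.trans hNc).trans ?_
      rw [Subgroup.coe_top, Subgroup.centralizer_univ]
    have h3 : ⁅⁅(⊤ : Subgroup P), (⊤ : Subgroup P)⁆, Zt⁆ = ⊥ := by
      apply Subgroup.commutator_commutator_eq_bot_of_rotate
      · rw [Subgroup.commutator_comm ⊤ Zt]; exact h2
      · exact h2
    rw [← Subgroup.commutator_eq_bot_iff_le_centralizer, Subgroup.commutator_comm, commutator_def]
    exact h3
  have hZC : Zt ≤ C := by
    intro x hx
    rw [hC, Subgroup.mem_centralizer_singleton_iff]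
    exact (hZP hx w hw).symm
  -- C centralizes P'
  have hCP : C ≤ Subgroup.centralizer (commutator P : Set P) := by
    intro c hc
    have h1 : commutator P ≤ Subgroup.centralizer ({c} : Set P) := by
      have h2 : commutator P ⊓ Subgroup.centralizer ({c} : Set P) = commutator P := by
        have h3 : N < commutator P ⊓ Subgroup.centralizer ({c} : Set P) := by
          refine lt_of_le_of_ne (le_inf hNP ?_) ?_
          · intro n hn
            rw [Subgroup.mem_centralizer_singleton_iff]
            exact (Subgroup.mem_center_iff.mp (hNc hn) c).symm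
          · intro h0
            apply hwN
            rw [h0]
            refine Subgroup.mem_inf.mpr ⟨hw, ?_⟩
            rw [Subgroup.mem_centralizer_singleton_iff]
            rw [hC, Subgroup.mem_centralizer_singleton_iff] at hc
            exact hc.symm
        have h4 : Nat.card N < Nat.card ↥(commutator P ⊓ Subgroup.centralizer ({c} : Set P)) :=
          Set.ncard_lt_ncard h3 (Set.toFinite _)
        have h5 : Nat.card ↥(commutator P ⊓ Subgroup.centralizer ({c} : Set P)) ∣ p ^ 2 := by
          rw [sq, ← hP2]; exact Subgroup.card_dvd_of_le inf_le_left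
        rw [Nat.dvd_prime_pow hpp] at h5
        obtain ⟨k, hk, hk2⟩ := h5
        apply Subgroup.eq_of_le_of_card_ge inf_le_left
        rw [hN, hk2] at h4
        have hk1 : 1 < k := (Nat.pow_lt_pow_iff_right hpp.one_lt).mp (by rwa [pow_one])
        have : k = 2 := by omega
        rw [hk2, this, hP2, sq]
      rw [← h2]; exact inf_le_right
    intro u hu
    have := Subgroup.mem_centralizer_singleton_iff.mp (h1 hu)
    exact this
  -- C' ≤ N
  have hCN : ∀ a ∈ C, ∀ b ∈ C, a * b * a⁻¹ * b⁻¹ ∈ N := by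
    have h1 : ⁅⁅C, (⊤ : Subgroup P)⁆, C⁆ = ⊥ := by
      rw [Subgroup.commutator_eq_bot_iff_le_centralizer, Subgroup.le_centralizer_iff]
      refine hCP.trans (Subgroup.centralizer_le ?_)
      exact Subgroup.commutator_mono le_top le_top
    have h2 : ⁅⁅C, C⁆, (⊤ : Subgroup P)⁆ = ⊥ := by
      apply Subgroup.commutator_commutator_eq_bot_of_rotate
      · exact h1
      · rw [Subgroup.commutator_comm ⊤ C]; exact h1
    have h3 : ⁅C, C⁆ ≤ Subgroup.center P := by
      rw [Subgroup.commutator_eq_bot_iff_le_centralizer, Subgroup.coe_top,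
        Subgroup.centralizer_univ] at h2
      exact h2
    have h4 : commutator P ⊓ Subgroup.center P = N := by
      symm
      apply Subgroup.eq_of_le_of_card_ge (le_inf hNP hNc)
      have h5 : commutator P ⊓ Subgroup.center P < commutator P :=
        lt_of_le_of_ne inf_le_left (fun h0 => hcent (inf_eq_left.mp h0))
      have h6 : Nat.card ↥(commutator P ⊓ Subgroup.center P) < Nat.card (commutator P) :=
        Set.ncard_lt_ncard h5 (Set.toFinite _)
      have h7 : Nat.card ↥(commutator P ⊓ Subgroup.center P) ∣ p ^ 2 := by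
        rw [sq, ← hP2]; exact Subgroup.card_dvd_of_le inf_le_left
      rw [Nat.dvd_prime_pow hpp] at h7
      obtain ⟨k, hk, hk2⟩ := h7
      rw [hk2, hP2, ← sq] at h6
      have hk1 : k < 2 := (Nat.pow_lt_pow_iff_right hpp.one_lt).mp h6
      rw [hk2, hN]
      calc p ^ k ≤ p ^ 1 := Nat.pow_le_pow_right hpp.pos (by omega)
        _ = p := pow_one p
    intro a ha b hb
    rw [← h4]
    exact ⟨Subgroup.commutator_mem_commutator (Subgroup.mem_top a) (Subgroup.mem_top b),
      h3 (Subgroup.commutator_mem_commutator ha hb)⟩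
  -- degree of χ'
  have hNC : N ≤ C := fun n hn => by
    rw [hC, Subgroup.mem_centralizer_singleton_iff]
    exact (Subgroup.mem_center_iff.mp (hNc hn) w).symm
  have hχ'p : deg χ' = p := by
    apply deg_eq_p_of_le hQp χ' hd1
    have h1 := deg_le_index_of_comm χ' (C.map (QuotientGroup.mk' N)) (by
      rintro ⟨_, a, ha, rfl⟩ ⟨_, b, hb, rfl⟩
      apply Subtype.ext
      change (QuotientGroup.mk' N a) * (QuotientGroup.mk' N b) =
        (QuotientGroup.mk' N b) * (QuotientGroup.mk' N a)
      rw [← map_mul, ← map_mul, QuotientGroup.mk'_apply, QuotientGroup.mk'_apply, QuotientGroup.eq]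
      have h2 := (inferInstance : N.Normal).conj_mem _ (hCN b⁻¹ (C.inv_mem hb) a⁻¹ (C.inv_mem ha)) 1
      have h3 : 1 * (b⁻¹ * a⁻¹ * b⁻¹⁻¹ * a⁻¹⁻¹) * 1⁻¹ = (a * b)⁻¹ * (b * a) := by group
      rwa [h3] at h2)
    have h2 : (C.map (QuotientGroup.mk' N)).index = C.index := by
      rw [Subgroup.index_map_eq _ (QuotientGroup.mk'_surjective _)]
      rw [QuotientGroup.ker_mk']; exact hNC
    rwa [h2, hCidx] at h1
  -- C is abelian
  have hZidx : Zt.index = p ^ 2 := by
    rw [hZt, Subgroup.index_comap_of_surjective _ (QuotientGroup.mk'_surjective _), ← hd, hχ'p]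
  obtain ⟨⟨c, hc⟩, hgen⟩ := hcyc.exists_generator
  obtain ⟨z0, rfl⟩ := QuotientGroup.mk_surjective c
  have hz0Z : z0 ∈ Zt := hc
  have hexp : ∀ y ∈ Zt, ∃ j : ℤ, ∃ n ∈ N, y = z0 ^ j * n := by
    intro y hy
    obtain ⟨j, hj⟩ := hgen ⟨(y : P ⧸ N), hy⟩
    have h4 : (z0 : P ⧸ N) ^ j = (y : P ⧸ N) := congrArg Subtype.val hj
    rw [← QuotientGroup.mk_zpow, QuotientGroup.eq] at h4
    exact ⟨j, _, h4, by group⟩
  have hcz : Subgroup.centralizer ({z0} : Set P) = C := by
    have h1 : Subgroup.centralizer ({z0} : Set P) ≤ C := by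
      intro g hg
      rw [Subgroup.mem_centralizer_singleton_iff] at hg
      rw [hC, Subgroup.mem_centralizer_singleton_iff]
      obtain ⟨j, n, hn, hj⟩ := hexp w (hPZ hw)
      have h2 : Commute g (z0 ^ j) := (show Commute g z0 from hg).zpow_right j
      have h3 : Commute g n := Subgroup.mem_center_iff.mp (hNc hn) g
      rw [hj]
      exact h2.mul_right h3
    apply Subgroup.eq_of_le_of_card_ge h1
    have h2 := hcentidx z0 hz0Z
    have h3 := C.card_mul_index
    have h4 := (Subgroup.centralizer ({z0} : Set P)).card_mul_index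
    rw [hCidx] at h3
    by_contra h5
    push Not at h5
    have h6 : Nat.card (Subgroup.centralizer ({z0} : Set P)) *
        (Subgroup.centralizer ({z0} : Set P)).index < Nat.card C * p :=
      lt_of_le_of_lt (Nat.mul_le_mul_left _ h2) (Nat.mul_lt_mul_of_pos_right h5 hpp.pos)
    omega
  have hZcC : ∀ y ∈ Zt, ∀ g ∈ C, y * g = g * y := by
    intro y hy g hg
    obtain ⟨j, n, hn, hj⟩ := hexp y hy
    rw [← hcz, Subgroup.mem_centralizer_singleton_iff] at hg
    have h2 : Commute g (z0 ^ j) := (show Commute g z0 from hg).zpow_right j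
    have h3 : Commute g n := Subgroup.mem_center_iff.mp (hNc hn) g
    rw [hj]
    exact (h2.mul_right h3).symm
  have hZltC : Zt ≠ C := by
    intro h0
    rw [h0, hCidx] at hZidx
    have := hpp.one_lt
    nlinarith
  obtain ⟨c, hcC, hcZ⟩ := SetLike.exists_of_lt (lt_of_le_of_ne hZC hZltC)
  have hA := comm_sup_zpowers Zt c (fun a ha b hb => hZcC a ha b (hZC hb))
    (fun a ha => hZcC a ha c hcC)
  have hAC : Zt ⊔ Subgroup.zpowers c = C := by
    have h1 : Zt ⊔ Subgroup.zpowers c ≤ C := sup_le hZC (Subgroup.zpowers_le.mpr hcC)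
    apply Subgroup.eq_of_le_of_card_ge h1
    have h2 : Zt < Zt ⊔ Subgroup.zpowers c := by
      refine lt_of_le_of_ne le_sup_left (fun h0 => hcZ ?_)
      rw [h0]
      exact (le_sup_right : Subgroup.zpowers c ≤ _) (Subgroup.mem_zpowers c)
    have h3 : Nat.card Zt < Nat.card ↥(Zt ⊔ Subgroup.zpowers c) :=
      Set.ncard_lt_ncard h2 (Set.toFinite _)
    have h4 : Nat.card Zt ∣ Nat.card ↥(Zt ⊔ Subgroup.zpowers c) := Subgroup.card_dvd_of_le h2.le
    have h5 : Nat.card ↥(Zt ⊔ Subgroup.zpowers c) ∣ Nat.card C := Subgroup.card_dvd_of_le h1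
    have h6 : Nat.card C = Nat.card Zt * p := by
      have e1 := C.card_mul_index
      have e2 := Zt.card_mul_index
      rw [hCidx] at e1
      rw [hZidx] at e2
      apply Nat.eq_of_mul_eq_mul_right hpp.pos
      rw [e1, ← e2]; ring
    obtain ⟨k, hk⟩ := h4
    rw [h6, hk] at h5
    have h7 : k ∣ p := Nat.dvd_of_mul_dvd_mul_left Nat.card_pos h5
    rcases (Nat.dvd_prime hpp).mp h7 with h8 | h8
    · rw [h8, mul_one] at hk; omega
    · rw [h6, hk, h8]
  rw [hχ'p]
  symm
  apply deg_eq_p_of_le hP ψ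
  · intro h0
    exact hψ (mem_ker_of_linear ψ h0 (hNP hzN))
  · have h1 := deg_le_index_of_comm ψ (Zt ⊔ Subgroup.zpowers c) hA
    rwa [hAC, hCidx] at h1

theorem comm_of_commutator_le {G : Type u} [Group G] (N : Subgroup G) [N.Normal]
    (h : ∀ a b : G ⧸ N, a * b = b * a) : commutator G ≤ N := by
  rw [commutator_def, Subgroup.commutator_le]
  intro x _ y _
  have h1 := h (x : G ⧸ N) (y : G ⧸ N)
  rw [← QuotientGroup.mk_mul, ← QuotientGroup.mk_mul, QuotientGroup.eq] at h1
  have h2 := (inferInstance : N.Normal).conj_mem _ h1 (x * y)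
  have h3 : x * y * ((x * y)⁻¹ * (y * x)) * (x * y)⁻¹ = (x * y * x⁻¹ * y⁻¹)⁻¹ := by group
  rw [h3] at h2
  exact (N.inv_mem_iff).mp h2

/-- forward direction. -/
theorem SameKer.forward (p : ℕ) [hp : Fact p.Prime] : ∀ (n : ℕ) (P : Type u) [Group P] [Finite P],
    Nat.card P = n → IsPGroup p P → (¬ ∀ a b : P, a * b = b * a) → SameKer P →
      IsCyclic (Subgroup.center P) ∧ Nat.card (commutator P) = p := by
  intro n
  induction n using Nat.strong_induction_on with
  | _ n ihn =>
  intro P _ _ hn hP hnc hK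
  have hpp := hp.out
  have hcb : commutator P ≠ ⊥ := by
    intro h0
    apply hnc
    intro a b
    have h1 : a * b * a⁻¹ * b⁻¹ ∈ commutator P :=
      Subgroup.commutator_mem_commutator (Subgroup.mem_top a) (Subgroup.mem_top b)
    rw [h0, Subgroup.mem_bot] at h1
    have h3 : a * b * a⁻¹ = b := mul_inv_eq_one.mp h1
    exact mul_inv_eq_iff_eq_mul.mp h3
  have hcz := H63.inf_center_ne_bot hP (commutator P) hcb
  obtain ⟨z, hzo, hzm⟩ : ∃ z : P, orderOf z = p ∧ z ∈ commutator P ⊓ Subgroup.center P := by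
    have h1 : p ∣ Nat.card ↥(commutator P ⊓ Subgroup.center P) := by
      rcases (hP.to_subgroup (commutator P ⊓ Subgroup.center P)).card_eq_or_dvd with h | h
      · exact absurd (Subgroup.card_eq_one.mp h) hcz
      · exact h
    obtain ⟨⟨z, hz⟩, hzo⟩ := exists_prime_orderOf_dvd_card' p h1
    exact ⟨z, by rwa [Subgroup.orderOf_mk] at hzo, hz⟩
  have hzc := Subgroup.mem_inf.mp hzm
  by_cases hc1 : Nat.card (commutator P) = p
  · obtain ⟨χ, -, hf⟩ := hK.claim1 hc1
    exact ⟨center_cyclic_of_faithful χ hf, hc1⟩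
  exfalso
  set N := Subgroup.zpowers z with hN
  have hNc : N ≤ Subgroup.center P := Subgroup.zpowers_le.mpr hzc.2
  have hNn : N.Normal := ⟨fun x hx g => by
    have h1 := Subgroup.mem_center_iff.mp (hNc hx) g
    rw [h1]; simpa using hx⟩
  have hNcard : Nat.card N = p := by rw [hN, Nat.card_zpowers, hzo]
  have hNP : N ≤ commutator P := Subgroup.zpowers_le.mpr hzc.1
  have hzN : z ∈ N := Subgroup.mem_zpowers z
  have hNne : N ≠ commutator P := fun h0 => hc1 (by rw [← h0, hNcard])
  have hquot : ∀ L : Subgroup P, ∀ [L.Normal], L ≠ ⊥ → L < commutator P →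
      IsCyclic (Subgroup.center (P ⧸ L)) ∧ Nat.card (commutator (P ⧸ L)) = p := by
    intro L _ hL hLlt
    have h1 : Nat.card (P ⧸ L) < n := by
      rw [← hn, Subgroup.card_eq_card_quotient_mul_card_subgroup L]
      have h2 : 1 < Nat.card L := by
        have := (Subgroup.nontrivial_iff_ne_bot L).mpr hL
        exact Finite.one_lt_card
      have h3 : 0 < Nat.card (P ⧸ L) := Nat.card_pos
      nlinarith
    refine ihn _ h1 (P ⧸ L) rfl (hP.to_quotient L) ?_ (hK.quotient L)
    intro h2
    exact hLlt.not_ge (comm_of_commutator_le L h2)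
  have hNbot : N ≠ ⊥ := by
    intro h0
    rw [h0, Subgroup.card_bot] at hNcard
    exact hpp.one_lt.ne hNcard
  obtain ⟨hQc, hQp⟩ := hquot N hNbot (lt_of_le_of_ne hNP hNne)
  have hP2 : Nat.card (commutator P) = p * p := by
    have h1 : (commutator P).map (QuotientGroup.mk' N) = commutator (P ⧸ N) := by
      rw [commutator_def, commutator_def, Subgroup.map_commutator,
        Subgroup.map_top_of_surjective _ (QuotientGroup.mk'_surjective _)]
    have h2 : (commutator (P ⧸ N)).index = (commutator P).index := by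
      rw [← h1, Subgroup.index_map_eq _ (QuotientGroup.mk'_surjective _)]
      rw [QuotientGroup.ker_mk']; exact hNP
    have h3 := (commutator P).card_mul_index
    have h4 := (commutator (P ⧸ N)).card_mul_index
    have h5 := Subgroup.card_eq_card_quotient_mul_card_subgroup N
    rw [hQp, h2] at h4
    have h6 : 0 < (commutator P).index := Nat.pos_of_ne_zero Subgroup.index_ne_zero_of_finite
    apply Nat.eq_of_mul_eq_mul_right h6
    rw [h3, h5, ← h4, hNcard]; ring
  obtain ⟨χ', hd1, hf⟩ := (hK.quotient N).claim1 hQp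
  have hd := deg_sq_eq_index_center χ' hf (commutator_central_of_card (hP.to_quotient N) hQp)
  have hz1 : z ≠ 1 := by
    rintro rfl
    rw [orderOf_one] at hzo
    exact hpp.one_lt.ne hzo
  obtain ⟨ψ, hψ⟩ := exists_irr_ne_one hz1
  have hdeg : deg χ' = deg ψ := by
    by_cases hcent : commutator P ≤ Subgroup.center P
    · exact caseA N hNc hNcard hzN hNP hP2 (fun L _ hL hLlt => (hquot L hL hLlt).1) hcent
        (deg_pos χ') hd ψ hψ
    · exact caseB hP N hNc hNcard hzN hNP hP2 hQp hQc hcent χ' hd hd1 ψ hψ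
  have hdinf : deg (⟨_, isIrrCharacter_inflate N χ'.2⟩ : IrrCharacter P) = deg χ' :=
    deg_eq_of_one_eq rfl
  have := hK ⟨_, isIrrCharacter_inflate N χ'.2⟩ ψ (by rw [hdinf]; exact hd1) (by rw [hdinf]; exact hdeg)
    z (inflate_ker N _ z hzN)
  exact hψ this

end Cfsg.Agent.H80
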