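import Mathlib

/-! Abstract part of the row on covers of L3(4). -/

set_option autoImplicit false

namespace Cfsg.Agent.H80.L34

/-- complement in an elementary abelian 2-group -/
theorem exists_compl {K : Type*} [Group K] [Finite K] (hsq : ∀ x : K, x * x = 1) (A : Subgroup K) :
    ∃ D : Subgroup K, A ⊓ D = ⊥ ∧ A ⊔ D = ⊤ := by
  classical
  have hinv : ∀ x : K, x⁻¹ = x := fun x => inv_eq_of_mul_eq_one_left (hsq x)
  have hcomm : ∀ x y : K, x * y = y * x := by
    intro x y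
    have h := hsq (x * y)
    have h2 : x * y = (x * y)⁻¹ := (hinv _).symm
    rw [h2, mul_inv_rev, hinv, hinv]
  have hfin : Set.Finite {D : Subgroup K | A ⊓ D = ⊥} := Set.toFinite _
  obtain ⟨D, hD⟩ := hfin.exists_maximal ⟨⊥, by simp⟩
  have hD1 : A ⊓ D = ⊥ := hD.1
  refine ⟨D, hD1, ?_⟩
  rw [eq_top_iff]
  intro x _
  by_contra hx
  have hxD : x ∉ D := fun h => hx ((le_sup_right : D ≤ A ⊔ D) h)
  let D' : Subgroup K :=
    { carrier := {y | y ∈ D ∨ y * x ∈ D}
      one_mem' := Or.inl D.one_mem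
      mul_mem' := by
        rintro a b (ha | ha) (hb | hb)
        · exact Or.inl (D.mul_mem ha hb)
        · right; rw [mul_assoc]; exact D.mul_mem ha hb
        · right
          have : a * b * x = (a * x) * b := by rw [mul_assoc, mul_assoc, hcomm b x]
          rw [this]; exact D.mul_mem ha hb
        · left
          have : a * b = (a * x) * (b * x) := by
            rw [mul_assoc a x, ← mul_assoc x b x, hcomm x b, mul_assoc b x x, hsq, mul_one]
          rw [this]; exact D.mul_mem ha hb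
      inv_mem' := by
        rintro a ha
        show a⁻¹ ∈ D ∨ a⁻¹ * x ∈ D
        rw [hinv]; exact ha }
  have h1 : A ⊓ D' = ⊥ := by
    rw [eq_bot_iff]
    rintro y ⟨hyA, hy | hy⟩
    · rw [← hD1]; exact ⟨hyA, hy⟩
    · exfalso
      apply hx
      have : x = y * (y * x) := by rw [← mul_assoc, hsq, one_mul]
      rw [this]
      exact (A ⊔ D).mul_mem ((le_sup_left : A ≤ A ⊔ D) hyA) ((le_sup_right : D ≤ A ⊔ D) hy)
  have h2 : D ≤ D' := fun y hy => Or.inl hy
  have h3 := hD.2 h1 h2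
  exact hxD (h3 (Or.inr (by rw [hsq]; exact D.one_mem)))

/-- a parabolic-like pair -/
structure Par {L : Type*} [Group L] (E S : Subgroup L) : Prop where
  disj : ∀ x ∈ E, x ∈ S → x = 1
  norm : ∀ s ∈ S, ∀ e ∈ E, s * e * s⁻¹ ∈ E
  gen : ∀ l : L, (∀ e ∈ E, l * e * l⁻¹ ∈ E) → ∃ e ∈ E, ∃ s ∈ S, l = e * s
  cent : ∀ l : L, (∀ e ∈ E, l * e = e * l) → l ∈ E
  trans : ∀ e ∈ E, ∀ e' ∈ E, e ≠ 1 → e' ≠ 1 → ∃ s ∈ S, s * e * s⁻¹ = e'
  comm : ∀ e ∈ E, ∀ e' ∈ E, e * e' = e' * e
  sq : ∀ e ∈ E, e * e = 1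
  big : ∃ a ∈ E, ∃ b ∈ E, ∃ c ∈ E, a ≠ 1 ∧ b ≠ 1 ∧ a * b ≠ 1 ∧ c ≠ 1 ∧ a * c ≠ 1 ∧ b * c ≠ 1 ∧ a * (b * c) ≠ 1

theorem Par.map {L M : Type*} [Group L] [Group M] {E S : Subgroup L} (h : Par E S) (τ : L ≃* M) :
    Par (E.map τ.toMonoidHom) (S.map τ.toMonoidHom) where
  disj := by
    rintro _ ⟨x, hx, rfl⟩ ⟨y, hy, hxy⟩
    have : y = x := τ.injective hxy
    subst this
    rw [h.disj y hx hy]; exact map_one _
  norm := by
    rintro _ ⟨s, hs, rfl⟩ _ ⟨e, he, rfl⟩
    exact ⟨_, h.norm s hs e he, by simp⟩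
  gen := by
    intro l hl
    obtain ⟨l, rfl⟩ := τ.surjective l
    obtain ⟨e, he, s, hs, hls⟩ := h.gen l (by
      intro e he
      obtain ⟨x, hx, hxe⟩ := hl (τ e) ⟨e, he, rfl⟩
      have : x = l * e * l⁻¹ := τ.injective (by simpa using hxe)
      rw [← this]; exact hx)
    exact ⟨τ e, ⟨e, he, rfl⟩, τ s, ⟨s, hs, rfl⟩, by rw [hls, map_mul]⟩
  cent := by
    intro l hl
    obtain ⟨l, rfl⟩ := τ.surjective l
    refine ⟨l, h.cent l ?_, rfl⟩
    intro e he
    apply τ.injective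
    rw [map_mul, map_mul]
    exact hl (τ e) ⟨e, he, rfl⟩
  trans := by
    rintro _ ⟨e, he, rfl⟩ _ ⟨e', he', rfl⟩ h1 h2
    obtain ⟨s, hs, hse⟩ := h.trans e he e' he' (fun h0 => h1 (by rw [h0]; exact map_one _))
      (fun h0 => h2 (by rw [h0]; exact map_one _))
    exact ⟨_, ⟨s, hs, rfl⟩, by rw [← hse]; simp⟩
  comm := by
    rintro _ ⟨e, he, rfl⟩ _ ⟨e', he', rfl⟩
    rw [← map_mul, ← map_mul, h.comm e he e' he']
  sq := by
    rintro _ ⟨e, he, rfl⟩
    rw [← map_mul, h.sq e he, map_one]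
  big := by
    obtain ⟨a, ha, b, hb, c, hc, h1, h2, h3, h4, h5, h6, h7⟩ := h.big
    have inj : ∀ x : L, x ≠ 1 → τ.toMonoidHom x ≠ 1 := fun x hx h0 => hx (τ.injective (by
      rw [map_one]; exact h0))
    refine ⟨_, ⟨a, ha, rfl⟩, _, ⟨b, hb, rfl⟩, _, ⟨c, hc, rfl⟩, inj _ h1, inj _ h2, ?_, inj _ h4, ?_, ?_, ?_⟩
    · rw [← map_mul]; exact inj _ h3
    · rw [← map_mul]; exact inj _ h5
    · rw [← map_mul]; exact inj _ h6
    · rw [← map_mul, ← map_mul]; exact inj _ h7

section main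

variable {X L : Type*} [Group X] [Group L] (φ : X →* L)

theorem mem_of_map {H : Subgroup X} (hk : φ.ker ≤ H) {E : Subgroup L} (hE : H.map φ = E) {x : X}
    (hx : φ x ∈ E) : x ∈ H := by
  rw [← hE] at hx
  obtain ⟨h, hh, hhx⟩ := hx
  have : h⁻¹ * x ∈ φ.ker := by
    rw [MonoidHom.mem_ker, map_mul, map_inv, hhx, inv_mul_cancel]
  have h2 := H.mul_mem hh (hk this)
  rwa [mul_inv_cancel_left] at h2

theorem elem (hsurj : Function.Surjective φ) (hker : ∀ z ∈ φ.ker, ∀ x, z * x = x * z)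
    (hker2 : ∀ z ∈ φ.ker, z * z = 1) {E S : Subgroup L} (hP : Par E S) {H : Subgroup X}
    (hk : φ.ker ≤ H) (hE : H.map φ = E) : ∀ x ∈ H, x * x = 1 := by
  have hmE : ∀ x ∈ H, φ x ∈ E := fun x hx => by rw [← hE]; exact ⟨x, hx, rfl⟩
  have hsqk : ∀ x ∈ H, x * x ∈ φ.ker := fun x hx => by
    rw [MonoidHom.mem_ker, map_mul]; exact hP.sq _ (hmE x hx)
  -- all elements outside the kernel have the same square
  have hconst : ∀ x ∈ H, ∀ y ∈ H, φ x ≠ 1 → φ y ≠ 1 → x * x = y * y := by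
    intro x hx y hy hx1 hy1
    obtain ⟨s, _, hse⟩ := hP.trans _ (hmE x hx) _ (hmE y hy) hx1 hy1
    obtain ⟨n, rfl⟩ := hsurj s
    have hz : y⁻¹ * (n * x * n⁻¹) ∈ φ.ker := by
      rw [MonoidHom.mem_ker, map_mul, map_mul, map_mul, map_inv, map_inv, hse, inv_mul_cancel]
    set z := y⁻¹ * (n * x * n⁻¹) with hzdef
    have h1 : n * x * n⁻¹ = y * z := by rw [hzdef]; group
    have h2 : (n * x * n⁻¹) * (n * x * n⁻¹) = x * x := by
      calc (n * x * n⁻¹) * (n * x * n⁻¹) = n * (x * x) * n⁻¹ := by group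
        _ = (x * x) * n * n⁻¹ := by rw [hker _ (hsqk x hx) n]
        _ = x * x := by group
    rw [h1] at h2
    rw [← h2]
    symm
    calc y * y = y * y * (z * z) := by rw [hker2 z hz, mul_one]
      _ = y * (y * z) * z := by group
      _ = y * (z * y) * z := by rw [hker z hz y]
      _ = y * z * (y * z) := by group
  obtain ⟨a, ha, b, hb, c, hc, h1, h2, h3, h4, h5, h6, h7⟩ := hP.big
  have lift : ∀ e ∈ E, ∃ x ∈ H, φ x = e := by
    intro e he
    rw [← hE] at he
    exact he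
  obtain ⟨x, hx, rfl⟩ := lift a ha
  obtain ⟨y, hy, rfl⟩ := lift b hb
  obtain ⟨w, hw, rfl⟩ := lift c hc
  set s := x * x with hs
  have hss : s * s = 1 := hker2 _ (hsqk x hx)
  have hsc : ∀ t, s * t = t * s := hker _ (hsqk x hx)
  -- commutator formula
  have hcf : ∀ u ∈ H, ∀ v ∈ H, φ u ≠ 1 → φ v ≠ 1 → φ (u * v) ≠ 1 → v * u = u * v * s := by
    intro u hu v hv hu1 hv1 huv1
    have e1 := hconst u hu x hx hu1 h1
    have e2 := hconst v hv x hx hv1 h1
    have e3 := hconst (u * v) (H.mul_mem hu hv) x hx huv1 h1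
    rw [← hs] at e1 e2 e3
    have e4 : u * (v * u) * v = u * (u * v * s) * v := by
      calc u * (v * u) * v = (u * v) * (u * v) := by group
        _ = s := e3
        _ = s * (s * s) := by rw [hss, mul_one]
        _ = (u * u) * (v * v) * s := by rw [e1, e2]; exact (mul_assoc _ _ _).symm
        _ = (u * u) * (v * (v * s)) := by group
        _ = (u * u) * (v * (s * v)) := by rw [hsc v]
        _ = u * (u * v * s) * v := by group
    exact mul_left_cancel (mul_right_cancel e4)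
  have c1 := hcf x hx y hy h1 h2 (by rw [map_mul]; exact h3)
  have c2 := hcf x hx w hw h1 h4 (by rw [map_mul]; exact h5)
  have c3 := hcf x hx (y * w) (H.mul_mem hy hw) h1 (by rw [map_mul]; exact h6)
    (by rw [map_mul, map_mul]; exact h7)
  have hs1 : s = 1 := by
    have e5 : y * w * x = x * (y * w) := by
      calc y * w * x = y * (w * x) := by group
        _ = y * (x * w * s) := by rw [c2]
        _ = (y * x) * w * s := by group
        _ = (x * y * s) * w * s := by rw [c1]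
        _ = x * y * (s * w) * s := by group
        _ = x * y * (w * s) * s := by rw [hsc w]
        _ = x * (y * w) * (s * s) := by group
        _ = x * (y * w) := by rw [hss, mul_one]
    rw [e5] at c3
    have : x * (y * w) * 1 = x * (y * w) * s := by rw [mul_one]; exact c3
    exact (mul_left_cancel this).symm
  intro t ht
  by_cases ht1 : φ t = 1
  · exact hker2 t ht1
  · rw [hconst t ht x hx ht1 h1, ← hs, hs1]

theorem comm_of_sq {H : Subgroup X} (h : ∀ x ∈ H, x * x = 1) : ∀ x ∈ H, ∀ y ∈ H, x * y = y * x := by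
  intro x hx y hy
  have h1 := h _ (H.mul_mem hx hy)
  have h2 : x * y = (x * y)⁻¹ := (inv_eq_of_mul_eq_one_left h1).symm
  rw [h2, mul_inv_rev, inv_eq_of_mul_eq_one_left (h x hx), inv_eq_of_mul_eq_one_left (h y hy)]

/-- the centre of `HK` -/
theorem center_eq {E S E' S' : Subgroup L} (hP : Par E S) (hP' : Par E' S') {H K : Subgroup X}
    (hkH : φ.ker ≤ H) (hkK : φ.ker ≤ K) (hH : H.map φ = E) (hK : K.map φ = E')
    (hH2 : ∀ x ∈ H, x * x = 1) (hK2 : ∀ x ∈ K, x * x = 1) :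
    H ⊓ K = (Subgroup.center ↥(H ⊔ K)).map (H ⊔ K).subtype := by
  apply le_antisymm
  · rintro x ⟨hxH, hxK⟩
    refine ⟨⟨x, (le_sup_left : H ≤ H ⊔ K) hxH⟩, ?_, rfl⟩
    rw [SetLike.mem_coe, Subgroup.mem_center_iff]
    have hle : H ⊔ K ≤ Subgroup.centralizer {x} := by
      rw [sup_le_iff]
      constructor
      · intro y hy
        rw [Subgroup.mem_centralizer_singleton_iff]
        exact comm_of_sq hH2 y hy x hxH
      · intro y hy
        rw [Subgroup.mem_centralizer_singleton_iff]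
        exact comm_of_sq hK2 y hy x hxK
    rintro ⟨y, hy⟩
    apply Subtype.ext
    exact (Subgroup.mem_centralizer_singleton_iff.1 (hle hy))
  · rintro _ ⟨⟨x, hx⟩, hc, rfl⟩
    rw [SetLike.mem_coe, Subgroup.mem_center_iff] at hc
    have hc' : ∀ y ∈ H ⊔ K, y * x = x * y := fun y hy => congrArg Subtype.val (hc ⟨y, hy⟩)
    constructor
    · refine mem_of_map φ hkH hH (hP.cent _ ?_)
      intro e he
      rw [← hH] at he
      obtain ⟨y, hy, rfl⟩ := he
      rw [← map_mul, ← map_mul]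
      exact congrArg φ (hc' y ((le_sup_left : H ≤ H ⊔ K) hy)).symm
    · refine mem_of_map φ hkK hK (hP'.cent _ ?_)
      intro e he
      rw [← hK] at he
      obtain ⟨y, hy, rfl⟩ := he
      rw [← map_mul, ← map_mul]
      exact congrArg φ (hc' y ((le_sup_right : K ≤ H ⊔ K) hy)).symm

theorem mem_norm_iff {E : Subgroup L} {H : Subgroup X}
    (hkH : φ.ker ≤ H) (hH : H.map φ = E) {x : X} :
    x ∈ Subgroup.normalizer (H : Set X) ↔ φ x ∈ Subgroup.normalizer (E : Set L) := by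
  constructor
  · intro hx
    rw [Subgroup.mem_normalizer_iff] at hx ⊢
    intro e
    constructor
    · intro he
      have he' := he
      rw [← hH] at he'
      obtain ⟨y, hy, rfl⟩ := he'
      rw [← hH]
      exact ⟨x * y * x⁻¹, (hx y).1 hy, by simp⟩
    · intro he
      rw [← hH] at he
      obtain ⟨y, hy, hye⟩ := he
      have : x⁻¹ * y * x ∈ H := by
        rw [hx]
        have : x * (x⁻¹ * y * x) * x⁻¹ = y := by group
        rw [this]; exact hy
      rw [← hH]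
      refine ⟨_, this, ?_⟩
      rw [map_mul, map_mul, hye, map_inv]; group
  · intro hx
    rw [Subgroup.mem_normalizer_iff] at hx ⊢
    intro y
    constructor
    · intro hy
      refine mem_of_map φ hkH hH ?_
      rw [map_mul, map_mul, map_inv]
      refine (hx (φ y)).1 ?_
      rw [← hH]; exact ⟨y, hy, rfl⟩
    · intro hy
      refine mem_of_map φ hkH hH ?_
      have : φ x * φ y * (φ x)⁻¹ ∈ E := by
        rw [← map_inv, ← map_mul, ← map_mul, ← hH]; exact ⟨_, hy, rfl⟩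
      exact (hx (φ y)).2 this

/-- complements -/
theorem compl_iso (hsurj : Function.Surjective φ) {E S : Subgroup L} (hP : Par E S) {H C : Subgroup X}
    (hkH : φ.ker ≤ H) (hH : H.map φ = E) (hCN : C ≤ Subgroup.normalizer (H : Set X))
    (hCH : C ⊓ H = ⊥) (hHC : ∀ x ∈ Subgroup.normalizer (H : Set X), ∃ h ∈ H, ∃ c ∈ C, x = h * c) :
    Nonempty (C ≃* S) := by
  classical
  have key : ∀ c : C, ∃ s : S, ∃ e ∈ E, φ c = e * s := by
    rintro ⟨c, hc⟩
    have h1 := (mem_norm_iff φ hkH hH).1 (hCN hc)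
    rw [Subgroup.mem_normalizer_iff] at h1
    obtain ⟨e, he, s, hs, hes⟩ := hP.gen (φ c) (fun e he => (h1 e).1 he)
    exact ⟨⟨s, hs⟩, e, he, hes⟩
  choose f hf using key
  have huniq : ∀ e ∈ E, ∀ e' ∈ E, ∀ s s' : S, e * (s : L) = e' * s' → s = s' := by
    intro e he e' he' s s' h
    have h2 : e'⁻¹ * e = (s' : L) * (s : L)⁻¹ := by
      rw [eq_mul_inv_iff_mul_eq, mul_assoc, h]; group
    have h3 := hP.disj (e'⁻¹ * e) (E.mul_mem (E.inv_mem he') he) (by
      rw [h2]; exact S.mul_mem s'.2 (S.inv_mem s.2))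
    rw [h2] at h3
    exact Subtype.ext (mul_inv_eq_one.1 h3).symm
  let F : C →* S :=
    { toFun := f
      map_one' := by
        obtain ⟨e, he, h1⟩ := hf 1
        refine huniq e he 1 E.one_mem _ _ ?_
        rw [← h1]; simp
      map_mul' := by
        intro c d
        obtain ⟨e, he, h1⟩ := hf (c * d)
        obtain ⟨e1, he1, h2⟩ := hf c
        obtain ⟨e2, he2, h3⟩ := hf d
        refine huniq e he (e1 * ((f c : L) * e2 * (f c : L)⁻¹)) (E.mul_mem he1 (hP.norm _ (f c).2 _ he2)) _ _ ?_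
        rw [← h1, Subgroup.coe_mul, map_mul, h2, h3, Subgroup.coe_mul]
        group }
  refine ⟨MulEquiv.ofBijective F ⟨?_, ?_⟩⟩
  · rw [injective_iff_map_eq_one]
    intro c hc
    obtain ⟨e, he, h1⟩ := hf c
    have hc' : f c = 1 := hc
    rw [hc', Subgroup.coe_one, mul_one] at h1
    have h2 : (c : X) ∈ H := mem_of_map φ hkH hH (by rw [h1]; exact he)
    have h3 : (c : X) ∈ C ⊓ H := ⟨c.2, h2⟩
    rw [hCH, Subgroup.mem_bot] at h3
    exact Subtype.ext h3
  · intro s
    obtain ⟨x, hx⟩ := hsurj s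
    have hxN : x ∈ Subgroup.normalizer (H : Set X) := by
      rw [mem_norm_iff φ hkH hH, Subgroup.mem_normalizer_iff, hx]
      intro e
      constructor
      · intro he; exact hP.norm s s.2 e he
      · intro he
        have := hP.norm (s : L)⁻¹ (S.inv_mem s.2) _ he
        have h2 : (s : L)⁻¹ * (s * e * (s : L)⁻¹) * (s : L)⁻¹⁻¹ = e := by group
        rwa [h2] at this
    obtain ⟨h, hh, c, hc, hxc⟩ := hHC x hxN
    refine ⟨⟨c, hc⟩, ?_⟩
    obtain ⟨e, he, h1⟩ := hf ⟨c, hc⟩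
    show f ⟨c, hc⟩ = s
    have hhE : φ h ∈ E := by rw [← hH]; exact ⟨h, hh, rfl⟩
    refine huniq (φ h * e) (E.mul_mem hhE he) 1 E.one_mem _ _ ?_
    rw [one_mul, ← hx, hxc, map_mul, mul_assoc, ← h1]

end main

end Cfsg.Agent.H80.L34
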