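import Cfsg.Agent.H80.L34a
import Cfsg.Agent.S0051

/-! Gaschütz part. -/

set_option autoImplicit false

namespace Cfsg.Agent.H80.L34

theorem split {X : Type*} [Group X] [Finite X] (T : Sylow 2 X) (H K : Subgroup X)
    (hH2 : ∀ x ∈ H, x * x = 1) (hK2 : ∀ x ∈ K, x * x = 1) (hHT : H ≤ T) (hKT : K ≤ T)
    (hTN : (T : Subgroup X) ≤ Subgroup.normalizer (H : Set X))
    (hT : ∀ t ∈ (T : Subgroup X), ∃ h ∈ H, ∃ k ∈ K, t = h * k) :
    ∃ C : Subgroup X, C ≤ Subgroup.normalizer (H : Set X) ∧ C ⊓ H = ⊥ ∧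
      H ⊔ C = Subgroup.normalizer (H : Set X) ∧
      ∀ x ∈ Subgroup.normalizer (H : Set X), ∃ h ∈ H, ∃ c ∈ C, x = h * c := by
  classical
  haveI : Fact (Nat.Prime 2) := ⟨Nat.prime_two⟩
  set N := Subgroup.normalizer (H : Set X) with hN
  have hHN : H ≤ N := Subgroup.le_normalizer
  -- complement in K
  obtain ⟨D0, hD1, hD2⟩ := exists_compl (K := K) (fun x => Subtype.ext (hK2 x.1 x.2)) (H.subgroupOf K)
  set D : Subgroup X := D0.map K.subtype with hDdef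
  have hDK : D ≤ K := by
    rintro _ ⟨x, _, rfl⟩; exact x.2
  have hDH : ∀ x ∈ D, x ∈ H → x = 1 := by
    rintro _ ⟨x, hx, rfl⟩ hxH
    have : x ∈ H.subgroupOf K ⊓ D0 := ⟨hxH, hx⟩
    rw [hD1, Subgroup.mem_bot] at this
    rw [this]; rfl
  have hcommK := comm_of_sq hK2
  have hKD : ∀ k ∈ K, ∃ h ∈ H, ∃ d ∈ D, k = h * d := by
    intro k hk
    have h1 : (⟨k, hk⟩ : K) ∈ H.subgroupOf K ⊔ D0 := by rw [hD2]; trivial
    haveI : (H.subgroupOf K).Normal := ⟨by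
      intro n hn g
      have : g * n * g⁻¹ = n := by
        have := Subtype.ext (hcommK g g.2 n n.2) (p := fun z => z ∈ K) (a1 := g * n) (a2 := n * g)
        rw [this]; group
      rw [this]; exact hn⟩
    rw [Subgroup.mem_sup_of_normal_left] at h1
    obtain ⟨a, ha, d, hd, had⟩ := h1
    exact ⟨a, ha, d, ⟨d, hd, rfl⟩, (congrArg Subtype.val had).symm⟩
  have hDN : D ≤ N := (hDK.trans hKT).trans hTN
  have hDT : D ≤ T := hDK.trans hKT
  have hTD : ∀ t ∈ (T : Subgroup X), ∃ h ∈ H, ∃ d ∈ D, t = h * d := by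
    intro t ht
    obtain ⟨h, hh, k, hk, rfl⟩ := hT t ht
    obtain ⟨h', hh', d, hd, rfl⟩ := hKD k hk
    exact ⟨h * h', H.mul_mem hh hh', d, hd, by group⟩
  haveI hnorm : (H.subgroupOf N).Normal := Subgroup.normal_in_normalizer
  haveI : IsMulCommutative (H.subgroupOf N) := ⟨⟨by
    rintro ⟨⟨a, _⟩, ha⟩ ⟨⟨b, _⟩, hb⟩
    apply Subtype.ext
    apply Subtype.ext
    exact comm_of_sq hH2 a ha b hb⟩⟩
  have hcardH : ∃ n, Nat.card (H.subgroupOf N) = 2 ^ n := by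
    have h1 : IsPGroup 2 H := T.2.to_le hHT
    obtain ⟨n, hn⟩ := IsPGroup.iff_card.1 h1
    refine ⟨n, ?_⟩
    rw [← hn]
    exact Nat.card_congr (Subgroup.subgroupOfEquivOfLe hHN).toEquiv
  have hcop : (Nat.card (H.subgroupOf N)).Coprime ((T : Subgroup X).subgroupOf N).index := by
    obtain ⟨n, hn⟩ := hcardH
    rw [hn]
    apply Nat.Coprime.pow_left
    rw [Nat.prime_two.coprime_iff_not_dvd]
    intro h2
    have h3 : ((T : Subgroup X).subgroupOf N).index ∣ (T : Subgroup X).index := by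
      have := Subgroup.relIndex_mul_index hTN
      exact Dvd.intro _ this
    exact T.not_dvd_index (h2.trans h3)
  have hle : ∀ {A B : Subgroup X}, A ≤ B → A.subgroupOf N ≤ B.subgroupOf N :=
    fun h x hx => h hx
  obtain ⟨H0, hH0⟩ := Cfsg.Agent.S0051.result (H.subgroupOf N) ((T : Subgroup X).subgroupOf N)
    (hle hHT) hcop (D.subgroupOf N) (hle hDT) (by
      rw [eq_bot_iff]
      rintro ⟨x, hxN⟩ ⟨hxD, hxH⟩
      exact Subtype.ext (hDH x hxD hxH)) (by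
      apply le_antisymm
      · exact sup_le (hle hHT) (hle hDT)
      · rintro ⟨t, htN⟩ ht
        obtain ⟨h, hh, d, hd, hhd⟩ := hTD t ht
        have : (⟨t, htN⟩ : N) = ⟨h, hHN hh⟩ * ⟨d, hDN hd⟩ := Subtype.ext hhd
        rw [this]
        exact Subgroup.mul_mem_sup hh hd)
  have hdec : ∀ x ∈ N, ∃ h ∈ H, ∃ c ∈ H0.map N.subtype, x = h * c := by
    intro x hx
    have h1 : (⟨x, hx⟩ : N) ∈ (H.subgroupOf N) ⊔ H0 := by
      rw [hH0.sup_eq_top]; trivial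
    rw [Subgroup.mem_sup_of_normal_left] at h1
    obtain ⟨a, ha, d, hd, had⟩ := h1
    exact ⟨a, ha, d, ⟨d, hd, rfl⟩, (congrArg Subtype.val had).symm⟩
  have hC0 : H0.map N.subtype ≤ N := by
    rintro _ ⟨x, _, rfl⟩; exact x.2
  refine ⟨H0.map N.subtype, hC0, ?_, ?_, hdec⟩
  · rw [eq_bot_iff]
    rintro _ ⟨⟨x, hx, rfl⟩, hxH⟩
    have : x ∈ (H.subgroupOf N) ⊓ H0 := ⟨hxH, hx⟩
    rw [hH0.disjoint.eq_bot, Subgroup.mem_bot] at this
    rw [this]; exact Subgroup.one_mem _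
  · apply le_antisymm
    · exact sup_le hHN hC0
    · intro x hx
      obtain ⟨h, hh, c, hc, rfl⟩ := hdec x hx
      exact Subgroup.mul_mem_sup hh hc

end Cfsg.Agent.H80.L34
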