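import Cfsg.Agent.H80.L34a
import Cfsg.Agent.S0243

/-! Matrix part. -/

set_option autoImplicit false
set_option linter.style.haveILetI false

namespace Cfsg.Agent.H80.L34

open Matrix

variable {F : Type*} [Field F]

theorem s3_ext {n : ℕ} {a b : Matrix.SpecialLinearGroup (Fin n) F}
    (h : (a : Matrix (Fin n) (Fin n) F) = b) : a = b := Subtype.ext h

/-- unitriangular elements -/
def uu (a b c : F) : Matrix.SpecialLinearGroup (Fin 3) F :=
  ⟨!![1, a, b; 0, 1, c; 0, 0, 1], by rw [Matrix.det_fin_three]; simp⟩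

theorem uu_mul (a b c a' b' c' : F) : uu a b c * uu a' b' c' = uu (a + a') (b + b' + a * c') (c + c') := by
  apply s3_ext
  show !![1, a, b; 0, 1, c; 0, 0, 1] * !![1, a', b'; 0, 1, c'; 0, 0, 1] = !![1, a + a', b + b' + a * c'; 0, 1, c + c'; 0, 0, 1]
  ext i j
  fin_cases i <;> fin_cases j <;> simp [Matrix.mul_apply, Fin.sum_univ_three] <;> ring

theorem uu_zero : uu (0 : F) 0 0 = 1 := by
  apply s3_ext
  show !![1, 0, 0; 0, 1, 0; 0, 0, 1] = (1 : Matrix (Fin 3) (Fin 3) F)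
  ext i j
  fin_cases i <;> fin_cases j <;> simp

theorem uu_inj {a b c a' b' c' : F} (h : uu a b c = uu a' b' c') : a = a' ∧ b = b' ∧ c = c' := by
  have h1 := congrArg (fun g : Matrix.SpecialLinearGroup (Fin 3) F => g.1) h
  exact ⟨congrFun (congrFun h1 0) 1, congrFun (congrFun h1 0) 2, congrFun (congrFun h1 1) 2⟩

/-- Levi element -/
def sg : Matrix.SpecialLinearGroup (Fin 2) F →* Matrix.SpecialLinearGroup (Fin 3) F where
  toFun A := ⟨!![A.1 0 0, A.1 0 1, 0; A.1 1 0, A.1 1 1, 0; 0, 0, 1], by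
    have h := A.2
    rw [Matrix.det_fin_two] at h
    rw [Matrix.det_fin_three]; simp; linear_combination h⟩
  map_one' := by
    apply s3_ext
    show !![(1 : F), 0, 0; 0, 1, 0; 0, 0, 1] = (1 : Matrix (Fin 3) (Fin 3) F)
    ext i j
    fin_cases i <;> fin_cases j <;> simp
  map_mul' A B := by
    apply s3_ext
    have e : (A * B : Matrix.SpecialLinearGroup (Fin 2) F).1 = A.1 * B.1 := rfl
    show !![(A * B : Matrix.SpecialLinearGroup (Fin 2) F).1 0 0, (A * B : Matrix.SpecialLinearGroup (Fin 2) F).1 0 1, 0;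
      (A * B : Matrix.SpecialLinearGroup (Fin 2) F).1 1 0, (A * B : Matrix.SpecialLinearGroup (Fin 2) F).1 1 1, 0; 0, 0, 1] =
      !![A.1 0 0, A.1 0 1, 0; A.1 1 0, A.1 1 1, 0; 0, 0, 1] * !![B.1 0 0, B.1 0 1, 0; B.1 1 0, B.1 1 1, 0; 0, 0, 1]
    rw [e]
    ext i j
    fin_cases i <;> fin_cases j <;> simp [Matrix.mul_apply, Fin.sum_univ_three, Fin.sum_univ_two]

theorem sg_coe (A : Matrix.SpecialLinearGroup (Fin 2) F) :
    (sg A).1 = !![A.1 0 0, A.1 0 1, 0; A.1 1 0, A.1 1 1, 0; 0, 0, 1] := rfl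

theorem sg_conj (A : Matrix.SpecialLinearGroup (Fin 2) F) (b c : F) :
    sg A * uu 0 b c = uu 0 (A.1 0 0 * b + A.1 0 1 * c) (A.1 1 0 * b + A.1 1 1 * c) * sg A := by
  apply s3_ext
  show !![A.1 0 0, A.1 0 1, 0; A.1 1 0, A.1 1 1, 0; 0, 0, 1] * !![1, 0, b; 0, 1, c; 0, 0, 1] =
    !![1, 0, (A.1 0 0 * b + A.1 0 1 * c); 0, 1, (A.1 1 0 * b + A.1 1 1 * c); 0, 0, 1] *
      !![A.1 0 0, A.1 0 1, 0; A.1 1 0, A.1 1 1, 0; 0, 0, 1]
  ext i j
  fin_cases i <;> fin_cases j <;> simp [Matrix.mul_apply, Fin.sum_univ_three]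

/-- key computation: normalising `E1` up to scalars -/
theorem gen_aux {g : Matrix.SpecialLinearGroup (Fin 3) F} {b c r b' c' r' : F}
    (h1 : g.1 * !![1, 0, 1; 0, 1, 0; 0, 0, 1] = r • (!![1, 0, b; 0, 1, c; 0, 0, 1] * g.1))
    (h2 : g.1 * !![1, 0, 0; 0, 1, 1; 0, 0, 1] = r' • (!![1, 0, b'; 0, 1, c'; 0, 0, 1] * g.1)) :
    g.1 2 0 = 0 ∧ g.1 2 1 = 0 := by
  have hrow : ¬ (g.1 2 0 = 0 ∧ g.1 2 1 = 0 ∧ g.1 2 2 = 0) := by
    rintro ⟨e0, e1, e2⟩
    have h := g.2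
    rw [Matrix.det_fin_three, e0, e1, e2] at h
    simp at h
  have a0 := congrFun (congrFun h1 2) 0
  have a1 := congrFun (congrFun h1 2) 1
  have a2 := congrFun (congrFun h1 2) 2
  have b0 := congrFun (congrFun h2 2) 0
  have b1 := congrFun (congrFun h2 2) 1
  have b2 := congrFun (congrFun h2 2) 2
  have hv : ∀ j, (![0, 0, 1] ᵥ* g.1) j = g.1 2 j := by
    intro j; simp [Matrix.vecMul, dotProduct, Fin.sum_univ_three]
  simp [Matrix.mul_apply, Fin.sum_univ_three, hv] at a0 a1 a2 b0 b1 b2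
  have hr : r = 1 := by
    by_contra hr
    have hr' : r - 1 ≠ 0 := sub_ne_zero.2 hr
    have e0 : g.1 2 0 = 0 := by
      have : (r - 1) * g.1 2 0 = 0 := by linear_combination -a0
      exact (mul_eq_zero.1 this).resolve_left hr'
    have e1 : g.1 2 1 = 0 := by
      have : (r - 1) * g.1 2 1 = 0 := by linear_combination -a1
      exact (mul_eq_zero.1 this).resolve_left hr'
    have e2 : g.1 2 2 = 0 := by
      have : (r - 1) * g.1 2 2 = 0 := by linear_combination -a2 + e0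
      exact (mul_eq_zero.1 this).resolve_left hr'
    exact hrow ⟨e0, e1, e2⟩
  have hr2 : r' = 1 := by
    by_contra hr
    have hr' : r' - 1 ≠ 0 := sub_ne_zero.2 hr
    have e0 : g.1 2 0 = 0 := by
      have : (r' - 1) * g.1 2 0 = 0 := by linear_combination -b0
      exact (mul_eq_zero.1 this).resolve_left hr'
    have e1 : g.1 2 1 = 0 := by
      have : (r' - 1) * g.1 2 1 = 0 := by linear_combination -b1
      exact (mul_eq_zero.1 this).resolve_left hr'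
    have e2 : g.1 2 2 = 0 := by
      have : (r' - 1) * g.1 2 2 = 0 := by linear_combination -b2 + e1
      exact (mul_eq_zero.1 this).resolve_left hr'
    exact hrow ⟨e0, e1, e2⟩
  constructor
  · rw [hr] at a2; linear_combination a2
  · rw [hr2] at b2; linear_combination b2

/-- decomposition of the parabolic (all nonzero scalars are cubes roots of unity) -/
theorem par_dec (h3 : ∀ x : F, x ≠ 0 → x ^ 3 = 1) {g : Matrix.SpecialLinearGroup (Fin 3) F}
    (h0 : g.1 2 0 = 0) (h1 : g.1 2 1 = 0) :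
    ∃ z ∈ Subgroup.center (Matrix.SpecialLinearGroup (Fin 3) F), ∃ b c : F,
      ∃ A : Matrix.SpecialLinearGroup (Fin 2) F, g = uu 0 b c * sg A * z := by
  have hdet := g.2
  rw [Matrix.det_fin_three, h0, h1] at hdet
  set d := g.1 2 2 with hd
  have hd0 : d ≠ 0 := by
    intro h; rw [h] at hdet; simp at hdet
  have hdi : d⁻¹ ^ 3 = 1 := h3 _ (inv_ne_zero hd0)
  have hdd : d * d⁻¹ = 1 := mul_inv_cancel₀ hd0
  let z : Matrix.SpecialLinearGroup (Fin 3) F := ⟨Matrix.scalar (Fin 3) d, by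
    simp [h3 d hd0]⟩
  have hz : z ∈ Subgroup.center (Matrix.SpecialLinearGroup (Fin 3) F) := by
    rw [Matrix.SpecialLinearGroup.mem_center_iff]
    exact ⟨d, by simpa using h3 d hd0, rfl⟩
  let A : Matrix.SpecialLinearGroup (Fin 2) F :=
    ⟨!![g.1 0 0 * d⁻¹, g.1 0 1 * d⁻¹; g.1 1 0 * d⁻¹, g.1 1 1 * d⁻¹], by
      rw [Matrix.det_fin_two_of]
      have : d⁻¹ ^ 3 * (g.1 0 0 * g.1 1 1 * d - g.1 0 1 * g.1 1 0 * d) = 1 := by
        rw [hdi]; linear_combination hdet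
      linear_combination this - (g.1 0 0 * g.1 1 1 - g.1 0 1 * g.1 1 0) * d⁻¹ ^ 2 * hdd⟩
  refine ⟨z, hz, g.1 0 2 * d⁻¹, g.1 1 2 * d⁻¹, A, ?_⟩
  apply s3_ext
  show g.1 = !![1, 0, g.1 0 2 * d⁻¹; 0, 1, g.1 1 2 * d⁻¹; 0, 0, 1] *
    !![g.1 0 0 * d⁻¹, g.1 0 1 * d⁻¹, 0; g.1 1 0 * d⁻¹, g.1 1 1 * d⁻¹, 0; 0, 0, 1] * Matrix.scalar (Fin 3) d
  ext i j
  fin_cases i <;> fin_cases j <;>
    simp [Matrix.mul_apply, Fin.sum_univ_three, Matrix.scalar_apply, Matrix.diagonal, h0, h1, hd0] <;>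
    rw [hd]

end Cfsg.Agent.H80.L34
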