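import Cfsg.Agent.Golay.Slp
import Cfsg.Prelude.Def_Spor_Mathieu

/-!
# Generating pairs of `M23` (owner: helper80)

`base_gen` : a subgroup of `M23` containing the elements with tables `tabA`, `tabB` is `M23`.
`cert_spec` : certificates for `(p, q, r)`-generation.
-/

set_option autoImplicit false

namespace Cfsg.Agent.H80.M23Gen

open Cfsg Cfsg.Agent.Golay MulAction

theorem mem_M23_iff {σ : Equiv.Perm GolayPt} : σ ∈ Spor.M23 ↔ σ ∈ stabChain 1 := by
  rw [mem_stabChain]
  constructor
  · rintro ⟨h1, h2⟩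
    refine ⟨h1, fun j hj => ?_⟩
    have : j = 0 := by omega
    subst this
    exact h2
  · rintro ⟨h1, h2⟩
    exact ⟨h1, h2 0 (by norm_num)⟩

/-- A subgroup of `M23` with transversals along the base is `M23`. -/
theorem M23_le_of_levels {H : Subgroup (Equiv.Perm GolayPt)}
    (h : ∀ i, 1 ≤ i → i < 7 → ∀ y : GolayPt, (orbTargets.getD i 0).testBit (idx y) = true →
      ∃ σ ∈ H, FixesMask σ (fixTargets.getD i 0) ∧ σ (basePt i) = y)
    (hle : H ≤ M24) : ∀ σ ∈ stabChain 1, σ ∈ H := by
  have key : ∀ k ≤ 6, ∀ σ ∈ stabChain (7 - k), σ ∈ H := by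
    intro k
    induction k with
    | zero =>
      intro _ σ hσ
      have h7 := (Subgroup.card_eq_one.1 stabChain_seven)
      have : σ ∈ stabChain 7 := hσ
      rw [h7, Subgroup.mem_bot] at this
      rw [this]; exact H.one_mem
    | succ k ih =>
      intro hk σ hσ
      have hi : 7 - (k + 1) < 7 := by omega
      obtain ⟨τ, hτ, hτF, hτb⟩ := h _ (by omega) hi _ (stabChain_orbit_upper _ hi σ hσ)
      have hfix : ∀ j < 7 - (k + 1), τ (basePt j) = basePt j := by
        intro j hj
        apply hτF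
        have : ∀ i < 7, ∀ j < i, (fixTargets.getD i 0).testBit (idx (basePt j)) = true := by decide
        exact this _ hi j hj
      have h1 : τ⁻¹ * σ ∈ stabChain (7 - k) := by
        rw [mem_stabChain] at hσ ⊢
        refine ⟨M24.mul_mem (M24.inv_mem (hle hτ)) hσ.1, fun j hj => ?_⟩
        rw [Equiv.Perm.mul_apply, Equiv.Perm.inv_eq_iff_eq]
        by_cases hj' : j < 7 - (k + 1)
        · rw [hσ.2 j hj', hfix j hj']
        · have : j = 7 - (k + 1) := by omega
          rw [this, hτb]
      have h2 := H.mul_mem hτ (ih (by omega) _ h1)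
      simpa using h2
  intro σ hσ
  exact key 6 le_rfl σ hσ

/-- table of a generator -/
def tabA : ℕ := 0xbd854628900b9b3048e8498712d5eb

/-- table of a generator -/
def tabB : ℕ := 0xb9d86b10089862f1d20e549226aea5

/-- straight-line program -/
def prog : List ℕ := [1, 1, 3, 2047, 2047, 3077, 6, 7, 8, 8, 5119, 1, 2058, 6143, 1, 2057, 16, 17, 12, 5120, 1044, 22, 16383, 1, 2072, 25, 1, 7167, 1, 2078, 5119, 1, 2080, 9215, 1, 2084, 36, 38, 1062, 23551, 1, 2070, 14336, 1068, 4095, 1, 4095, 2047, 4128, 30, 50, 17407, 1, 2082, 31744, 41983, 1, 3129, 59, 61439, 1, 4095, 4158, 16384, 1088, 34816, 1091, 18431, 1, 9215, 1, 4167, 50176, 3072, 2123, 59391, 1, 4095, 2047, 4175, 80, 41984, 26624, 2131, 85, 87039, 1, 4095, 4134, 21504, 1114, 39935, 1117, 31744, 1118, 68608, 40960, 2070, 64511, 1, 11263, 1, 10240, 5223, 92160, 1130, 93183, 1, 64512, 3181, 111, 44032, 86015, 1, 32767, 1, 7167, 2047, 7256, 90112, 41984, 2169, 15360, 37887, 1, 3198, 88064, 1076, 125952, 28672, 83968, 3204, 54272, 3071,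 2047, 3207, 75776, 92160, 3072, 3212, 33792, 40960, 18431, 1, 4240, 70656, 43007, 1, 87039, 1, 5270, 140288, 102400, 76800, 3227, 97280, 1143, 152575, 1, 82944, 3232, 123904, 38912, 2212, 58368, 1189, 106496, 151551, 1, 115711, 1, 5291, 126975, 1, 146431, 1, 6144, 5165, 5120, 130048, 73727, 1, 4279, 173056, 116736, 4095, 8378, 167936, 24575, 1, 41984, 58368, 6144, 6337, 82944, 61440, 2245, 39936, 3071, 1, 3272, 194560, 79872, 61440, 67583, 1, 5327, 180224, 159744, 142335, 1, 12288, 7167, 12369, 207872, 174080, 2234, 158720, 72704, 2267, 9215, 1246, 132095, 31743, 2263, 129024, 104448, 79872, 3178, 230400, 1254, 231, 139263, 1258, 234496, 3307, 203775, 1, 114687, 1, 165888, 5362, 27647, 7250, 140288, 135168, 17407, 1, 91135, 1, 6262, 147456, 204800, 2067, 245760, 134144, 4095, 1, 4354, 145408, 220160, 2309, 257024, 1287, 217088, 5119, 1, 3339, 100351, 1293, 252928, 150528, 160768, 30720, 4100, 191488, 37888, 2325, 279, 216064, 58368, 5119, 1, 168960, 5404, 125951, 1301, 278, 288, 289,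 187392, 118784, 35839, 1, 4390, 33, 297, 297, 299, 186368, 259072, 2349, 268288, 183296, 72704, 175104, 4402, 282, 309, 214, 253952, 124928, 2081, 71, 159744, 94208, 149504, 3389, 320512, 199680, 52224, 3394, 297984, 37888, 2065, 326, 29, 327, 328, 157696, 122880, 2379, 162816, 269312, 69632, 43008]

/-- all tables -/
def tabs : List ℕ := runSlp prog [tabB, tabA]

/-- transversals -/
def levels : List (List ℕ) := [[1022, 336, 335, 334, 333, 330, 329, 328, 327, 320, 319, 318, 315, 311, 310, 300, 299, 298, 287, 286, 278, 252, 226], [1022, 324, 321, 316, 312, 307, 304, 301, 295, 293, 275, 270, 259, 249, 246, 242, 231, 209, 180, 171, 101, 73], [1022, 290, 283, 279, 272, 265, 262, 253, 239, 227, 215, 211, 203, 173, 151, 117, 106, 83, 75, 59, 35], [1022, 233, 220, 205, 197, 192, 186, 182, 176, 165, 159, 140, 120, 108, 95, 78, 69, 24, 19, 5], [1022, 154, 136, 130, 124, 150, 86, 62, 52, 115, 42, 30, 123, 15, 12, 0], [1022, 143, 112]]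

/-- the check -/
def allLevels : Bool := allLT (fun i => levelCheck' (pickD tabs (levels.getD i [])) (fixTargets.getD (Nat.succ i) 0)
  (baseList.getD (Nat.succ i) 0) (orbTargets.getD (Nat.succ i) 0)) 6

theorem allLevels_check : allLevels = true := by decide +kernel

theorem base_gen {H : Subgroup (Equiv.Perm GolayPt)} (hle : H ≤ Spor.M23) (hA : InSub H tabA) (hB : InSub H tabB) :
    Spor.M23 ≤ H := by
  intro σ hσ
  refine M23_le_of_levels ?_ (hle.trans inf_le_left) σ (mem_M23_iff.1 hσ)
  intro i hi1 hi y hy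
  have htab : ∀ n ∈ tabs, InSub H n := by
    apply runSlp_inSub
    intro n hn
    simp only [List.mem_cons, List.not_mem_nil, or_false] at hn
    rcases hn with rfl | rfl
    · exact hB
    · exact hA
  obtain ⟨j, rfl⟩ : ∃ j, i = Nat.succ j := ⟨i - 1, by omega⟩
  have h := allLT_iff.1 allLevels_check j (by omega)
  have hb : baseList.getD (Nat.succ j) 0 < 24 ∧ pt (baseList.getD (Nat.succ j) 0) = basePt (Nat.succ j) := by
    have hj : j < 6 := by omega
    interval_cases j <;> exact ⟨by decide, rfl⟩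
  rw [← hb.2]
  exact exists_of_level' (pickD_inSub htab _) h hb.1 hy

/-! ### Certificates -/

/-- powers of tables -/
def ppow (n k : ℕ) : ℕ := Nat.rec (motive := fun _ => ℕ) idTab (fun _ ih => fz ih fun t => pmul n t) k

theorem isTable_ppow {n : ℕ} {σ : Equiv.Perm GolayPt} (h : IsTable n σ) (k : ℕ) : IsTable (ppow n k) (σ ^ k) := by
  induction k with
  | zero => rw [pow_zero]; exact isTable_one
  | succ k ih =>
    have h1 : ppow n (k + 1) = fz (ppow n k) fun t => pmul n t := rfl
    rw [h1, fz_eq, pow_succ']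
    exact isTable_pmul h ih

/-- conjunction -/
def bnd (a b : Bool) : Bool := match a with | true => b | false => false

theorem bnd_iff {a b : Bool} : bnd a b = true ↔ a = true ∧ b = true := by cases a <;> cases b <;> simp [bnd]

/-- `n` moves some point -/
def movesPt (n : ℕ) : Bool := match allLT (fun i => Nat.beq (papp n i) i) 24 with | true => false | false => true

theorem ne_one_of_moves {n : ℕ} {σ : Equiv.Perm GolayPt} (hσ : IsTable n σ) (h : movesPt n = true) : σ ≠ 1 := by
  rintro rfl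
  have h1 : allLT (fun i => Nat.beq (papp n i) i) 24 = true := by
    rw [allLT_iff]
    intro i hi
    have h2 := hσ (pt i)
    rw [Equiv.Perm.one_apply, idx_pt hi] at h2
    rw [← h2]
    exact Nat.beq_refl i
  unfold movesPt at h
  rw [h1] at h
  exact absurd h (by simp)

/-- order check -/
def ordOK' (n p : ℕ) : Bool := bnd (Nat.beq (ppow n p) idTab) (movesPt n)

theorem orderOf_of_ordOK' {n p : ℕ} (hp : p.Prime) {σ : Equiv.Perm GolayPt} (hσ : IsTable n σ)
    (h : ordOK' n p = true) : orderOf σ = p := by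
  unfold ordOK' at h
  rw [bnd_iff] at h
  have := Fact.mk hp
  apply orderOf_eq_prime
  · apply isTable_unique (isTable_ppow hσ p)
    rw [Nat.eq_of_beq_eq_true h.1]
    exact isTable_one
  · exact ne_one_of_moves hσ h.2

/-- the element `n` is in `M23` -/
def in23 (n : ℕ) : Bool := bnd (validM24 n) (Nat.beq (papp n 23) 23)

theorem in23_spec {n : ℕ} (h : in23 n = true) : ∃ σ ∈ Spor.M23, IsTable n σ := by
  unfold in23 at h
  rw [bnd_iff] at h
  obtain ⟨σ, hσ, hT⟩ := exists_mem_M24 h.1
  refine ⟨σ, ⟨hσ, ?_⟩, hT⟩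
  change σ none = none
  apply idx_injective
  rw [hT none]
  exact Nat.eq_of_beq_eq_true h.2

/-- certificate check -/
def chk (p q r X Y : ℕ) (pr : List ℕ) (k : ℕ) : Bool :=
  bnd (in23 X) (bnd (in23 Y) (bnd (ordOK' X p) (bnd (ordOK' Y q) (bnd (fz (pmul X Y) fun n => ordOK' n r)
    (fz (nthD (runSlp pr [Y, X]) 0) fun u => bnd (Nat.beq u tabB)
      (fz (nthD (runSlp pr [Y, X]) k) fun v => Nat.beq v tabA))))))

theorem chk_spec {p q r X Y : ℕ} {pr : List ℕ} {k : ℕ} (hp : p.Prime) (hq : q.Prime) (hr : r.Prime)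
    (h : chk p q r X Y pr k = true) : ∃ x y z : Spor.M23, orderOf x = p ∧ orderOf y = q ∧ orderOf z = r ∧
      x * y * z = 1 ∧ Subgroup.closure {x, y} = ⊤ := by
  unfold chk at h
  simp only [bnd_iff, fz_eq] at h
  obtain ⟨hX, hY, oX, oY, oZ, hB, hA⟩ := h
  obtain ⟨x, hx, hxT⟩ := in23_spec hX
  obtain ⟨y, hy, hyT⟩ := in23_spec hY
  refine ⟨⟨x, hx⟩, ⟨y, hy⟩, (⟨x, hx⟩ * ⟨y, hy⟩)⁻¹, ?_, ?_, ?_, mul_inv_cancel _, ?_⟩
  · rw [← Subgroup.orderOf_coe]; exact orderOf_of_ordOK' hp hxT oX
  · rw [← Subgroup.orderOf_coe]; exact orderOf_of_ordOK' hq hyT oY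
  · rw [orderOf_inv, ← Subgroup.orderOf_coe]; exact orderOf_of_ordOK' hr (isTable_pmul hxT hyT) oZ
  · have h1 : (Subgroup.closure {(⟨x, hx⟩ : Spor.M23), ⟨y, hy⟩}).map Spor.M23.subtype = Subgroup.closure {x, y} := by
      rw [MonoidHom.map_closure]
      congr 1
      rw [Set.image_pair]
      rfl
    have hle : Subgroup.closure {x, y} ≤ Spor.M23 := by
      rw [Subgroup.closure_le]
      rintro t (rfl | ht)
      · exact hx
      · rw [Set.mem_singleton_iff] at ht; subst ht; exact hy
    have htab : ∀ n ∈ runSlp pr [Y, X], InSub (Subgroup.closure {x, y}) n := by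
      apply runSlp_inSub
      intro n hn
      simp only [List.mem_cons, List.not_mem_nil, or_false] at hn
      rcases hn with rfl | rfl
      · exact ⟨y, Subgroup.subset_closure (by simp), hyT⟩
      · exact ⟨x, Subgroup.subset_closure (by simp), hxT⟩
    have key : ∀ i, InSub (Subgroup.closure {x, y}) (nthD (runSlp pr [Y, X]) i) := by
      intro i
      rcases nthD_mem (runSlp pr [Y, X]) i with h2 | h2
      · rw [h2]; exact inSub_one
      · exact htab _ h2
    have h2 : Spor.M23 ≤ Subgroup.closure {x, y} := by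
      apply base_gen hle
      · rw [← Nat.eq_of_beq_eq_true hA]; exact key _
      · rw [← Nat.eq_of_beq_eq_true hB]; exact key _
    rw [eq_top_iff]
    intro t _
    have h3 : (t : Equiv.Perm GolayPt) ∈ (Subgroup.closure {(⟨x, hx⟩ : Spor.M23), ⟨y, hy⟩}).map Spor.M23.subtype := by
      rw [h1]; exact h2 t.2
    obtain ⟨s, hs, hst⟩ := h3
    have : s = t := Subtype.ext hst
    rw [← this]; exact hs

end Cfsg.Agent.H80.M23Gen
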