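import Cfsg.Agent.Fus.MatM24
import Cfsg.Agent.Golay.Orb16
import Cfsg.Agent.H80.Abel64

/-!
# The quotient of a Sylow 2-subgroup of `M24` by its centre (owner: helper80)
-/

set_option autoImplicit false

namespace Cfsg.Agent.H80.M24P

open Cfsg Cfsg.Agent.Fus.Mat MulAction
open Cfsg.Agent.Golay hiding idTab papp_lt

/-- central involution -/
def tz : ℕ := 0xbc0ea332364b892451ebaccad18820

/-- words, tables, commutation patterns -/
def EW : List (List ℕ × ℕ × ℕ) := [([], 0xbdab49ca307b9ac5a928398a418820, 254),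
  ([2], 0xba64d4562f83a87312d362caa18820, 4),
  ([5, 5], 0xc0f4348767948c5a928acdcd882e2, 22),
  ([3, 2, 3], 0xb99b28523343aaa4b16f258a718820, 16),
  ([1, 2, 1], 0xba91094e346b9e63d8955b0a918820, 4),
  ([5, 4, 1], 0x299b2b2853584f44b10f242f5045c3, 0),
  ([1, 5, 4], 0x1d60823c2760a69a2e4ab3406bba25, 0),
  ([5, 5, 2], 0xa64441c6fb16959b60662dca882e2, 4),
  ([3, 2, 3, 2], 0xbae957b6289ba44b1cd0524ac18820, 138),
  ([2, 1, 2, 1], 0xb926faa22da3a0b6255231cb618820, 254),
  ([5, 4, 1, 2], 0x2a1477b44b98644854d6a26ec045c3, 8),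
  ([1, 5, 2, 4], 0x1b126a5832a897024ced7a808bba25, 8),
  ([5, 3, 2, 3, 5], 0x99ac82873596b47c909259c7882e2, 16),
  ([5, 2, 5], 0xa91691874215f3ac1a75b1c9882e2, 4),
  ([4, 1, 5], 0x719acb501345cea7c9692403510cb1, 0),
  ([4, 5, 1], 0x8d60b226e79026f52194b34460946e, 0),
  ([5, 3, 5, 3, 1], 0xbc92655a2c3b9706cea47d0a818820, 138),
  ([5, 3, 2, 3, 4, 1], 0x2c0ea9c856785ac4512ba9ae4045c3, 8),
  ([5, 3, 1, 2, 3, 4], 0x190c9aac2da0ac863d5299c10bba25, 8),
  ([5, 4, 2, 1], 0x2b1f3558523857021aad4d2e8045c3, 8),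
  ([1, 2, 5, 4], 0x1a2954b42b30a4481e7653c0cbba25, 8),
  ([5, 4, 5, 4], 0x366faadc4a46c89254c31c7028457, 254),
  ([5, 5, 3, 2, 3, 2], 0xae87790683164d85676525cc882e2, 2),
  ([5, 2, 5, 2], 0xb4cf3a064a16cb625529d5d0882e2, 22),
  ([4, 2, 1, 5], 0x721557900b35e4db1e70a242c10cb1, 128),
  ([4, 2, 5, 1], 0x8b133a42f23817669aa47a8480946e, 128),
  ([3, 1, 2, 1, 3], 0xb9e086be3593a6952d94b10a618820, 16),
  ([3, 5, 4, 1, 3], 0x2a64d59c4fb055531213622f4045c3, 0),
  ([3, 1, 5, 4, 3], 0x1d11064c2a209e6ad9a75c809bba25, 0),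
  ([2, 5, 2, 4, 1], 0x2d6cb6bc4790669a218a812e6045c3, 0),
  ([3, 4, 3, 5], 0x1cdb2b502658aaa7b10924007bba25, 0),
  ([5, 4, 5, 4, 2], 0x297664dd4245e63c1b54486928457, 4),
  ([5, 3, 2, 3, 2, 5], 0xc9335406ca9576218ed7d1c8882e2, 2),
  ([3, 5, 3, 2, 4], 0x740f49b0164ddb25a9e8a982410cb1, 128),
  ([3, 4, 5, 3, 1, 2], 0x890cfaa2ed502cb9268c99c500946e, 128),
  ([1, 2, 4, 5], 0x731e654012add766cce44d02810cb1, 128),
  ([4, 5, 2, 1], 0x8a287492eb9824db54d053c4c0946e, 128),
  ([5, 1, 5, 1], 0x13669aa0a450ecb63e9231e3075c01, 22),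
  ([1, 3, 5, 4, 3], 0x2a91061854205333d9b55caef045c3, 0),
  ([4, 3, 5, 3], 0x1be4d5d429b0a87992066200abba25, 0),
  ([3, 1, 2, 3, 1], 0x1ecb23dd564669522548346628457, 16),
  ([2, 3, 1, 3, 1], 0x25845d5cfb4687336139206a28457, 4),
  ([4, 3, 4, 2, 1, 3], 0x9e0b6a4756166fa224ab11c6882e2, 16),
  ([3, 5, 3, 4], 0x726445d40f85d479b6c66203410cb1, 0),
  ([3, 4, 5, 3, 1], 0x8d11661aea681f33c0955c8490946e, 0),
  ([4, 1, 2, 5, 2], 0x756c86a40765e6f52e548102610cb1, 0),
  ([5, 3, 4, 3], 0x89892852f3580ea7b1096d8550946e, 0),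
  ([1, 5, 2, 1, 5], 0x12970618b468df3ad88744a2975c01, 4),
  ([2, 1, 3, 5, 4, 3], 0x2926f3ac4d506c862692356f0045c3, 8),
  ([4, 3, 5, 3, 2], 0x1c2b434836489ac429eb3cc04bba25, 8),
  ([3, 5, 3, 5, 1], 0x49f3a59ccac570698e44a86828457, 138),
  ([3, 1, 3, 1], 0x58ea349d04c5ac5d1e8acc6428457, 254),
  ([3, 4, 5, 1, 3], 0x751709180a25df33d9b54302910cb1, 0),
  ([3, 4, 1, 5, 3], 0x8a58d456efb01479920692c540946e, 0),
  ([3, 5, 2, 5, 3], 0x11ec8224b590e6fa2d8a8362675c01, 16),
  ([5, 2, 1, 5, 1], 0x1258d59caf80e95992c69222a75c01, 4),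
  ([5, 1, 3, 5, 3], 0x2d474b5c834644b5670a3c6c28457, 138),
  ([4, 5, 3, 1, 2, 3], 0x712693a00da5ecb93d4c3543010cb1, 128),
  ([5, 3, 2, 4, 3], 0x8c2aa332f6781b25d1283cc440946e, 128),
  ([5, 3, 5, 4, 3, 4], 0x149e6a40ac38d7624ead4aa2875c01, 2),
  ([3, 5, 5, 3], 0x142aa9c8b648c8c5d1e839a2d75c01, 22),
  ([3, 2, 1, 3, 1], 0x188cb51d35c6aa4c90f6c06728457, 16),
  ([3, 5, 5, 2, 3, 2], 0x12d55490a898e4d81cd6a3e2c75c01, 2),
  ([3, 5, 5, 2, 3], 0x11892b28b340eb47b1696c22775c01, 16)]

/-- coset representatives -/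
def DW : List (List ℕ × ℕ) := [([], 0xbdab49ca307b9ac5a928398a418820),
  ([1], 0xbd8cf3b1d0a45b24254b9d46428820),
  ([4], 0x14274aae367b8889292c31cad1dc01),
  ([3], 0x1da957c850985ac59cc852404bc5c5),
  ([5], 0x8cc8b83c2690aa9a218a6d807b946e),
  ([5, 3], 0xbcd6493ca680ea9a36ca431c788440),
  ([3, 5], 0x13c8b84dc994686aa1876d8aa182e1),
  ([1, 3], 0x2d9e6a3050385b244eab4a804bba23)]

/-- generators (indices in `EW`) -/
def GI : List ℕ := [1, 2, 3, 4, 5, 6]

/-- entries of `EW` as products of a generator and an earlier entry -/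
def PW : List (ℕ × ℕ) := [(0, 0), (1, 0), (2, 0), (3, 0), (4, 0), (5, 0), (6, 0), (2, 1), (3, 1), (4, 1), (5, 1), (6, 1), (3, 2), (4, 2), (5, 2), (6, 2), (4, 3), (5, 3), (6, 3), (5, 4), (6, 4), (6, 5), (3, 7), (4, 7), (5, 7), (6, 7), (4, 8), (5, 8), (6, 8), (5, 9), (6, 9), (6, 10), (4, 12), (5, 12), (6, 12), (5, 13), (6, 13), (6, 14), (5, 16), (6, 16), (6, 17), (6, 19), (4, 22), (5, 22), (6, 22), (5, 23), (6, 23), (6, 24), (5, 26), (6, 26), (6, 27), (6, 29), (5, 32), (6, 32), (6, 33), (6, 35), (6, 38), (5, 42), (6, 42), (6, 43), (6, 45), (6, 48), (6, 52), (6, 57)]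

/-- witnesses -/
def WW : List (List (ℕ × ℕ)) := [[(0, 0), (1, 0), (2, 0), (3, 0), (4, 0), (5, 0), (6, 0), (7, 0)],
  [(1, 0), (0, 0), (4, 14), (7, 0), (2, 14), (6, 22), (5, 22), (3, 0)],
  [(0, 1), (1, 4), (2, 1), (3, 3), (4, 4), (5, 26), (6, 3), (7, 26)],
  [(3, 0), (7, 51), (5, 39), (0, 0), (6, 0), (2, 39), (4, 0), (1, 51)],
  [(2, 0), (4, 14), (0, 0), (6, 30), (1, 14), (7, 53), (3, 30), (5, 53)],
  [(4, 0), (2, 15), (1, 6), (5, 0), (0, 2), (3, 60), (7, 16), (6, 59)]]

/-- entry of `EW` -/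
def eW (i : ℕ) : List ℕ × ℕ × ℕ := EW.getD i ([], idTab, 254)

/-- entry of `DW` -/
def dW (i : ℕ) : List ℕ × ℕ := DW.getD i ([], idTab)

/-- tables agree modulo `tz` -/
def eqz (n m : ℕ) : Bool := match Nat.beq n m with | true => true | false => fz (tmul m tz) fun k => Nat.beq n k

/-- commute modulo `tz` -/
def comz (x d : ℕ) : Bool := fz (tmul x d) fun a => fz (tmul d x) fun b => eqz a b

def chW : Bool := (EW.all fun t => Nat.beq (wtab LM24 t.1) t.2.1) && (DW.all fun t => Nat.beq (wtab LM24 t.1) t.2)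

theorem chW_ok : chW = true := by decide +kernel

def chE : Bool := GI.all fun i => EW.all fun t => fz (tmul (eW i).2.1 t.2.1) fun n => fz (tmul n tz) fun m =>
  EW.any fun u => (Nat.beq n u.2.1 || Nat.beq m u.2.1)

theorem chE_ok : chE = true := by decide +kernel

def chQ : Bool := (List.range 63).all fun i =>
  (GI.any fun g => Nat.beq g (PW.getD (i + 1) (0, 0)).1) && Nat.blt (PW.getD (i + 1) (0, 0)).2 (i + 1) &&
  fz (tmul (eW (PW.getD (i + 1) (0, 0)).1).2.1 (eW (PW.getD (i + 1) (0, 0)).2).2.1) fun n => eqz (eW (i + 1)).2.1 n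

theorem chQ_ok : chQ = true := by decide +kernel

def chD : Bool := (List.range 6).all fun g => (List.range 8).all fun i =>
  (Nat.blt ((WW.getD g []).getD i (0, 0)).1 8) && Nat.blt ((WW.getD g []).getD i (0, 0)).2 64 &&
  fz (tmul (LM24.getD g idTab) (dW i).2) fun n =>
    fz (tmul (dW ((WW.getD g []).getD i (0, 0)).1).2 (eW ((WW.getD g []).getD i (0, 0)).2).2.1) fun m => eqz n m

theorem chD_ok : chD = true := by decide +kernel

def chS : Bool := EW.all fun t => fz (tmul t.2.1 t.2.1) fun n => eqz n idTab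

theorem chS_ok : chS = true := by decide +kernel

def chP : Bool := EW.all fun t => (List.range 7).all fun k => (Nat.testBit t.2.2 (k + 1)) ||
  (match comz t.2.1 (dW (k + 1)).2 with | true => false | false => true)

theorem chP_ok : chP = true := by decide +kernel

def cnt1 : Bool := (List.range 7).all fun k => Nat.ble (EW.filter fun t => Nat.testBit t.2.2 (k + 1)).length 16

theorem cnt1_ok : cnt1 = true := by decide +kernel

def cnt2 : Bool := (List.range 7).all fun k => (List.range 7).all fun l => Nat.beq k l ||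
  Nat.ble (EW.filter fun t => Nat.testBit t.2.2 (k + 1) && Nat.testBit t.2.2 (l + 1)).length 8

theorem cnt2_ok : cnt2 = true := by decide +kernel

def cnt3 : Bool := Nat.ble (EW.filter fun t => (List.range 7).all fun k => Nat.testBit t.2.2 (k + 1)).length 4

theorem cnt3_ok : cnt3 = true := by decide +kernel

/-! ### The group -/

theorem hL : validL LM24 = true := allL_iff.mpr fun n hn => (validM24_spec n (allL_iff.mp inG_M24 n hn)).1

/-- the Sylow subgroup -/
abbrev U : Subgroup (Equiv.Perm GolayPt) := UL LM24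

/-- element given by a word -/
noncomputable def el (w : List ℕ) : U := ⟨wperm LM24 w, wperm_mem LM24 w⟩

theorem el_tab (w : List ℕ) : IsTable (wtab LM24 w) (el w : Equiv.Perm GolayPt) := isTable_wtab hL w

/-- the central involution -/
noncomputable def zz : U := ⟨permOf tz, permOf_mem_UL (by decide)⟩

theorem zz_tab : IsTable tz (zz : Equiv.Perm GolayPt) := isTable_permOf (by decide +kernel)

theorem tmul_lt (n m : ℕ) : tmul n m < 32 ^ 24 := tmulA_lt n m 24

theorem eW_tab {t : List ℕ × ℕ × ℕ} (ht : t ∈ EW) : IsTable t.2.1 (el t.1 : Equiv.Perm GolayPt) := by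
  have h := chW_ok
  unfold chW at h
  rw [Bool.and_eq_true, List.all_eq_true, List.all_eq_true] at h
  have := Nat.eq_of_beq_eq_true (h.1 t ht)
  rw [← this]; exact el_tab _

theorem dW_mem {i : ℕ} (hi : i < 8) : dW i ∈ DW := by
  unfold dW
  rw [List.getD_eq_getElem _ _ (show i < DW.length from hi)]
  exact List.getElem_mem _

theorem eW_mem {i : ℕ} (hi : i < 64) : eW i ∈ EW := by
  unfold eW
  rw [List.getD_eq_getElem _ _ (show i < EW.length from hi)]
  exact List.getElem_mem _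

theorem dW_tab {i : ℕ} (hi : i < 8) : IsTable (dW i).2 (el (dW i).1 : Equiv.Perm GolayPt) := by
  have h := chW_ok
  unfold chW at h
  rw [Bool.and_eq_true, List.all_eq_true, List.all_eq_true] at h
  have := Nat.eq_of_beq_eq_true (h.2 _ (dW_mem hi))
  rw [← this]; exact el_tab _

section

variable {S : Type*} [Group S] [Finite S] (π : U →* S) (hz : π zz = 1)
  (hker : ∀ g, π g = 1 → g = 1 ∨ g = zz)

include hz in
theorem eqz_spec {n m : ℕ} {a b : U} (ha : IsTable n (a : Equiv.Perm GolayPt)) (hb : IsTable m (b : Equiv.Perm GolayPt))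
    (h : eqz n m = true) : π a = π b := by
  unfold eqz at h
  cases h1 : Nat.beq n m
  · rw [h1] at h
    simp only [fz_eq] at h
    have h2 : a = b * zz := by
      apply Subtype.ext
      have h3 := IsTable.tmul hb zz_tab
      rw [← Nat.eq_of_beq_eq_true h] at h3
      exact isTable_unique ha h3
    rw [h2, map_mul, hz, mul_one]
  · have h2 : a = b := by
      apply Subtype.ext
      rw [Nat.eq_of_beq_eq_true h1] at ha
      exact isTable_unique ha hb
    rw [h2]

include hker in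
theorem comz_spec {x d : ℕ} {a b : U} (ha : IsTable x (a : Equiv.Perm GolayPt)) (hb : IsTable d (b : Equiv.Perm GolayPt))
    (h : π a * π b = π b * π a) : comz x d = true := by
  have h1 : π ((b * a)⁻¹ * (a * b)) = 1 := by
    rw [map_mul, map_inv, map_mul, map_mul, h, inv_mul_cancel]
  have hab := IsTable.tmul ha hb
  have hba := IsTable.tmul hb ha
  unfold comz
  rw [fz_eq, fz_eq]
  unfold eqz
  rcases hker _ h1 with h2 | h2
  · have h3 : b * a = a * b := inv_mul_eq_one.mp h2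
    have h4 : (b : Equiv.Perm GolayPt) * a = a * b := congrArg Subtype.val h3
    rw [h4] at hba
    have h5 := Cfsg.Agent.Golay.Orb.isTable_inj hab hba (tmul_lt _ _) (tmul_lt _ _)
    rw [h5, Nat.beq_refl]
  · have h3 : a * b = b * a * zz := by rw [← h2]; group
    have h4 : (a : Equiv.Perm GolayPt) * b = b * a * zz := congrArg Subtype.val h3
    have h6 := IsTable.tmul hba zz_tab
    rw [← h4] at h6
    have h5 := Cfsg.Agent.Golay.Orb.isTable_inj hab h6 (tmul_lt _ _) (tmul_lt _ _)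
    cases Nat.beq (tmul x d) (tmul d x)
    · simp only [fz_eq]
      rw [← h5, Nat.beq_refl]
    · rfl

theorem stable {G : Type*} [Group G] [Finite G] (f : G →* S) (K : Set S) (X : Set G)
    (h : ∀ x ∈ X, ∀ s ∈ K, f x * s ∈ K) : ∀ g ∈ Subgroup.closure X, ∀ s ∈ K, f g * s ∈ K := by
  intro g hg
  induction hg using Subgroup.closure_induction with
  | mem x hx => exact h x hx
  | one => intro s hs; rwa [map_one, one_mul]
  | mul x y _ _ hx hy => intro s hs; rw [map_mul, mul_assoc]; exact hx _ (hy _ hs)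
  | inv x _ hx =>
    have h1 : ∀ k : ℕ, ∀ s ∈ K, f (x ^ k) * s ∈ K := by
      intro k
      induction k with
      | zero => intro s hs; rwa [pow_zero, map_one, one_mul]
      | succ k ih => intro s hs; rw [pow_succ', map_mul, mul_assoc]; exact hx _ (ih _ hs)
    have h2 : x⁻¹ = x ^ (orderOf x - 1) := by
      rw [inv_eq_iff_mul_eq_one, ← pow_succ', Nat.sub_add_cancel (orderOf_pos x), pow_orderOf_eq_one]
    rw [h2]
    exact h1 _

/-- image of an entry -/
noncomputable def pe (t : List ℕ × ℕ × ℕ) : S := π (el t.1)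

/-- image of a coset representative -/
noncomputable def pd (i : ℕ) : S := π (el (dW i).1)

/-- the subgroup of order 64 -/
noncomputable def E : Subgroup S := Subgroup.closure {s | ∃ i ∈ GI, s = pe π (eW i)}

theorem GI_lt : ∀ i ∈ GI, i < 64 := by decide

include hz in
theorem mem_E {s : S} (hs : s ∈ E π) : ∃ t ∈ EW, pe π t = s := by
  have h1 := stable (MonoidHom.id S) {s | ∃ t ∈ EW, pe π t = s} {s | ∃ i ∈ GI, s = pe π (eW i)} ?_ s hs
    1 ?_
  · simpa using h1
  · rintro _ ⟨i, hi, rfl⟩ _ ⟨t, ht, rfl⟩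
    have h := chE_ok
    unfold chE at h
    rw [List.all_eq_true] at h
    have h2 := h i hi
    rw [List.all_eq_true] at h2
    have h3 := h2 t ht
    rw [fz_eq, fz_eq, List.any_eq_true] at h3
    obtain ⟨u, hu, h4⟩ := h3
    refine ⟨u, hu, ?_⟩
    have h5 := IsTable.tmul (eW_tab (eW_mem (GI_lt i hi))) (eW_tab ht)
    change π (el u.1) = π (el (eW i).1) * π (el t.1)
    rw [← map_mul]
    rw [Bool.or_eq_true] at h4
    rcases h4 with h4 | h4
    · rw [Nat.eq_of_beq_eq_true h4] at h5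
      congr 1
      exact Subtype.ext (isTable_unique (eW_tab hu) h5)
    · have h6 := IsTable.tmul h5 zz_tab
      rw [Nat.eq_of_beq_eq_true h4] at h6
      have h7 : el u.1 = el (eW i).1 * el t.1 * zz := Subtype.ext (isTable_unique (eW_tab hu) h6)
      rw [h7, map_mul _ _ zz, hz, mul_one]
  · refine ⟨eW 0, eW_mem (by norm_num), ?_⟩
    change π (el (eW 0).1) = 1
    have : el (eW 0).1 = 1 := by
      apply Subtype.ext
      apply isTable_unique (eW_tab (eW_mem (by norm_num)))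
      exact isTable_id
    rw [this, map_one]

include hz in
theorem E_sq {s : S} (hs : s ∈ E π) : s ^ 2 = 1 := by
  obtain ⟨t, ht, rfl⟩ := mem_E π hz hs
  have h := chS_ok
  unfold chS at h
  rw [List.all_eq_true] at h
  have h2 := h t ht
  rw [fz_eq] at h2
  have h3 := eqz_spec π hz (a := el t.1 * el t.1) (b := 1) (IsTable.tmul (eW_tab ht) (eW_tab ht)) isTable_id h2
  rw [map_mul, map_one] at h3
  rw [pow_two]
  exact h3

include hz in
theorem E_comm : ∀ x ∈ E π, ∀ y ∈ E π, x * y = y * x := by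
  intro x hx y hy
  have h1 := E_sq π hz hx
  have h2 := E_sq π hz hy
  have h3 := E_sq π hz ((E π).mul_mem hx hy)
  have i1 : x⁻¹ = x := by rw [inv_eq_iff_mul_eq_one, ← pow_two, h1]
  have i2 : y⁻¹ = y := by rw [inv_eq_iff_mul_eq_one, ← pow_two, h2]
  have i3 : (x * y)⁻¹ = x * y := by rw [inv_eq_iff_mul_eq_one, ← pow_two, h3]
  rw [← i3, mul_inv_rev, i1, i2]

include hz in
theorem hE : ∀ i < 64, pe π (eW i) ∈ E π := by
  intro i
  induction i using Nat.strong_induction_on with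
  | _ i ih =>
    intro hi
    rcases Nat.eq_zero_or_pos i with rfl | hpos
    · have : el (eW 0).1 = 1 := by
        apply Subtype.ext
        apply isTable_unique (eW_tab (eW_mem (by norm_num)))
        exact isTable_id
      change π (el (eW 0).1) ∈ _
      rw [this, map_one]
      exact Subgroup.one_mem _
    · obtain ⟨k, rfl⟩ : ∃ k, i = k + 1 := ⟨i - 1, by omega⟩
      have h := chQ_ok
      unfold chQ at h
      rw [List.all_eq_true] at h
      have h3 := h k (List.mem_range.2 (by omega))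
      rw [Bool.and_eq_true, Bool.and_eq_true] at h3
      obtain ⟨⟨h4, h5⟩, h6⟩ := h3
      rw [fz_eq] at h6
      have hj := Nat.blt_eq.mp h5
      rw [List.any_eq_true] at h4
      obtain ⟨g, hg, h4⟩ := h4
      rw [← Nat.eq_of_beq_eq_true h4] at h6
      generalize (PW.getD (k + 1) (0, 0)).2 = j at hj h6
      have h7 := eqz_spec π hz (a := el (eW (k + 1)).1) (b := el (eW g).1 * el (eW j).1)
        (eW_tab (eW_mem hi)) (IsTable.tmul (eW_tab (eW_mem (GI_lt g hg))) (eW_tab (eW_mem (by omega)))) h6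
      change π (el (eW (k + 1)).1) ∈ _
      rw [h7, map_mul]
      exact Subgroup.mul_mem _ (Subgroup.subset_closure ⟨g, hg, rfl⟩) (ih j hj (by omega))

include hz in
theorem cover (hsurj : Function.Surjective π) (s : S) :
    ∃ i < 8, ∃ e ∈ E π, s = pd π i * e := by
  obtain ⟨g, rfl⟩ := hsurj s
  have h1 := stable π {s | ∃ i < 8, ∃ e ∈ E π, s = pd π i * e} {u : U | ∃ k < 6, (u : Equiv.Perm GolayPt) =
      permOf (LM24.getD k idTab)} ?_ g ?_ 1 ?_
  · rwa [mul_one] at h1
  · rintro u ⟨k, hk, hu⟩ _ ⟨i, hi, e, he, rfl⟩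
    have h := chD_ok
    unfold chD at h
    rw [List.all_eq_true] at h
    have h2 := h k (List.mem_range.2 hk)
    rw [List.all_eq_true] at h2
    have h3 := h2 i (List.mem_range.2 hi)
    rw [Bool.and_eq_true, Bool.and_eq_true] at h3
    obtain ⟨⟨h4, h5⟩, h6⟩ := h3
    rw [fz_eq, fz_eq] at h6
    have hj := Nat.blt_eq.mp h4
    have hl := Nat.blt_eq.mp h5
    generalize ((WW.getD k []).getD i (0, 0)).1 = j at hj h6
    generalize ((WW.getD k []).getD i (0, 0)).2 = l at hl h6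
    refine ⟨j, hj, pe π (eW l) * e, (E π).mul_mem (hE π hz l hl) he, ?_⟩
    have hut : IsTable (LM24.getD k idTab) (u : Equiv.Perm GolayPt) := by
      rw [hu]; exact isTable_permOf (validL_getD hL k)
    have h7 := eqz_spec π hz (a := u * el (dW i).1) (b := el (dW j).1 * el (eW l).1)
      (IsTable.tmul hut (dW_tab hi)) (IsTable.tmul (dW_tab hj) (eW_tab (eW_mem hl))) h6
    rw [map_mul, map_mul] at h7
    change π u * (π (el (dW i).1) * e) = π (el (dW j).1) * (π (el (eW l).1) * e)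
    rw [← mul_assoc, h7, mul_assoc]
  · -- g in closure
    obtain ⟨g, hg⟩ := g
    have h2 : ∀ g (hg : g ∈ U), (⟨g, hg⟩ : U) ∈ Subgroup.closure {u : U | ∃ k < 6, (u : Equiv.Perm GolayPt) =
        permOf (LM24.getD k idTab)} := by
      intro g hg
      have hg' := hg
      change g ∈ Subgroup.closure _ at hg'
      induction hg' using Subgroup.closure_induction with
      | mem x hx =>
        apply Subgroup.subset_closure
        obtain ⟨n, hn, hx⟩ := hx
        obtain ⟨k, hk, hkn⟩ := List.mem_iff_getElem.1 hn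
        refine ⟨k, hk, ?_⟩
        rw [List.getD_eq_getElem _ _ hk, hkn]
        exact hx.symm
      | one => exact Subgroup.one_mem _
      | mul x y hx' hy' hx hy => exact Subgroup.mul_mem _ (hx hx') (hy hy')
      | inv x hx' hx => exact Subgroup.inv_mem _ (hx hx')
    exact h2 g hg
  · refine ⟨0, by norm_num, 1, (E π).one_mem, ?_⟩
    have h3 : el (dW 0).1 = 1 := by
      apply Subtype.ext
      exact isTable_unique (dW_tab (by norm_num)) isTable_id
    change 1 = π (el (dW 0).1) * 1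
    rw [h3, map_one, mul_one]

include hz in
theorem pd_zero : pd π 0 = 1 := by
  have h3 : el (dW 0).1 = 1 := by
    apply Subtype.ext
    exact isTable_unique (dW_tab (by norm_num)) isTable_id
  change π (el (dW 0).1) = 1
  rw [h3, map_one]

include hker in
theorem bit_of_comm {t : List ℕ × ℕ × ℕ} (ht : t ∈ EW) {k : ℕ} (hk : k < 7)
    (h : pe π t * pd π (k + 1) = pd π (k + 1) * pe π t) : Nat.testBit t.2.2 (k + 1) = true := by
  have h1 := comz_spec π hker (eW_tab ht) (dW_tab (show k + 1 < 8 by omega)) h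
  have h2 := chP_ok
  unfold chP at h2
  rw [List.all_eq_true] at h2
  have h3 := h2 t ht
  rw [List.all_eq_true] at h3
  have h4 := h3 k (List.mem_range.2 hk)
  rw [h1] at h4
  simpa using h4

theorem ncard_le_filter (X : Set S) (p : List ℕ × ℕ × ℕ → Bool) (h : ∀ x ∈ X, ∃ t ∈ EW, p t = true ∧ pe π t = x) :
    X.ncard ≤ (EW.filter p).length := by
  classical
  have h1 : X ⊆ (((EW.filter p).map (pe π)).toFinset : Set S) := by
    intro x hx
    obtain ⟨t, ht, hp, rfl⟩ := h x hx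
    rw [Finset.mem_coe, List.mem_toFinset, List.mem_map]
    exact ⟨t, List.mem_filter.2 ⟨ht, hp⟩, rfl⟩
  have h2 := Set.ncard_le_ncard h1 (Set.toFinite _)
  rw [Set.ncard_coe_finset] at h2
  refine h2.trans ((List.toFinset_card_le _).trans ?_)
  rw [List.length_map]

include hker hz in
theorem good (hS : Nat.card S = 512) (hsurj : Function.Surjective π) :
    (∀ M : Subgroup S, IsCoatom M → Nat.card ↥(Subgroup.center ↥M) ≤ 8) ∧
      (∃ A : Subgroup S, IsElementaryAbelian 2 A ∧ Nat.card ↥A = 64) ∧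
      ∀ A B : Subgroup S, IsMulCommutative ↥A → Nat.card ↥A = 64 → IsMulCommutative ↥B → Nat.card ↥B = 64 → A = B := by
  have hcov := cover π hz hsurj
  have hle : Nat.card (E π) ≤ 64 := by
    have h1 := ncard_le_filter π (E π : Set S) (fun _ => true) (fun x hx => by
      obtain ⟨t, ht, h2⟩ := mem_E π hz hx
      exact ⟨t, ht, rfl, h2⟩)
    exact h1
  have hge : 512 ≤ 8 * Nat.card (E π) := by
    let f : Fin 8 × E π → S := fun x => pd π x.1 * x.2
    have hf : Function.Surjective f := by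
      intro s
      obtain ⟨i, hi, e, he, rfl⟩ := hcov s
      exact ⟨(⟨i, hi⟩, ⟨e, he⟩), rfl⟩
    have := Nat.card_le_card_of_surjective f hf
    rw [hS, Nat.card_prod, Nat.card_eq_fintype_card, Fintype.card_fin] at this
    exact this
  have hout : ∀ a, a ∉ E π → ∃ k < 7, ∃ e ∈ E π, a = pd π (k + 1) * e := by
    intro a ha
    obtain ⟨i, hi, e, he, rfl⟩ := hcov a
    rcases Nat.eq_zero_or_pos i with rfl | hpos
    · exfalso; apply ha; rw [pd_zero π hz, one_mul]; exact he
    · obtain ⟨k, rfl⟩ : ∃ k, i = k + 1 := ⟨i - 1, by omega⟩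
      exact ⟨k, by omega, e, he, rfl⟩
  have hcm : ∀ x ∈ E π, ∀ e ∈ E π, ∀ d : S, x * (d * e) = d * e * x → x * d = d * x := by
    intro x hx e he d h
    have h1 := E_comm π hz x hx e he
    have h2 : x * d * e = d * x * e := by
      calc x * d * e = x * (d * e) := by group
        _ = d * e * x := h
        _ = d * (e * x) := by group
        _ = d * (x * e) := by rw [h1]
        _ = d * x * e := by group
    exact mul_right_cancel h2
  refine Abel64.main hS (E π) (by omega) (E_comm π hz) (fun x hx => E_sq π hz hx) ?_ ?_ ?_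
  · intro a ha
    obtain ⟨k, hk, e, he, rfl⟩ := hout a ha
    have h1 := cnt1_ok
    unfold cnt1 at h1
    rw [List.all_eq_true] at h1
    refine (ncard_le_filter π _ (fun t => Nat.testBit t.2.2 (k + 1)) ?_).trans
      (Nat.le_of_ble_eq_true (h1 k (List.mem_range.2 hk)))
    rintro x ⟨hx, hxa⟩
    obtain ⟨t, ht, rfl⟩ := mem_E π hz hx
    exact ⟨t, ht, bit_of_comm π hker ht hk (hcm _ hx e he _ hxa), rfl⟩
  · intro a b ha hb hab
    obtain ⟨k, hk, e, he, rfl⟩ := hout a ha
    obtain ⟨l, hl, f, hf, rfl⟩ := hout b hb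
    have hkl : k ≠ l := by
      rintro rfl
      apply hab
      have : (pd π (k + 1) * e)⁻¹ * (pd π (k + 1) * f) = e⁻¹ * f := by group
      rw [this]
      exact (E π).mul_mem ((E π).inv_mem he) hf
    have h1 := cnt2_ok
    unfold cnt2 at h1
    rw [List.all_eq_true] at h1
    have h2 := h1 k (List.mem_range.2 hk)
    rw [List.all_eq_true] at h2
    have h3 := h2 l (List.mem_range.2 hl)
    rw [Bool.or_eq_true] at h3
    rcases h3 with h3 | h3
    · exact absurd (Nat.eq_of_beq_eq_true h3) hkl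
    refine (ncard_le_filter π _ (fun t => Nat.testBit t.2.2 (k + 1) && Nat.testBit t.2.2 (l + 1)) ?_).trans
      (Nat.le_of_ble_eq_true h3)
    rintro x ⟨hx, hxa, hxb⟩
    obtain ⟨t, ht, rfl⟩ := mem_E π hz hx
    refine ⟨t, ht, ?_, rfl⟩
    rw [Bool.and_eq_true]
    exact ⟨bit_of_comm π hker ht hk (hcm _ hx e he _ hxa), bit_of_comm π hker ht hl (hcm _ hx f hf _ hxb)⟩
  · refine (ncard_le_filter π _ (fun t => (List.range 7).all fun k => Nat.testBit t.2.2 (k + 1)) ?_).trans
      (Nat.le_of_ble_eq_true cnt3_ok)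
    rintro x ⟨hx, hxa⟩
    obtain ⟨t, ht, rfl⟩ := mem_E π hz hx
    refine ⟨t, ht, ?_, rfl⟩
    rw [List.all_eq_true]
    intro k hk
    exact bit_of_comm π hker ht (List.mem_range.1 hk) (hxa _)

end

end Cfsg.Agent.H80.M24P
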