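import Mathlib

/-!
# Nilpotent normal subgroups all of whose normal abelian subgroups are central (owner: helper80)
-/

set_option autoImplicit false

namespace Cfsg.Agent.H80

open scoped commutatorElement

universe u v

/-- In a nilpotent group `F`, if `Z₂(F) ∩ F'` is central then `F' ≤ Z(F)`. -/
theorem commutator_le_center_of_inf {F : Type u} [Group F] [hF : Group.IsNilpotent F]
    (h : Subgroup.upperCentralSeries F 2 ⊓ commutator F ≤ Subgroup.center F) :
    commutator F ≤ Subgroup.center F := by
  obtain ⟨n, hn⟩ := hF.nilpotent'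
  have key : ∀ i, Subgroup.upperCentralSeries F i ⊓ commutator F ≤ Subgroup.center F := by
    intro i
    induction i with
    | zero =>
      rw [Subgroup.upperCentralSeries_zero]
      simp
    | succ i ih =>
      rintro x ⟨hx1, hx2⟩
      apply h
      refine ⟨?_, hx2⟩
      have h1 : ∀ y, x * y * x⁻¹ * y⁻¹ ∈ Subgroup.center F := by
        intro y
        apply ih
        refine ⟨?_, ?_⟩
        · exact (Subgroup.mem_upperCentralSeries_succ_iff.mp hx1) y
        · exact Subgroup.commutator_mem_commutator (Subgroup.mem_top x) (Subgroup.mem_top y)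
      change x ∈ Subgroup.upperCentralSeries F (1 + 1)
      rw [Subgroup.mem_upperCentralSeries_succ_iff]
      intro y
      rw [Subgroup.upperCentralSeries_one]
      exact h1 y
  have := key n
  rwa [hn, top_inf_eq] at this

/-- The commutator subgroup centralizes the second centre. -/
theorem commutator_upper_two {F : Type u} [Group F] :
    ⁅commutator F, Subgroup.upperCentralSeries F 2⁆ = ⊥ := by
  have h1 : ⁅Subgroup.upperCentralSeries F 2, (⊤ : Subgroup F)⁆ ≤ Subgroup.center F := by
    rw [Subgroup.commutator_le]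
    intro x hx y _
    have := (Subgroup.mem_upperCentralSeries_succ_iff (n := 1)).mp hx y
    rwa [Subgroup.upperCentralSeries_one] at this
  have h2 : ⁅⁅Subgroup.upperCentralSeries F 2, (⊤ : Subgroup F)⁆, (⊤ : Subgroup F)⁆ = ⊥ := by
    rw [Subgroup.commutator_eq_bot_iff_le_centralizer]
    refine h1.trans ?_
    rw [Subgroup.coe_top, Subgroup.centralizer_univ]
  rw [commutator_def]
  apply Subgroup.commutator_commutator_eq_bot_of_rotate
  · rw [Subgroup.commutator_comm ⊤ (Subgroup.upperCentralSeries F 2)]
    exact h2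
  · exact h2

/-- A nilpotent normal subgroup of `G` all of whose abelian `G`-normal subgroups are central in `G`
has derived subgroup central in `G`, and centre central in `G`. -/
theorem nilp_normal_central {G : Type u} [Group G] (F : Subgroup G) [F.Normal] [Group.IsNilpotent F]
    (h : ∀ A : Subgroup G, A.Normal → A ≤ F → (∀ a ∈ A, ∀ b ∈ A, a * b = b * a) →
      A ≤ Subgroup.center G) :
    (∀ x ∈ F, (∀ y ∈ F, x * y = y * x) → x ∈ Subgroup.center G) ∧
      (∀ x ∈ F, ∀ y ∈ F, x * y * x⁻¹ * y⁻¹ ∈ Subgroup.center G) := by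
  have hZ : (Subgroup.center F).map F.subtype ≤ Subgroup.center G := by
    apply h _ inferInstance (Subgroup.map_subtype_le _)
    rintro _ ⟨a, ha, rfl⟩ _ ⟨b, hb, rfl⟩
    exact congrArg Subtype.val (Subgroup.mem_center_iff.mp ha b).symm
  have h1 : ∀ x ∈ F, (∀ y ∈ F, x * y = y * x) → x ∈ Subgroup.center G := by
    intro x hx hxy
    apply hZ
    refine ⟨⟨x, hx⟩, ?_, rfl⟩
    rw [SetLike.mem_coe, Subgroup.mem_center_iff]
    intro y
    exact Subtype.ext (hxy y y.2).symm
  refine ⟨h1, ?_⟩
  have hchar2 : (Subgroup.upperCentralSeries F 2 ⊓ commutator F).Characteristic := by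
    infer_instance
  have hA : (Subgroup.upperCentralSeries F 2 ⊓ commutator F).map F.subtype ≤ Subgroup.center G := by
    apply h _ inferInstance (Subgroup.map_subtype_le _)
    rintro _ ⟨a, ha, rfl⟩ _ ⟨b, hb, rfl⟩
    have h3 : commutator F ≤ Subgroup.centralizer (Subgroup.upperCentralSeries F 2 : Set F) :=
      Subgroup.commutator_eq_bot_iff_le_centralizer.mp commutator_upper_two
    exact congrArg Subtype.val (h3 hb.2 a ha.1)
  have hB : commutator F ≤ Subgroup.center F := by
    apply commutator_le_center_of_inf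
    intro x hx
    rw [Subgroup.mem_center_iff]
    intro y
    have := hA ⟨x, hx, rfl⟩
    rw [Subgroup.mem_center_iff] at this
    exact Subtype.ext (this y)
  intro x hx y hy
  have h4 : (⟨x, hx⟩ : F) * ⟨y, hy⟩ * (⟨x, hx⟩ : F)⁻¹ * (⟨y, hy⟩ : F)⁻¹ ∈ commutator F :=
    Subgroup.commutator_mem_commutator (Subgroup.mem_top _) (Subgroup.mem_top _)
  exact hZ ⟨_, hB h4, rfl⟩

end Cfsg.Agent.H80
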