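import Mathlib

/-!
# Ree's inequality on permutations with product one (owner: helper80)

`ree_two` : if `x * y * z = 1` in `Perm Ω` and every point is in the orbit of `a` or `b` under `⟨x, y⟩`, then the
numbers of cycles of `x`, `y`, `z` add up to at most `|Ω| + 4`.
`cycles_prime` : the number of cycles of a permutation of prime order from its number of fixed points.
-/

set_option autoImplicit false
set_option linter.unusedSectionVars false

namespace Cfsg.Agent.H80.Ree

open Module

variable {Ω : Type} [Fintype Ω] [DecidableEq Ω]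

/-- the permutation operator of `x` -/
def T (x : Equiv.Perm Ω) : (Ω → ℚ) →ₗ[ℚ] (Ω → ℚ) := LinearMap.funLeft ℚ ℚ ⇑(x⁻¹ : Equiv.Perm Ω)

theorem T_apply (x : Equiv.Perm Ω) (f : Ω → ℚ) (w : Ω) : T x f w = f (x⁻¹ w) := rfl

theorem T_mul (x y : Equiv.Perm Ω) (f : Ω → ℚ) : T (x * y) f = T x (T y f) := by
  funext w
  simp only [T_apply, mul_inv_rev, Equiv.Perm.mul_apply]

theorem T_one (f : Ω → ℚ) : T (1 : Equiv.Perm Ω) f = f := by
  funext w
  simp only [T_apply, inv_one, Equiv.Perm.one_apply]

theorem T_single (x : Equiv.Perm Ω) (w : Ω) : T x (Pi.single w 1) = Pi.single (x w) 1 := by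
  funext v
  rw [T_apply]
  by_cases h : v = x w
  · subst h; simp
  · rw [Pi.single_eq_of_ne h, Pi.single_eq_of_ne]
    intro h'
    apply h
    rw [← h']; simp

/-- the difference operator -/
def D (x : Equiv.Perm Ω) : (Ω → ℚ) →ₗ[ℚ] (Ω → ℚ) := LinearMap.id - T x

theorem D_apply (x : Equiv.Perm Ω) (f : Ω → ℚ) : D x f = f - T x f := rfl

/-- the number of cycles -/
noncomputable def cyc (x : Equiv.Perm Ω) : ℕ := Nat.card (MulAction.orbitRel.Quotient (Subgroup.zpowers x) Ω)

theorem cyc_le (x : Equiv.Perm Ω) : cyc x ≤ finrank ℚ (LinearMap.ker (D x)) := by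
  classical
  let Q := MulAction.orbitRel.Quotient (Subgroup.zpowers x) Ω
  have : Fintype Q := Fintype.ofFinite Q
  let q : Ω → Q := Quotient.mk _
  have hq : Function.Surjective q := Quotient.mk_surjective
  let F : (Q → ℚ) →ₗ[ℚ] (Ω → ℚ) := LinearMap.funLeft ℚ ℚ q
  have hF : Function.Injective F := LinearMap.funLeft_injective_of_surjective ℚ ℚ q hq
  have hr : LinearMap.range F ≤ LinearMap.ker (D x) := by
    rintro _ ⟨f, rfl⟩
    rw [LinearMap.mem_ker, D_apply, sub_eq_zero]
    funext w
    rw [T_apply]
    change f (q w) = f (q (x⁻¹ w))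
    congr 1
    apply Quotient.sound
    change w ∈ MulAction.orbit (Subgroup.zpowers x) (x⁻¹ w)
    refine ⟨⟨x, Subgroup.mem_zpowers x⟩, ?_⟩
    change x (x⁻¹ w) = w
    simp
  calc cyc x = finrank ℚ (Q → ℚ) := by
        rw [Module.finrank_fintype_fun_eq_card]
        unfold cyc
        rw [Nat.card_eq_fintype_card]
    _ = finrank ℚ (LinearMap.range F) := (LinearMap.finrank_range_of_inj hF).symm
    _ ≤ _ := Submodule.finrank_mono hr

theorem finrank_range_D (x : Equiv.Perm Ω) : finrank ℚ (LinearMap.range (D x)) + cyc x ≤ Fintype.card Ω := by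
  have h1 := LinearMap.finrank_range_add_finrank_ker (D x)
  have h2 := cyc_le x
  rw [Module.finrank_fintype_fun_eq_card] at h1
  omega

theorem ree_two {x y z : Equiv.Perm Ω} (hxyz : x * y * z = 1) (a b : Ω)
    (hab : ∀ w, ∃ g ∈ Subgroup.closure {x, y}, g a = w ∨ g b = w) :
    cyc x + cyc y + cyc z ≤ Fintype.card Ω + 4 := by
  let V := Ω → ℚ
  let A := LinearMap.range (D x)
  let B := LinearMap.range (D y)
  let C := LinearMap.range (D z)
  let β : V →ₗ[ℚ] (A × B × C) :=
    (D x).rangeRestrict.prod ((D y).rangeRestrict.prod (D z).rangeRestrict)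
  let δ : (A × B × C) →ₗ[ℚ] V :=
    A.subtype.coprod (((T x).comp B.subtype).coprod (((T x).comp (T y)).comp C.subtype))
  have hδ : ∀ (u : A) (v : B) (w : C), δ (u, v, w) = (u : V) + (T x (v : V) + T x (T y (w : V))) := by
    intro u v w
    simp only [δ, LinearMap.coprod_apply, LinearMap.comp_apply, Submodule.subtype_apply]
  have hβ : ∀ f : V, β f = (⟨D x f, f, rfl⟩, ⟨D y f, f, rfl⟩, ⟨D z f, f, rfl⟩) := fun f => rfl
  have hδβ : LinearMap.range β ≤ LinearMap.ker δ := by
    rintro _ ⟨f, rfl⟩
    rw [LinearMap.mem_ker, hβ, hδ]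
    simp only [D_apply, map_sub]
    have h1 : T x (T y (T z f)) = f := by
      rw [← T_mul, ← T_mul, hxyz, T_one]
    rw [h1]
    abel
  have e1 := LinearMap.finrank_range_add_finrank_ker β
  have e2 := LinearMap.finrank_range_add_finrank_ker δ
  have e3 := Submodule.finrank_mono hδβ
  have e4 : finrank ℚ (A × B × C) = finrank ℚ A + (finrank ℚ B + finrank ℚ C) := by
    rw [Module.finrank_prod, Module.finrank_prod]
  have hV : finrank ℚ V = Fintype.card Ω := Module.finrank_fintype_fun_eq_card ℚ
  -- kernel of β
  have e5 : finrank ℚ (LinearMap.ker β) ≤ 2 := by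
    let F : LinearMap.ker β →ₗ[ℚ] (ℚ × ℚ) :=
      ((LinearMap.proj a : V →ₗ[ℚ] ℚ).prod (LinearMap.proj b : V →ₗ[ℚ] ℚ)).comp (LinearMap.ker β).subtype
    have hF : Function.Injective F := by
      rw [← LinearMap.ker_eq_bot, LinearMap.ker_eq_bot']
      intro f hf
      have hfa : (f : V) a = 0 := congrArg Prod.fst hf
      have hfb : (f : V) b = 0 := congrArg Prod.snd hf
      have hk : β (f : V) = 0 := f.2
      rw [hβ] at hk
      have hx : T x (f : V) = f := by
        have := congrArg (fun t : A × B × C => (t.1 : V)) hk
        simp only [D_apply] at this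
        exact (sub_eq_zero.mp this).symm
      have hy : T y (f : V) = f := by
        have := congrArg (fun t : A × B × C => (t.2.1 : V)) hk
        simp only [D_apply] at this
        exact (sub_eq_zero.mp this).symm
      have hinv : ∀ g ∈ Subgroup.closure {x, y}, T g (f : V) = f := by
        intro g hg
        induction hg using Subgroup.closure_induction with
        | mem g hg =>
          rcases hg with rfl | hg
          · exact hx
          · rw [Set.mem_singleton_iff] at hg; subst hg; exact hy
        | one => exact T_one _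
        | mul g h _ _ hg hh => rw [T_mul, hh, hg]
        | inv g _ hg =>
          have := congrArg (T g⁻¹) hg
          rw [← T_mul, inv_mul_cancel, T_one] at this
          exact this.symm
      apply Subtype.ext
      funext w
      obtain ⟨g, hg, hw⟩ := hab w
      have h1 := hinv g hg
      have h2 := congrFun h1 w
      rw [T_apply] at h2
      rcases hw with rfl | rfl
      · rw [← h2]; change _ = (0 : ℚ); simpa using hfa
      · rw [← h2]; change _ = (0 : ℚ); simpa using hfb
    have := LinearMap.finrank_le_finrank_of_injective hF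
    simpa [Module.finrank_prod] using this
  -- range of δ
  have e6 : Fintype.card Ω ≤ finrank ℚ (LinearMap.range δ) + 2 := by
    let R := LinearMap.range δ
    have hRx : ∀ f : V, D x f ∈ R := fun f => ⟨(⟨D x f, f, rfl⟩, 0, 0), by rw [hδ]; simp⟩
    have hRy' : ∀ f : V, T x (D y f) ∈ R := fun f => ⟨(0, ⟨D y f, f, rfl⟩, 0), by rw [hδ]; simp⟩
    have hRy : ∀ f : V, D y f ∈ R := by
      intro f
      have h1 := R.add_mem (hRx (D y f)) (hRy' f)
      rw [D_apply x] at h1
      simpa using h1
    have hg : ∀ g ∈ Subgroup.closure {x, y}, ∀ f : V, D g f ∈ R := by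
      intro g hg
      induction hg using Subgroup.closure_induction with
      | mem g hg =>
        rcases hg with rfl | hg
        · exact hRx
        · rw [Set.mem_singleton_iff] at hg; subst hg; exact hRy
      | one => intro f; rw [D_apply, T_one, sub_self]; exact R.zero_mem
      | mul g h _ _ hg hh =>
        intro f
        have h1 := R.add_mem (hg (T h f)) (hh f)
        rw [D_apply, D_apply] at h1
        rw [D_apply, T_mul]
        convert h1 using 1
        abel
      | inv g _ hg =>
        intro f
        have h1 := R.neg_mem (hg (T g⁻¹ f))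
        rw [D_apply, ← T_mul, mul_inv_cancel, T_one] at h1
        rw [D_apply]
        convert h1 using 1
        abel
    let S : Submodule ℚ V := Submodule.span ℚ {Pi.single a 1, Pi.single b 1}
    have hS : finrank ℚ S ≤ 2 := by
      classical
      have h1 := finrank_span_le_card (R := ℚ) ({Pi.single a 1, Pi.single b 1} : Set V)
      refine h1.trans ?_
      rw [Set.toFinset_card]
      have := Finset.card_le_two (a := (Pi.single a 1 : V)) (b := Pi.single b 1)
      refine le_trans (le_of_eq ?_) this
      rw [← Set.toFinset_card]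
      congr 1
      ext; simp
    have htop : R ⊔ S = ⊤ := by
      rw [eq_top_iff]
      intro f _
      have h1 : f = ∑ w, f w • (Pi.single w 1 : V) := by
        funext v
        simp [Finset.sum_apply, Pi.single_apply]
      rw [h1]
      apply Submodule.sum_mem
      intro w _
      apply Submodule.smul_mem
      obtain ⟨g, hg', hw⟩ := hab w
      rcases hw with rfl | rfl
      · have h2 := hg g hg' (Pi.single a 1)
        rw [D_apply, T_single] at h2
        have h3 : (Pi.single a 1 : V) ∈ S := Submodule.subset_span (by simp)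
        have h4 := (R ⊔ S).sub_mem (Submodule.mem_sup_right h3) (Submodule.mem_sup_left h2)
        simpa using h4
      · have h2 := hg g hg' (Pi.single b 1)
        rw [D_apply, T_single] at h2
        have h3 : (Pi.single b 1 : V) ∈ S := Submodule.subset_span (by simp)
        have h4 := (R ⊔ S).sub_mem (Submodule.mem_sup_right h3) (Submodule.mem_sup_left h2)
        simpa using h4
    have h5 := Submodule.finrank_add_le_finrank_add_finrank R S
    rw [htop, finrank_top] at h5
    change Fintype.card Ω ≤ finrank ℚ R + 2
    omega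
  have f1 := finrank_range_D x
  have f2 := finrank_range_D y
  have f3 := finrank_range_D z
  change finrank ℚ A + cyc x ≤ _ at f1
  change finrank ℚ B + cyc y ≤ _ at f2
  change finrank ℚ C + cyc z ≤ _ at f3
  omega

theorem cyc_prime {x : Equiv.Perm Ω} {p : ℕ} (hp : p.Prime) (hx : orderOf x = p) :
    cyc x * p = Fintype.card Ω + (p - 1) * (Finset.univ.filter fun w => x w = w).card := by
  classical
  have hfin : Fintype (Subgroup.zpowers x) := Fintype.ofFinite _
  have hq : Fintype (Quotient (MulAction.orbitRel (Subgroup.zpowers x) Ω)) := Fintype.ofFinite _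
  have h1 := MulAction.sum_card_fixedBy_eq_card_orbits_mul_card_group (Subgroup.zpowers x) Ω
  have hc : Fintype.card (Subgroup.zpowers x) = p := by rw [← Nat.card_eq_fintype_card, Nat.card_zpowers, hx]
  have h2 : ∀ g : Subgroup.zpowers x, g ≠ 1 →
      Fintype.card (MulAction.fixedBy Ω g) = (Finset.univ.filter fun w => x w = w).card := by
    intro g hg
    rw [← Set.toFinset_card]
    congr 1
    ext w
    rw [Set.mem_toFinset, MulAction.mem_fixedBy, Finset.mem_filter]
    simp only [Finset.mem_univ, true_and]
    have hgw : g • w = (g : Equiv.Perm Ω) w := rfl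
    rw [hgw]
    have hg1 : (g : Equiv.Perm Ω) ≠ 1 := fun h => hg (Subtype.ext h)
    have hgo : orderOf (g : Equiv.Perm Ω) = p := by
      rw [Subgroup.orderOf_coe]
      have h3 : orderOf g ∣ p := by rw [← hc]; exact orderOf_dvd_card
      rcases (Nat.dvd_prime hp).mp h3 with h4 | h4
      · exact absurd (orderOf_eq_one_iff.mp h4) hg
      · exact h4
    constructor
    · intro hw
      -- x is a power of g
      have h5 : Subgroup.zpowers (g : Equiv.Perm Ω) = Subgroup.zpowers x := by
        apply Subgroup.eq_of_le_of_card_ge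
        · rw [Subgroup.zpowers_le]; exact g.2
        · rw [Nat.card_zpowers, Nat.card_zpowers, hgo, hx]
      have h6 : x ∈ Subgroup.zpowers (g : Equiv.Perm Ω) := by rw [h5]; exact Subgroup.mem_zpowers x
      obtain ⟨k, hk⟩ := h6
      simp only at hk
      rw [← hk]
      exact Function.IsFixedPt.perm_zpow hw k
    · intro hw
      obtain ⟨k, hk⟩ := g.2
      simp only at hk
      rw [← hk]
      exact Function.IsFixedPt.perm_zpow hw k
  have h3 : ∑ g : Subgroup.zpowers x, Fintype.card (MulAction.fixedBy Ω g) =
      Fintype.card Ω + (p - 1) * (Finset.univ.filter fun w => x w = w).card := by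
    rw [← Finset.add_sum_erase Finset.univ _ (Finset.mem_univ (1 : Subgroup.zpowers x))]
    congr 1
    · rw [← Set.toFinset_card, ← Finset.card_univ]
      congr 1
      ext w
      simp
    · rw [Finset.sum_congr rfl (g := fun _ => (Finset.univ.filter fun w => x w = w).card)]
      · rw [Finset.sum_const, Finset.card_erase_of_mem (Finset.mem_univ _), Finset.card_univ, hc, smul_eq_mul]
      · intro g hg
        exact h2 g (Finset.ne_of_mem_erase hg)
  rw [← h3, h1, hc]
  unfold cyc
  rw [Nat.card_eq_fintype_card]

end Cfsg.Agent.H80.Ree
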