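import Cfsg.Agent.M24X.Cent8C

set_option autoImplicit false

/-! The centralizer of a transvection in `SL(5,2)` in the coordinates of `Cent8.Dat`. Owner: helper80. -/

namespace Cfsg.Agent.H80.SL52

open Matrix Cfsg.Agent.M24X.Cent8

/-- transport of coordinates -/
def datMap {G G' : Type*} [Group G] [Group G'] (e : G ≃* G') {z : G} (D : Dat G z) : Dat G' (e z) where
  t v := e (D.t v)
  Θ := e.toMonoidHom.comp D.Θ
  t_add v w := by rw [D.t_add, map_mul]
  t_inj := e.injective.comp D.t_inj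
  t_z := by rw [D.t_z]
  Θ_inj := e.injective.comp D.Θ_inj
  conj α v := by
    change e (D.Θ α) * e (D.t v) * (e (D.Θ α))⁻¹ = e (D.t (α v))
    rw [← map_mul, ← map_inv, ← map_mul, D.conj]
  uniq v α h := D.uniq v α (e.injective h)
  cent g hg := by
    obtain ⟨g, rfl⟩ := e.surjective g
    have h1 : g * z = z * g := e.injective (by rw [map_mul, map_mul, hg])
    obtain ⟨v, α, rfl⟩ := D.cent g h1
    exact ⟨v, α, by rw [map_mul]; rfl⟩

/-- index set of the centralizer -/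
def S : Type := {p : V4 × (V4 ≃ₗ[ZMod 2] V4) // p.2 (1, 0) = (1, 0)}

theorem key {G : Type*} [Group G] {z : G} (D : Dat G z) : ∃ f : S → Subgroup.centralizer ({z} : Set G),
    Function.Bijective f ∧ ∀ p : S, (f p : G) = D.t p.1.1 * D.Θ p.1.2 := by
  have hmem : ∀ p : S, D.t p.1.1 * D.Θ p.1.2 ∈ Subgroup.centralizer ({z} : Set G) := by
    intro p
    rw [Subgroup.mem_centralizer_singleton_iff]
    rw [mul_assoc, D.Θ_z p.2, ← mul_assoc, ← D.z_t, mul_assoc]
  refine ⟨fun p => ⟨_, hmem p⟩, ⟨?_, ?_⟩, fun p => rfl⟩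
  · intro p q hpq
    have h1 : D.t p.1.1 * D.Θ p.1.2 = D.t q.1.1 * D.Θ q.1.2 := congrArg Subtype.val hpq
    have h2 : D.t (q.1.1 + p.1.1) = D.Θ (q.1.2 * p.1.2⁻¹) := by
      rw [D.t_add, map_mul, map_inv, eq_mul_inv_iff_mul_eq, mul_assoc, h1, ← mul_assoc, D.t_sq, one_mul]
    have h3 := D.uniq _ _ h2
    have h4 : q.1.1 = p.1.1 := by
      calc q.1.1 = q.1.1 + (p.1.1 + p.1.1) := by rw [Dat.v_add_self, add_zero]
        _ = (q.1.1 + p.1.1) + p.1.1 := by rw [add_assoc]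
        _ = p.1.1 := by rw [h3, zero_add]
    have h5 : D.Θ (q.1.2 * p.1.2⁻¹) = 1 := by rw [← h2, h3, D.t_zero]
    have h6 : q.1.2 * p.1.2⁻¹ = 1 := D.Θ_inj (by rw [h5, map_one])
    have h7 : q.1.2 = p.1.2 := mul_inv_eq_one.1 h6
    exact Subtype.ext (Prod.ext h4.symm h7.symm)
  · rintro ⟨g, hg⟩
    rw [Subgroup.mem_centralizer_singleton_iff] at hg
    obtain ⟨v, α, rfl⟩ := D.cent g hg
    have h1 : D.Θ α * z = z * D.Θ α := by
      have h2 : D.t v * (D.Θ α * z) = D.t v * (z * D.Θ α) := by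
        rw [← mul_assoc, hg, ← mul_assoc, D.z_t, mul_assoc]
      exact mul_left_cancel h2
    have h3 : D.t (α (1, 0)) = D.t (1, 0) := by
      rw [← D.conj, D.t_z, h1]; group
    exact ⟨⟨(v, α), D.t_inj h3⟩, rfl⟩

/-- multiplication -/
def mS (p q : S) : S := ⟨(p.1.1 + p.1.2 q.1.1, p.1.2 * q.1.2), by
    change p.1.2 (q.1.2 (1, 0)) = (1, 0)
    rw [q.2, p.2]⟩

theorem key_mul {G : Type*} [Group G] {z : G} (D : Dat G z) {f : S → Subgroup.centralizer ({z} : Set G)}
    (hf : ∀ p : S, (f p : G) = D.t p.1.1 * D.Θ p.1.2) (p q : S) : f (mS p q) = f p * f q := by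
  apply Subtype.ext
  rw [Subgroup.coe_mul, hf, hf, hf]
  change D.t (p.1.1 + p.1.2 q.1.1) * D.Θ (p.1.2 * q.1.2) = _
  rw [D.t_add, map_mul, ← D.conj]; group

/-- The coordinates determine the centralizer. -/
theorem cent_iso {G₁ G₂ : Type*} [Group G₁] [Group G₂] {z₁ : G₁} {z₂ : G₂} (D₁ : Dat G₁ z₁) (D₂ : Dat G₂ z₂) :
    Nonempty (Subgroup.centralizer ({z₁} : Set G₁) ≃* Subgroup.centralizer ({z₂} : Set G₂)) := by
  obtain ⟨f₁, hb₁, hf₁⟩ := key D₁
  obtain ⟨f₂, hb₂, hf₂⟩ := key D₂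
  let e₁ := Equiv.ofBijective f₁ hb₁
  let e₂ := Equiv.ofBijective f₂ hb₂
  refine ⟨{ e₁.symm.trans e₂ with map_mul' := ?_ }⟩
  intro x y
  obtain ⟨p, rfl⟩ := e₁.surjective x
  obtain ⟨q, rfl⟩ := e₁.surjective y
  have h1 : e₁ p * e₁ q = e₁ (mS p q) := (key_mul D₁ hf₁ p q).symm
  change e₂ (e₁.symm (e₁ p * e₁ q)) = e₂ (e₁.symm (e₁ p)) * e₂ (e₁.symm (e₁ q))
  rw [h1, e₁.symm_apply_apply, e₁.symm_apply_apply, e₁.symm_apply_apply]
  exact key_mul D₂ hf₂ p q

/-! ### The model -/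

abbrev W5 := V4 × ZMod 2

abbrev GW := W5 ≃ₗ[ZMod 2] W5

def tW (v : V4) : GW where
  toFun x := (x.1 + x.2 • v, x.2)
  invFun x := (x.1 + x.2 • v, x.2)
  map_add' x y := by
    apply Prod.ext
    · change x.1 + y.1 + (x.2 + y.2) • v = (x.1 + x.2 • v) + (y.1 + y.2 • v)
      module
    · rfl
  map_smul' c x := by
    apply Prod.ext
    · change c • x.1 + (c • x.2) • v = c • (x.1 + x.2 • v)
      rw [smul_add, smul_smul]; rfl
    · rfl
  left_inv x := by
    apply Prod.ext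
    · change x.1 + x.2 • v + x.2 • v = x.1
      rw [add_assoc, Dat.v_add_self, add_zero]
    · rfl
  right_inv x := by
    apply Prod.ext
    · change x.1 + x.2 • v + x.2 • v = x.1
      rw [add_assoc, Dat.v_add_self, add_zero]
    · rfl

theorem tW_apply (v : V4) (x : W5) : tW v x = (x.1 + x.2 • v, x.2) := rfl

def ΘW : (V4 ≃ₗ[ZMod 2] V4) →* GW where
  toFun α := LinearEquiv.prodCongr α (LinearEquiv.refl (ZMod 2) (ZMod 2))
  map_one' := by ext <;> rfl
  map_mul' α β := by ext <;> rfl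

theorem ΘW_apply (α : V4 ≃ₗ[ZMod 2] V4) (x : W5) : ΘW α x = (α x.1, x.2) := rfl

theorem zW_cent (g : GW) (hg : g * tW (1, 0) = tW (1, 0) * g) : ∃ v α, g = tW v * ΘW α := by
  have h1 : ∀ x : W5, g (x.1 + x.2 • (1, 0), x.2) = ((g x).1 + (g x).2 • (1, 0), (g x).2) := fun x =>
    congrArg (fun T : GW => T x) hg
  -- difference
  have h2 : ∀ x : W5, g (x.2 • (1, 0), 0) = ((g x).2 • (1, 0), 0) := by
    intro x
    have h3 := h1 x
    have h4 : ((x.1 + x.2 • (1, 0), x.2) : W5) = x + (x.2 • (1, 0), 0) := by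
      apply Prod.ext
      · rfl
      · exact (add_zero _).symm
    have h5 : (((g x).1 + (g x).2 • (1, 0), (g x).2) : W5) = g x + ((g x).2 • (1, 0), 0) := by
      apply Prod.ext
      · rfl
      · exact (add_zero _).symm
    rw [h4, h5, map_add] at h3
    exact add_left_cancel h3
  have h6 : ∀ h : V4, (g (h, 0)).2 = 0 := by
    intro h
    have h7 := h2 (h, 0)
    have h8 : (((h, 0) : W5).2 • ((1, 0) : V4), (0 : ZMod 2)) = (0 : W5) := by
      rw [show ((h, 0) : W5).2 = 0 from rfl, zero_smul]; rfl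
    rw [h8, map_zero] at h7
    have h9 : (g (h, 0)).2 • ((1, 0) : V4) = 0 := (congrArg Prod.fst h7).symm
    have h10 := congrArg Prod.fst h9
    change (g (h, 0)).2 * 1 = 0 at h10
    rwa [mul_one] at h10
  have h11 : (g (0, 1)).2 = 1 := by
    have h7 := h2 (0, 1)
    have h8 : (g (0, 1)).2 ≠ 0 := by
      intro h0
      rw [h0, zero_smul] at h7
      have h9 : (((0, 1) : W5).2 • ((1, 0) : V4), (0 : ZMod 2)) = (0 : W5) :=
        g.injective (by rw [h7, map_zero]; rfl)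
      have h10 := congrArg (fun x : W5 => x.1.1) h9
      revert h10; decide
    have : ∀ c : ZMod 2, c ≠ 0 → c = 1 := by decide
    exact this _ h8
  let A : V4 →ₗ[ZMod 2] V4 :=
    (LinearMap.fst (ZMod 2) V4 (ZMod 2)).comp (g.toLinearMap.comp (LinearMap.inl (ZMod 2) V4 (ZMod 2)))
  have hA : ∀ h, A h = (g (h, 0)).1 := fun _ => rfl
  have hAinj : Function.Injective A := by
    rw [← LinearMap.ker_eq_bot, LinearMap.ker_eq_bot']
    intro h hh
    have h12 : g (h, 0) = 0 := Prod.ext (by rw [← hA, hh]; rfl) (h6 h)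
    have h13 : ((h, 0) : W5) = 0 := g.injective (by rw [h12, map_zero])
    exact congrArg Prod.fst h13
  refine ⟨(g (0, 1)).1, LinearEquiv.ofInjectiveEndo A hAinj, ?_⟩
  apply LinearEquiv.ext
  intro x
  rw [LinearEquiv.mul_apply, ΘW_apply, tW_apply, LinearEquiv.coe_ofInjectiveEndo, hA]
  have h14 : x = (x.1, 0) + x.2 • ((0, 1) : W5) := by
    apply Prod.ext
    · change x.1 = x.1 + x.2 • 0
      rw [smul_zero, add_zero]
    · change x.2 = 0 + x.2 * 1
      rw [mul_one, zero_add]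
  conv_lhs => rw [h14]
  rw [map_add, map_smul]
  apply Prod.ext
  · rfl
  · change (g (x.1, 0)).2 + x.2 * (g (0, 1)).2 = x.2
    rw [h6, h11, mul_one, zero_add]

def datW : Dat GW (tW (1, 0)) where
  t := tW
  Θ := ΘW
  t_add v w := by
    apply LinearEquiv.ext
    intro x
    rw [LinearEquiv.mul_apply, tW_apply, tW_apply, tW_apply, smul_add]
    apply Prod.ext
    · change x.1 + (x.2 • v + x.2 • w) = x.1 + x.2 • w + x.2 • v
      rw [add_comm (x.2 • v), add_assoc]
    · rfl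
  t_inj v w h := by
    have h1 := congrArg (fun T : GW => T (0, 1)) h
    simp only [tW_apply] at h1
    have h2 := congrArg Prod.fst h1
    change (0 : V4) + (1 : ZMod 2) • v = 0 + (1 : ZMod 2) • w at h2
    rwa [zero_add, zero_add, one_smul, one_smul] at h2
  t_z := rfl
  Θ_inj α β h := by
    apply LinearEquiv.ext
    intro v
    exact congrArg (fun T : GW => (T (v, 0)).1) h
  conj α v := by
    rw [mul_inv_eq_iff_eq_mul]
    apply LinearEquiv.ext
    intro x
    rw [LinearEquiv.mul_apply, LinearEquiv.mul_apply, tW_apply, ΘW_apply, ΘW_apply, tW_apply, map_add, map_smul]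
  uniq v α h := by
    have h1 := congrArg (fun T : GW => T (0, 1)) h
    simp only [tW_apply, ΘW_apply] at h1
    have h2 := congrArg Prod.fst h1
    change (0 : V4) + (1 : ZMod 2) • v = α 0 at h2
    rwa [zero_add, one_smul, map_zero] at h2
  cent := zW_cent

/-! ### Transport to `SL(5,2)` -/

/-- coordinates: index 1 is the functional, index 0 the vector -/
def L5 : (Fin 5 → ZMod 2) ≃ₗ[ZMod 2] W5 where
  toFun x := ((x 0, ![x 2, x 3, x 4]), x 1)
  invFun y := ![y.1.1, y.2, y.1.2 0, y.1.2 1, y.1.2 2]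
  map_add' x y := by
    refine Prod.ext (Prod.ext rfl ?_) rfl
    funext i; fin_cases i <;> rfl
  map_smul' c x := by
    refine Prod.ext (Prod.ext rfl ?_) rfl
    funext i; fin_cases i <;> rfl
  left_inv x := by
    funext i; fin_cases i <;> rfl
  right_inv y := by
    refine Prod.ext (Prod.ext rfl ?_) rfl
    funext i; fin_cases i <;> rfl

theorem toLin_bij : Function.Bijective (SpecialLinearGroup.toLin' : SpecialLinearGroup (Fin 5) (ZMod 2) →*
    ((Fin 5 → ZMod 2) ≃ₗ[ZMod 2] (Fin 5 → ZMod 2))) := by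
  constructor
  · intro A B h
    apply Subtype.ext
    apply Matrix.toLin'.injective
    exact congrArg (fun T : (Fin 5 → ZMod 2) ≃ₗ[ZMod 2] (Fin 5 → ZMod 2) => (T : (Fin 5 → ZMod 2) →ₗ[ZMod 2] (Fin 5 → ZMod 2))) h
  · intro T
    have hdet : (LinearMap.toMatrix' (T : (Fin 5 → ZMod 2) →ₗ[ZMod 2] (Fin 5 → ZMod 2))).det = 1 := by
      have h1 : (LinearMap.toMatrix' (T : (Fin 5 → ZMod 2) →ₗ[ZMod 2] (Fin 5 → ZMod 2))).det ≠ 0 := by
        rw [LinearMap.det_toMatrix']
        exact (LinearEquiv.isUnit_det' T).ne_zero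
      have : ∀ c : ZMod 2, c ≠ 0 → c = 1 := by decide
      exact this _ h1
    refine ⟨⟨_, hdet⟩, ?_⟩
    apply LinearEquiv.ext
    intro x
    change (Matrix.toLin' (LinearMap.toMatrix' (T : (Fin 5 → ZMod 2) →ₗ[ZMod 2] (Fin 5 → ZMod 2)))) x = T x
    rw [Matrix.toLin'_toMatrix']; rfl

noncomputable def eSL : SpecialLinearGroup (Fin 5) (ZMod 2) ≃* ((Fin 5 → ZMod 2) ≃ₗ[ZMod 2] (Fin 5 → ZMod 2)) :=
  MulEquiv.ofBijective _ toLin_bij

def eL : GW ≃* ((Fin 5 → ZMod 2) ≃ₗ[ZMod 2] (Fin 5 → ZMod 2)) where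
  toFun T := (L5.trans T).trans L5.symm
  invFun T := (L5.symm.trans T).trans L5
  left_inv T := by apply LinearEquiv.ext; intro x; simp
  right_inv T := by apply LinearEquiv.ext; intro x; simp
  map_mul' T T' := by apply LinearEquiv.ext; intro x; simp

theorem dat_SL (s : SpecialLinearGroup (Fin 5) (ZMod 2))
    (hs : (s : Matrix (Fin 5) (Fin 5) (ZMod 2)) = Matrix.transvection 0 1 1) :
    Nonempty (Dat (SpecialLinearGroup (Fin 5) (ZMod 2)) s) := by
  have h1 : (eL.trans eSL.symm) (tW (1, 0)) = s := by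
    rw [MulEquiv.trans_apply, MulEquiv.symm_apply_eq]
    apply LinearEquiv.ext
    intro x
    change L5.symm (tW (1, 0) (L5 x)) = Matrix.toLin' (s : Matrix (Fin 5) (Fin 5) (ZMod 2)) x
    rw [hs]
    revert x
    decide +kernel
  exact h1 ▸ ⟨datMap (eL.trans eSL.symm) datW⟩

end Cfsg.Agent.H80.SL52
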