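import Cfsg.Agent.Char.ExtThm
import Cfsg.Agent.Char.ClassSum
import Cfsg.Agent.H75.CenterDeg

/-!
# Schur's lemma for tensor products (owner: helper80)
-/

set_option autoImplicit false

namespace Cfsg.Agent.H80

open scoped ComplexConjugate BigOperators TensorProduct
open Cfsg Cfsg.Agent.CharBase Cfsg.Agent.H75 Cfsg.Agent.Char

universe u v

variable {G : Type u} [Group G] [Finite G]

theorem tensor_schur {χ χ' : G → ℂ} (hχ : IsIrrCharacter G χ) (hχ' : IsIrrCharacter G χ')
    (hirr : IsIrrCharacter G (fun g => χ g * χ' g)) (E : Subgroup G) [E.Normal] [Fintype E] (m : ℕ) :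
    ∃ c : ℂ, ∀ a b : G, ∑ x : E, χ ((x : G) * a) * χ' ((x : G) ^ m * b) = c * (χ a * χ' b) := by
  classical
  obtain ⟨n, ρ, hρ, rfl⟩ := hχ
  obtain ⟨n', σ, hσ, rfl⟩ := hχ'
  let τ := ρ.tprod σ
  have hτc : τ.character = fun g => ρ.character g * σ.character g := Representation.char_tensor _ _
  have hτ : τ.IsIrreducible := isIrreducible_of_character _ (by rw [hτc]; exact hirr)
  let T : Module.End ℂ ((Fin n → ℂ) ⊗[ℂ] (Fin n' → ℂ)) :=
    ∑ x : E, TensorProduct.map (ρ (x : G)) (σ ((x : G) ^ m))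
  have hcomm : ∀ g : G, T * τ g = τ g * T := by
    intro g
    simp only [T, Finset.sum_mul, Finset.mul_sum]
    refine Fintype.sum_equiv (MulAut.conjNormal (H := E) g⁻¹).toEquiv _ _ (fun x => ?_)
    change TensorProduct.map (ρ (x : G)) (σ ((x : G) ^ m)) * TensorProduct.map (ρ g) (σ g) =
      TensorProduct.map (ρ g) (σ g) *
        TensorProduct.map (ρ ((MulAut.conjNormal (H := E) g⁻¹ x : E) : G))
          (σ (((MulAut.conjNormal (H := E) g⁻¹ x : E) : G) ^ m))
    rw [← TensorProduct.map_mul, ← TensorProduct.map_mul, ← map_mul, ← map_mul, ← map_mul,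
      ← map_mul]
    simp only [MulAut.conjNormal_apply, inv_inv]
    congr 2
    · group
    · rw [show g⁻¹ * (x : G) * g = g⁻¹ * (x : G) * (g⁻¹)⁻¹ by group, conj_pow]
      group
  have := hτ
  obtain ⟨c, hc⟩ := schur_scalar τ T (fun g v => LinearMap.congr_fun (hcomm g) v)
  refine ⟨c, fun a b => ?_⟩
  have h1 : LinearMap.trace ℂ _ (T * TensorProduct.map (ρ a) (σ b)) =
      ∑ x : E, ρ.character ((x : G) * a) * σ.character ((x : G) ^ m * b) := by
    simp only [T, Finset.sum_mul, map_sum]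
    refine Finset.sum_congr rfl (fun x _ => ?_)
    rw [← TensorProduct.map_mul, ← map_mul, ← map_mul, LinearMap.trace_tensorProduct']
    rfl
  rw [← h1, hc]
  have h2 : (c • LinearMap.id : Module.End ℂ ((Fin n → ℂ) ⊗[ℂ] (Fin n' → ℂ))) *
      TensorProduct.map (ρ a) (σ b) = c • TensorProduct.map (ρ a) (σ b) := by
    ext; rfl
  rw [h2, map_smul, LinearMap.trace_tensorProduct', smul_eq_mul]
  rfl

/-- If `|χ(x)| = χ(1)` then all commutators with `x` are in the kernel. -/
theorem comm_mem_ker_of_normSq {χ : G → ℂ} (hχ : IsIrrCharacter G χ)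
    {x : G} (hx : χ x * conj (χ x) = χ 1 * χ 1) (g : G) : χ (x⁻¹ * (g * x * g⁻¹)) = χ 1 := by
  classical
  have := Fintype.ofFinite G
  have h1 := sum_conj_mul hχ x⁻¹ x
  have hc := isCharacter_of_isIrr hχ
  obtain ⟨n, hn⟩ := exists_nat_degree hc
  have h0 := irr_one_ne_zero hχ
  rw [isCharacter_inv hc] at h1
  have h1' : ∑ g : G, χ (x⁻¹ * (g * x * g⁻¹)) = (Nat.card G : ℂ) * χ 1 := by
    rw [h1]
    field_simp
    linear_combination hx
  have h2 : ∑ g : G, (χ (x⁻¹ * (g * x * g⁻¹)) - χ 1) = 0 := by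
    rw [Finset.sum_sub_distrib, h1']
    simp only [Finset.sum_const, Finset.card_univ, nsmul_eq_mul]
    rw [← Nat.card_eq_fintype_card]
    ring
  have hre : ∀ y : G, (χ y).re ≤ n := by
    intro y
    obtain ⟨m, hm, hle⟩ := norm_le_of_isCharacter hc y
    have : m = n := by
      rw [hn] at hm
      exact_mod_cast hm.symm
    rw [← this]
    exact (Complex.re_le_norm _).trans hle
  have h3 : ∑ g : G, ((n : ℝ) - (χ (x⁻¹ * (g * x * g⁻¹))).re) = 0 := by
    have := congrArg Complex.re h2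
    rw [Complex.re_sum] at this
    simp only [Complex.sub_re, hn, Complex.natCast_re, Complex.zero_re] at this
    rw [← neg_eq_zero, ← Finset.sum_neg_distrib, ← this]
    refine Finset.sum_congr rfl (fun g _ => by ring)
  have h4 := (Finset.sum_eq_zero_iff_of_nonneg (fun g _ => sub_nonneg.mpr (hre _))).mp h3 g
    (Finset.mem_univ g)
  have h5 : (χ (x⁻¹ * (g * x * g⁻¹))).re = n := by linarith
  obtain ⟨m, hm, hle⟩ := norm_le_of_isCharacter hc (x⁻¹ * (g * x * g⁻¹))
  have hmn : m = n := by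
    rw [hn] at hm
    exact_mod_cast hm.symm
  rw [hmn] at hle
  rw [hn]
  apply Complex.ext
  · rw [h5]; simp
  · have h6 : (χ (x⁻¹ * (g * x * g⁻¹))).re ^ 2 + (χ (x⁻¹ * (g * x * g⁻¹))).im ^ 2 ≤ (n : ℝ) ^ 2 := by
      have h7 := Complex.sq_norm (χ (x⁻¹ * (g * x * g⁻¹)))
      rw [Complex.normSq_apply] at h7
      nlinarith [norm_nonneg (χ (x⁻¹ * (g * x * g⁻¹)))]
    rw [h5] at h6
    have h8 : (χ (x⁻¹ * (g * x * g⁻¹))).im ^ 2 = 0 := le_antisymm (by linarith) (sq_nonneg _)
    simpa using h8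

/-- characters of modulus `χ(1)` at `x` and faithful: `x` is central. -/
theorem mem_center_of_normSq {χ : G → ℂ} (hχ : IsIrrCharacter G χ)
    (hfaith : ∀ g : G, χ g = χ 1 → g = 1) {x : G} (hx : χ x * conj (χ x) = χ 1 * χ 1) :
    x ∈ Subgroup.center G := by
  rw [Subgroup.mem_center_iff]
  intro g
  have h1 := hfaith _ (comm_mem_ker_of_normSq hχ hx g)
  have h2 : x = g * x * g⁻¹ := by
    have := mul_eq_one_iff_inv_eq.mp h1
    rw [inv_inv] at this
    exact this
  conv_rhs => rw [h2]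
  group

end Cfsg.Agent.H80
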