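import Cfsg.Agent.Uni36.TitsG

set_option autoImplicit false
set_option maxRecDepth 100000

/-!
The Tits group: every nontrivial element is a product of two elements of order five. Definitions.
-/

namespace Cfsg.Agent.H80.Tits

open Cfsg.Lie Cfsg.Agent.Chev Cfsg.Agent.ChevGrp Cfsg.Agent.ChevGrp.DData Cfsg.Agent.ChevWeyl Cfsg.Agent.ChevTw
  Cfsg.Agent.Tw3 Cfsg.Agent.ChevGrp.RGrp Cfsg.Agent.Tw4 Cfsg.Agent.Uni36

/-- the words of the representatives of the simple reflections -/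
def nnW (j : ℕ) : List ℕ := match j with
  | 0 => [33, 14, 33, 24, 23, 24]
  | _ => [27, 20, 27, 25, 22, 25, 27, 20, 27, 25, 22, 25]

/-- the ambient group -/
abbrev GF : Type := ↥(chevF4.group (ZMod 2))

/-- the representatives of the simple reflections -/
def nn8 (j : ℕ) : GF := wF (nnW j)

/-- representatives of the elements of the Weyl group -/
def nWd (w : List ℕ) : GF := (w.map nn8).prod

/-- the element of `U` with exponents `a`, times a representative -/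
def uw (a : ℕ → ℕ) (w : List ℕ) : GF := ev g8 (nfL a) * nWd w

/-- the sum of the exponents with odd index is even -/
def Ev8 (a : ℕ → ℕ) : Prop := (a 1 + a 3 + a 5 + a 7) % 2 = 0

/-- the element of order five -/
def x5 : GF := g8 7 * g8 7 * nn8 1

/-- the conclusion for one element -/
def Good5 (Z : Sg (ZMod 2)) (e : GF) : Prop :=
  ∃ y : GF, y ∈ (twF Z).G1 ∧ y ^ 5 = 1 ∧ y ≠ 1 ∧ (y * e) ^ 5 = 1 ∧ y * e ≠ 1

/-- the numerical facts checked by the kernel -/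
structure Facts (Z : Sg (ZMod 2)) : Prop where
  hx5 : x5 ^ 5 = 1
  hx5_ne : x5 ≠ 1
  /-- a group of order 25, all nontrivial elements conjugate to `x5` -/
  y5 : ∃ y : GF, y ∈ (twF Z).G1 ∧ y ^ 5 = 1 ∧ x5 * y = y * x5 ∧ (∀ i < 5, y ≠ x5 ^ i) ∧
    ∀ i < 5, ∀ k < 5, (i ≠ 0 ∨ k ≠ 0) → ∃ c ∈ (twF Z).G1, c * x5 = x5 ^ i * y ^ k * c
  /-- an element outside the derived subgroup centralizing `x5` -/
  cen : ∃ (a b : ℕ → ℕ) (w : List ℕ), (∀ i < 8, a i < mO i) ∧ (∀ i < 8, b i < mO i) ∧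
    (a 1 + a 3 + a 5 + a 7 + (b 1 + b 3 + b 5 + b 7)) % 2 = 1 ∧
    uw a w * ev g8 (nfL b) * x5 = x5 * (uw a w * ev g8 (nfL b))
  /-- the representatives are conjugate to squares, so that they lie in the derived subgroup -/
  nsq0 : ∃ c ∈ (twF Z).G1, nn8 0 * c = c * g8 0
  nsq1 : ∃ c ∈ (twF Z).G1, nn8 1 * c = c * (g8 7 * g8 7)
  /-- the main facts -/
  main15 : ∀ a : ℕ → ℕ, (∀ i < 8, a i < mO i) → Ev8 a → Good5 Z (uw a [0, 1, 0, 1, 0, 1, 0, 1])
  main13 : ∀ a : ℕ → ℕ, (∀ i < 8, a i < mO i) → Ev8 a → a 7 = 0 → Good5 Z (uw a [0, 1, 0, 1, 0, 1, 0])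
  main14 : ∀ a : ℕ → ℕ, (∀ i < 8, a i < mO i) → Ev8 a → a 0 = 0 → Good5 Z (uw a [1, 0, 1, 0, 1, 0, 1])

end Cfsg.Agent.H80.Tits
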