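import Cfsg.Agent.H80.TitsN

set_option autoImplicit false
set_option maxRecDepth 100000

/-!
The small facts.
-/

namespace Cfsg.Agent.H80.Tits

open Cfsg.Lie Cfsg.Agent.Chev Cfsg.Agent.ChevGrp Cfsg.Agent.ChevGrp.DData Cfsg.Agent.ChevWeyl Cfsg.Agent.ChevTw
  Cfsg.Agent.Tw3 Cfsg.Agent.ChevGrp.RGrp Cfsg.Agent.Tw4 Cfsg.Agent.Uni36

variable (Z : Sg (ZMod 2))

theorem hK2 : ∀ t : ZMod 2, t = 0 ∨ t = 1 := by decide

theorem nn8_0 : nn8 0 = (twF Z).nj 0 := by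
  obtain ⟨p1, -, -, p2, n1, -, -, n2, -⟩ := simple_F4
  have h0 : (twF Z).nj 0 = (RF (ZMod 2)).nd (LF 0) := rfl
  have h1 : (RF (ZMod 2)).nd (LF 0) = (RF (ZMod 2)).nn i0 * ((RF (ZMod 2)).nn i3 * 1) := rfl
  have h2 : (RF (ZMod 2)).nn i0 = nF 33 := by rw [nn_eq_nF]; exact congrArg nF p1
  have h3 : (RF (ZMod 2)).nn i3 = nF 24 := by rw [nn_eq_nF]; exact congrArg nF p2
  rw [h0, h1, mul_one, h2, h3, nF_eq Z.two 33 14 n1, nF_eq Z.two 24 23 n2]
  unfold nn8 nnW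
  simp only [wF_cons, wF_nil, mul_one, mul_assoc]

theorem nn8_1 : nn8 1 = (twF Z).nj 1 := by
  obtain ⟨-, p1, p2, -, -, n1, n2, -⟩ := simple_F4
  have h0 : (twF Z).nj 1 = (RF (ZMod 2)).nd (LF 1) := rfl
  have h1 : (RF (ZMod 2)).nd (LF 1) = (RF (ZMod 2)).nn i1 * ((RF (ZMod 2)).nn i2 * ((RF (ZMod 2)).nn i1 *
    ((RF (ZMod 2)).nn i2 * 1))) := rfl
  have h2 : (RF (ZMod 2)).nn i1 = nF 27 := by rw [nn_eq_nF]; exact congrArg nF p1
  have h3 : (RF (ZMod 2)).nn i2 = nF 25 := by rw [nn_eq_nF]; exact congrArg nF p2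
  rw [h0, h1, mul_one, h2, h3, nF_eq Z.two 27 20 n1, nF_eq Z.two 25 22 n2]
  unfold nn8 nnW
  simp only [wF_cons, wF_nil, mul_one, mul_assoc]

theorem gen10_lt {k : ℕ} (hk : k < 8) : gen10 k = g8 k := by unfold gen10; rw [if_pos hk]
theorem gen10_8 : gen10 8 = nn8 0 := rfl
theorem gen10_9 : gen10 9 = nn8 1 := rfl

theorem gen10_mem {k : ℕ} (hk : k < 10) : gen10 k ∈ (twF Z).G1 := by
  by_cases h : k < 8
  · rw [gen10_lt h]; exact g8_mem_G1 Z hK2 h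
  · have h2 : k = 8 ∨ k = 9 := by omega
    rcases h2 with rfl | rfl
    · rw [gen10_8, nn8_0 Z]; exact (twF Z).nj_G1 0
    · rw [gen10_9, nn8_1 Z]; exact (twF Z).nj_G1 1

theorem evG_mem {l : List ℕ} (h : ∀ k ∈ l, k < 10) : evG l ∈ (twF Z).G1 := by
  induction l with
  | nil => exact one_mem _
  | cons k l ih =>
    rw [evG_cons]
    exact mul_mem (gen10_mem Z (h k (by simp))) (ih fun s hs => h s (by simp [hs]))

theorem x5_eq : x5 = evG [7, 7, 9] := by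
  rw [evG_cons, evG_cons, evG_cons, evG_nil, gen10_9, gen10_lt (by norm_num : 7 < 8), mul_one, ← mul_assoc]
  rfl

theorem rep_x5 : Rep (YL.getD 0 0) x5 := by
  rw [x5_eq, ← YL_zero]
  exact rep_ev _ (by decide)

theorem x5_mem : x5 ∈ (twF Z).G1 := by
  rw [x5_eq]; exact evG_mem Z (by decide)

theorem pow5_of {n : ℕ} {g : GF} (h : Rep n g) (hc : chk5 n = true) : g ^ 5 = 1 := by
  have h1 : Rep (mulN (mulN (mulN n n) (mulN n n)) n) (g * g * (g * g) * g) :=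
    ((h.mul h).mul (h.mul h)).mul h
  have h2 : mulN (mulN (mulN n n) (mulN n n)) n = IDN := Nat.eq_of_beq_eq_true hc
  have h3 := h1.eq' rep_one h2
  rw [← h3]
  simp only [pow_succ, pow_zero, one_mul, mul_assoc]

theorem ix_surj (k : ℕ) (hk : k < 52) : ∃ u, ix u = k := by
  by_cases h : k < 4
  · exact ⟨Sum.inl ⟨k, h⟩, rfl⟩
  · refine ⟨Sum.inr ⟨k - 4, ?_⟩, ?_⟩
    · have h2 : chevF4.nroots = 48 := rfl
      omega
    · show 4 + (k - 4) = k
      omega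

theorem bt_inj {a b : Bool} (h : bt a = bt b) : a = b := by
  revert h
  cases a <;> cases b <;> decide

theorem ne_of_nq {a b : ℕ} {g h : GF} (h1 : Rep a g) (h2 : Rep b h) (hn : nq a b = true) : g ≠ h := by
  intro e
  have h3 : dec a = dec b := by rw [← h1, ← h2, e]
  have h4 : a % 2 ^ 2704 = b % 2 ^ 2704 := by
    apply Nat.eq_of_testBit_eq
    intro p
    rw [Nat.testBit_mod_two_pow, Nat.testBit_mod_two_pow]
    by_cases hp : p < 2704
    · obtain ⟨u, hu⟩ := ix_surj (p / 52) (by omega)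
      obtain ⟨s, hs⟩ := ix_surj (p % 52) (by omega)
      have h5 : dec a u s = dec b u s := by rw [h3]
      have h6 : bt (a.testBit (52 * ix u + ix s)) = bt (b.testBit (52 * ix u + ix s)) := h5
      have h7 := bt_inj h6
      rw [hu, hs, Nat.div_add_mod] at h7
      rw [h7]
    · simp [hp]
  unfold nq at hn
  rw [h4, Nat.beq_refl] at hn
  exact absurd hn (by decide)

theorem rep_Y (i : ℕ) : i ≤ 424 → ∃ y : GF, y ∈ (twF Z).G1 ∧ y ^ 5 = 1 ∧ y ≠ 1 ∧ Rep (YL.getD i 0) y := by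
  induction i with
  | zero => exact fun _ => ⟨x5, x5_mem Z, pow5_of rep_x5 c_x5.1, ne_of_nq rep_x5 rep_one c_x5.2, rep_x5⟩
  | succ i ih =>
    intro hi
    obtain ⟨y, h1, h2, h3, h4⟩ := ih (by omega)
    have hs := SL_lt i (by omega)
    have hg := rep_gen hs
    refine ⟨gen10 (SL.getD i 0) * y * (gen10 (SL.getD i 0))⁻¹, mul_mem (mul_mem (gen10_mem Z hs) h1) (inv_mem (gen10_mem Z hs)),
      ?_, ?_, hg.conj h4 (walk i (by omega))⟩
    · rw [conj_pow, h2]; group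
    · intro h; exact h3 (conj_eq_one_iff.1 h)

theorem good_of_chk {e : GF} {n i : ℕ} (he : Rep n e) (h : chk1 n i = true) : Good5 Z e := by
  unfold chk1 at h
  rw [Bool.and_eq_true] at h
  obtain ⟨y, h1, h2, h3, h4⟩ := rep_Y Z i (Nat.le_of_ble_eq_true h.1)
  have h5 := pow5_of (h4.mul he) h.2
  by_cases h6 : y * e = 1
  · have hy2 : y * y ≠ 1 := by
      intro h7
      apply h3
      have h8 : y ^ 5 = y * y * (y * y) * y := by simp only [pow_succ, pow_zero, one_mul, mul_assoc]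
      rw [h7, one_mul, one_mul, h2] at h8
      exact h8.symm
    have h9 : y * y * e = y := by rw [mul_assoc, h6, mul_one]
    refine ⟨y * y, mul_mem h1 h1, ?_, hy2, by rw [h9, h2], by rw [h9]; exact h3⟩
    rw [← sq, ← pow_mul, mul_comm 2 5, pow_mul, h2, one_pow]
  · exact ⟨y, h1, h2, h3, h5, h6⟩

theorem rep_pw {n : ℕ} {g : GF} (h : Rep n g) (k : ℕ) : Rep (pwN n k) (g ^ k) := by
  induction k with
  | zero => rw [pow_zero]; exact rep_one
  | succ k ih => rw [pow_succ]; exact ih.mul h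

theorem ev_eq {l : List ℕ} (h : ∀ k ∈ l, k < 8) : ev g8 l = evG l := by
  induction l with
  | nil => rfl
  | cons k l ih =>
    rw [ev_cons, evG_cons, gen10_lt (h k (by simp)), ih fun s hs => h s (by simp [hs])]

theorem nWd_eq (w : List ℕ) : nWd w = evG (w.map (8 + ·)) := by
  induction w with
  | nil => rfl
  | cons k l ih =>
    rw [List.map_cons, evG_cons, ← ih]
    have h1 : gen10 (8 + k) = nn8 k := by
      unfold gen10
      rw [if_neg (by omega), show 8 + k - 8 = k by omega]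
    rw [h1]
    simp [nWd]

/-- the code of the first half -/
def ca (a : ℕ → ℕ) : ℕ := a 0 + 2 * a 1 + 8 * a 2 + 16 * a 3
/-- the code of the second half -/
def cb (a : ℕ → ℕ) : ℕ := a 4 + 2 * a 5 + 8 * a 6 + 16 * a 7

theorem bnd {a : ℕ → ℕ} (ha : ∀ i < 8, a i < mO i) : a 0 < 2 ∧ a 1 < 4 ∧ a 2 < 2 ∧ a 3 < 4 ∧ a 4 < 2 ∧ a 5 < 4 ∧ a 6 < 2 ∧ a 7 < 4 :=
  ⟨ha 0 (by norm_num), ha 1 (by norm_num), ha 2 (by norm_num), ha 3 (by norm_num), ha 4 (by norm_num), ha 5 (by norm_num),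
    ha 6 (by norm_num), ha 7 (by norm_num)⟩

theorem uw_eq {a : ℕ → ℕ} (ha : ∀ i < 8, a i < mO i) (w : List ℕ) :
    uw a w = evG (wA (ca a)) * evG (wB (cb a) ++ w.map (8 + ·)) := by
  obtain ⟨h0, h1, h2, h3, h4, h5, h6, h7⟩ := bnd ha
  have e0 : ca a % 2 = a 0 := by unfold ca; omega
  have e1 : ca a / 2 % 4 = a 1 := by unfold ca; omega
  have e2 : ca a / 8 % 2 = a 2 := by unfold ca; omega
  have e3 : ca a / 16 % 4 = a 3 := by unfold ca; omega
  have e4 : cb a % 2 = a 4 := by unfold cb; omega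
  have e5 : cb a / 2 % 4 = a 5 := by unfold cb; omega
  have e6 : cb a / 8 % 2 = a 6 := by unfold cb; omega
  have e7 : cb a / 16 % 4 = a 7 := by unfold cb; omega
  have h : nfL a = wA (ca a) ++ wB (cb a) := by
    unfold wA wB
    rw [e0, e1, e2, e3, e4, e5, e6, e7]
    simp [nfL, List.range_succ]
  unfold uw
  rw [nWd_eq, evG_append, ← mul_assoc, ← evG_append, ← h, ev_eq]
  intro k hk
  unfold nfL at hk
  simp only [List.mem_flatMap, List.mem_range, List.mem_replicate] at hk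
  obtain ⟨j, hj, h8⟩ := hk
  omega

theorem ca_lt {a : ℕ → ℕ} (ha : ∀ i < 8, a i < mO i) : ca a < 64 ∧ cb a < 64 := by
  obtain ⟨h0, h1, h2, h3, h4, h5, h6, h7⟩ := bnd ha
  unfold ca cb
  omega

theorem par_eq {a : ℕ → ℕ} (ha : ∀ i < 8, a i < mO i) : par (ca a) = (a 1 + a 3) % 2 ∧ par (cb a) = (a 5 + a 7) % 2 := by
  obtain ⟨h0, h1, h2, h3, h4, h5, h6, h7⟩ := bnd ha
  have e1 : ca a / 2 = a 1 + 4 * a 2 + 8 * a 3 := by unfold ca; omega
  have e2 : ca a / 16 = a 3 := by unfold ca; omega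
  have e3 : cb a / 2 = a 5 + 4 * a 6 + 8 * a 7 := by unfold cb; omega
  have e4 : cb a / 16 = a 7 := by unfold cb; omega
  unfold par
  rw [e1, e2, e3, e4]
  omega

theorem f_y5 : ∃ y : GF, y ∈ (twF Z).G1 ∧ y ^ 5 = 1 ∧ x5 * y = y * x5 ∧ (∀ i < 5, y ≠ x5 ^ i) ∧
    ∀ i < 5, ∀ k < 5, (i ≠ 0 ∨ k ≠ 0) → ∃ c ∈ (twF Z).G1, c * x5 = x5 ^ i * y ^ k * c := by
  have hw := c_lt.1
  obtain ⟨h1, h2, h3⟩ := c_y5
  have hr : Rep YN5 (evG wy * x5 * (evG wy)⁻¹) := (rep_ev _ hw).conj rep_x5 h2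
  refine ⟨_, mul_mem (mul_mem (evG_mem Z hw) (x5_mem Z)) (inv_mem (evG_mem Z hw)), pow5_of hr h1,
    (rep_x5.mul hr).eq' (hr.mul rep_x5) h3, fun i hi => ne_of_nq hr (rep_pw rep_x5 i) (c_ne i hi), ?_⟩
  intro i hi k hk hik
  have hc := c_lt.2 i hi k hk
  exact ⟨evG (cw i k), evG_mem Z hc, ((rep_ev _ hc).mul rep_x5).eq' (((rep_pw rep_x5 i).mul (rep_pw hr k)).mul (rep_ev _ hc))
    (c_cj i hi k hk hik)⟩

theorem f_cen : ∃ (a b : ℕ → ℕ) (w : List ℕ), (∀ i < 8, a i < mO i) ∧ (∀ i < 8, b i < mO i) ∧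
    (a 1 + a 3 + a 5 + a 7 + (b 1 + b 3 + b 5 + b 7)) % 2 = 1 ∧
    uw a w * ev g8 (nfL b) * x5 = x5 * (uw a w * ev g8 (nfL b)) := by
  refine ⟨fun i => if i = 3 then 1 else 0, fun _ => 0, [], by decide, by decide, by decide, ?_⟩
  have e1 : nfL (fun i => if i = 3 then 1 else 0) = [3] := by decide
  have e2 : nfL (fun _ => 0) = [] := by decide
  have e3 : uw (fun i => if i = 3 then 1 else 0) [] = g8 3 := by
    unfold uw
    rw [e1]
    simp [nWd]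
  rw [e3, e2, ev_nil, mul_one]
  have h1 := rep_gen (k := 3) (by norm_num)
  rw [gen10_lt (by norm_num)] at h1
  exact (h1.mul rep_x5).eq' (rep_x5.mul h1) c_cen

theorem f_nsq0 : ∃ c ∈ (twF Z).G1, nn8 0 * c = c * g8 0 := by
  have hc : ∀ k ∈ [0, 8], k < 10 := by decide
  have h0 := rep_gen (k := 0) (by norm_num)
  rw [gen10_lt (by norm_num)] at h0
  have h8 := rep_gen (k := 8) (by norm_num)
  rw [gen10_8] at h8
  exact ⟨evG [0, 8], evG_mem Z hc, (h8.mul (rep_ev _ hc)).eq' ((rep_ev _ hc).mul h0) c_nsq0⟩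

theorem f_nsq1 : ∃ c ∈ (twF Z).G1, nn8 1 * c = c * (g8 7 * g8 7) := by
  have hc : ∀ k ∈ [7, 9], k < 10 := by decide
  have h0 := rep_gen (k := 7) (by norm_num)
  rw [gen10_lt (by norm_num)] at h0
  have h8 := rep_gen (k := 9) (by norm_num)
  rw [gen10_9] at h8
  exact ⟨evG [7, 9], evG_mem Z hc, (h8.mul (rep_ev _ hc)).eq' ((rep_ev _ hc).mul (h0.mul h0)) c_nsq1⟩

end Cfsg.Agent.H80.Tits
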