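import Cfsg.Agent.H80.TitsF1
import Cfsg.Agent.H80.TitsM15_0
import Cfsg.Agent.H80.TitsM15_8
import Cfsg.Agent.H80.TitsM15_16
import Cfsg.Agent.H80.TitsM15_24
import Cfsg.Agent.H80.TitsM15_32
import Cfsg.Agent.H80.TitsM15_40
import Cfsg.Agent.H80.TitsM15_48
import Cfsg.Agent.H80.TitsM15_56
import Cfsg.Agent.H80.TitsM13_0
import Cfsg.Agent.H80.TitsM13_16
import Cfsg.Agent.H80.TitsM13_32
import Cfsg.Agent.H80.TitsM13_48
import Cfsg.Agent.H80.TitsM14_0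
import Cfsg.Agent.H80.TitsM14_16
import Cfsg.Agent.H80.TitsM14_32
import Cfsg.Agent.H80.TitsM14_48

set_option autoImplicit false
set_option maxRecDepth 100000

/-!
All the facts.
-/

namespace Cfsg.Agent.H80.Tits

open Cfsg.Lie Cfsg.Agent.Chev Cfsg.Agent.ChevGrp Cfsg.Agent.ChevGrp.DData Cfsg.Agent.ChevWeyl Cfsg.Agent.ChevTw
  Cfsg.Agent.Tw3 Cfsg.Agent.ChevGrp.RGrp Cfsg.Agent.Tw4 Cfsg.Agent.Uni36

theorem split8 {P : ℕ → Prop} (h0 : ∀ i < 8, P (0 + i)) (h1 : ∀ i < 8, P (8 + i)) (h2 : ∀ i < 8, P (16 + i))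
    (h3 : ∀ i < 8, P (24 + i)) (h4 : ∀ i < 8, P (32 + i)) (h5 : ∀ i < 8, P (40 + i)) (h6 : ∀ i < 8, P (48 + i))
    (h7 : ∀ i < 8, P (56 + i)) : ∀ c < 64, P c := by
  intro c hc
  obtain ⟨r, hr, h⟩ : ∃ r < 8, c = 0 + r ∨ c = 8 + r ∨ c = 16 + r ∨ c = 24 + r ∨ c = 32 + r ∨ c = 40 + r ∨ c = 48 + r ∨
      c = 56 + r := ⟨c % 8, by omega, by omega⟩
  rcases h with h | h | h | h | h | h | h | h
  · rw [h]; exact h0 r hr
  · rw [h]; exact h1 r hr
  · rw [h]; exact h2 r hr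
  · rw [h]; exact h3 r hr
  · rw [h]; exact h4 r hr
  · rw [h]; exact h5 r hr
  · rw [h]; exact h6 r hr
  · rw [h]; exact h7 r hr

theorem M15 : ∀ c < 64, chkR (p15 c) (AL.getD c 0) B15 (C15.getD c []) 64 = true :=
  split8 (P := fun c => chkR (p15 c) (AL.getD c 0) B15 (C15.getD c []) 64 = true)
    m15_0 m15_8 m15_16 m15_24 m15_32 m15_40 m15_48 m15_56

theorem M13 : ∀ c < 64, chkR (p13 c) (AL.getD c 0) B13 (C13.getD c []) 64 = true :=
  split8 (P := fun c => chkR (p13 c) (AL.getD c 0) B13 (C13.getD c []) 64 = true)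
    m13_0 m13_8 m13_16 m13_24 m13_32 m13_40 m13_48 m13_56

theorem M14 : ∀ c < 64, chkR (p14 c) (AL.getD c 0) B14 (C14.getD c []) 64 = true :=
  split8 (P := fun c => chkR (p14 c) (AL.getD c 0) B14 (C14.getD c []) 64 = true)
    m14_0 m14_8 m14_16 m14_24 m14_32 m14_40 m14_48 m14_56

theorem good_main (Z : Sg (ZMod 2)) {p : ℕ → ℕ → Bool} {B : List ℕ} {C : List (List ℕ)} {w : List ℕ}
    (hw : ∀ k ∈ w.map (8 + ·), k < 10)
    (hB : ∀ c < 64, evN (wB c ++ w.map (8 + ·)) = B.getD c 0)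
    (hM : ∀ c < 64, chkR (p c) (AL.getD c 0) B (C.getD c []) 64 = true)
    {a : ℕ → ℕ} (ha : ∀ i < 8, a i < mO i) (hp : p (ca a) (cb a) = true) : Good5 Z (uw a w) := by
  obtain ⟨h1, h2⟩ := ca_lt ha
  have h3 := chkR_spec (hM _ h1) _ h2 hp
  have h4 : Rep (mulN (AL.getD (ca a) 0) (B.getD (cb a) 0)) (uw a w) := by
    rw [uw_eq ha, ← AL_eq _ h1, ← hB _ h2]
    refine (rep_ev _ (wA_lt _)).mul (rep_ev _ ?_)
    intro k hk
    rcases List.mem_append.1 hk with hk | hk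
    · exact wB_lt _ k hk
    · exact hw k hk
  exact good_of_chk Z h4 h3

theorem beq_of {m n : ℕ} (h : m = n) : Nat.beq m n = true := by subst h; exact Nat.beq_refl m

theorem facts (Z : Sg (ZMod 2)) : Facts Z where
  hx5 := pow5_of rep_x5 c_x5.1
  hx5_ne := ne_of_nq rep_x5 rep_one c_x5.2
  y5 := f_y5 Z
  cen := f_cen
  nsq0 := f_nsq0 Z
  nsq1 := f_nsq1 Z
  main15 := by
    intro a ha hE
    refine good_main Z (p := p15) (B := B15) (C := C15) (w := [0, 1, 0, 1, 0, 1, 0, 1]) (by decide) B15_eq M15 ha ?_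
    obtain ⟨h1, h2⟩ := par_eq ha
    unfold Ev8 at hE
    unfold p15
    rw [h1, h2]
    exact beq_of (by omega)
  main13 := by
    intro a ha hE h7
    refine good_main Z (p := p13) (B := B13) (C := C13) (w := [0, 1, 0, 1, 0, 1, 0]) (by decide) B13_eq M13 ha ?_
    obtain ⟨h1, h2⟩ := par_eq ha
    unfold Ev8 at hE
    unfold p13
    rw [Bool.and_eq_true, h1, h2]
    refine ⟨beq_of (by omega), ?_⟩
    have h3 : cb a < 16 := by
      obtain ⟨b0, b1, b2, b3, b4, b5, b6, b7⟩ := bnd ha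
      unfold cb
      omega
    exact Nat.ble_eq_true_of_le h3
  main14 := by
    intro a ha hE h0
    refine good_main Z (p := p14) (B := B14) (C := C14) (w := [1, 0, 1, 0, 1, 0, 1]) (by decide) B14_eq M14 ha ?_
    obtain ⟨h1, h2⟩ := par_eq ha
    unfold Ev8 at hE
    unfold p14
    rw [Bool.and_eq_true, h1, h2]
    refine ⟨beq_of (by omega), beq_of ?_⟩
    unfold ca
    omega

end Cfsg.Agent.H80.Tits
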