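import Cfsg.Agent.H80.TitsC

set_option autoImplicit false
set_option maxRecDepth 100000

/-!
Kernel check.
-/

namespace Cfsg.Agent.H80.Tits

open Cfsg.Lie Cfsg.Agent.Chev Cfsg.Agent.ChevGrp Cfsg.Agent.ChevGrp.DData Cfsg.Agent.ChevWeyl Cfsg.Agent.ChevTw
  Cfsg.Agent.Tw3 Cfsg.Agent.ChevGrp.RGrp Cfsg.Agent.Tw4 Cfsg.Agent.Uni36

theorem m14_0 : ∀ i < 8, chkR (p14 (0 + i)) (AL.getD (0 + i) 0) B14 (C14.getD (0 + i) []) 64 = true := by decide +kernel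

theorem m14_8 : ∀ i < 8, chkR (p14 (8 + i)) (AL.getD (8 + i) 0) B14 (C14.getD (8 + i) []) 64 = true := by decide +kernel

end Cfsg.Agent.H80.Tits
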