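import Cfsg.Agent.H80.CharUtil
import Cfsg.Prelude.Def_Transfer
import Mathlib

/-!
# Characters nonzero on exactly two classes (owner: helper80)
-/

set_option autoImplicit false

namespace Cfsg.Agent.H80

open scoped ComplexConjugate BigOperators
open Cfsg Cfsg.Agent.CharBase Cfsg.Agent.H75

universe u v

variable {G : Type u} [Group G]

/-- `χ` is nonzero exactly on `1` and on the class of `c ≠ 1`. -/
def TwoCl (χ : IrrCharacter G) (c : G) : Prop :=
  c ≠ 1 ∧ ∀ g : G, (χ : G → ℂ) g ≠ 0 ↔ g = 1 ∨ IsConj c g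

theorem exists_twoCl (χ : IrrCharacter G)
    (hχ : Nat.card {C : ConjClasses G // ∃ g ∈ C.carrier, (χ : G → ℂ) g ≠ 0} = 2) :
    ∃ c : G, TwoCl χ c := by
  have hcl := irr_isClassFunction χ
  let x1 : {C : ConjClasses G // ∃ g ∈ C.carrier, (χ : G → ℂ) g ≠ 0} :=
    ⟨ConjClasses.mk 1, 1, ConjClasses.mem_carrier_mk, irr_one_ne_zero χ.2⟩
  obtain ⟨⟨C, g, hg, hne⟩, hy, huniq⟩ := (Nat.card_eq_two_iff' x1).mp hχ
  rw [ConjClasses.mem_carrier_iff_mk_eq] at hg
  subst hg
  refine ⟨g, ?_, ?_⟩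
  · rintro rfl
    exact hy rfl
  · intro h
    constructor
    · intro hh
      by_cases h1 : h = 1
      · exact Or.inl h1
      · right
        have h2 := huniq ⟨ConjClasses.mk h, h, ConjClasses.mem_carrier_mk, hh⟩ (by
          intro h3
          apply h1
          have h4 := congrArg Subtype.val h3
          change ConjClasses.mk h = ConjClasses.mk 1 at h4
          rw [ConjClasses.mk_eq_mk_iff_isConj] at h4
          exact isConj_one_right.mp h4.symm)
        have h4 := congrArg Subtype.val h2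
        change ConjClasses.mk h = ConjClasses.mk g at h4
        rw [ConjClasses.mk_eq_mk_iff_isConj] at h4
        exact h4.symm
    · rintro (rfl | h1)
      · exact irr_one_ne_zero χ.2
      · rwa [← classFun_eq_of_isConj hcl h1]

theorem TwoCl.not_isConj_one {χ : IrrCharacter G} {c : G} (h : TwoCl χ c) : ¬ IsConj c 1 :=
  fun h2 => h.1 (isConj_one_left.mp h2)

theorem TwoCl.sum_eq {χ : IrrCharacter G} {c : G} (h : TwoCl χ c) (F : G → ℂ)
    (hF : ∀ g, (χ : G → ℂ) g = 0 → F g = 0) (hFc : ∀ g, IsConj c g → F g = F c) [Fintype G] :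
    ∑ g : G, F g = F 1 + (Nat.card {x : G // IsConj c x} : ℂ) * F c := by
  classical
  have h1 : ∀ g : G, F g = (if g = 1 then F 1 else 0) + (if IsConj c g then F c else 0) := by
    intro g
    by_cases h1 : g = 1
    · subst h1
      rw [if_pos rfl, if_neg h.not_isConj_one, add_zero]
    · rw [if_neg h1, zero_add]
      by_cases h2 : IsConj c g
      · rw [if_pos h2, hFc g h2]
      · rw [if_neg h2]
        apply hF
        by_contra h3
        rcases (h.2 g).mp h3 with h4 | h4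
        · exact h1 h4
        · exact h2 h4
  rw [Finset.sum_congr rfl (fun g _ => h1 g), Finset.sum_add_distrib, Finset.sum_ite_eq' ,
    if_pos (Finset.mem_univ _), ← Finset.sum_filter, Finset.sum_const, nsmul_eq_mul,
    Nat.card_eq_fintype_card, Fintype.card_subtype]

/-- The class of `c` is not the whole non-identity part unless `|G| ≤ 2`. -/
theorem TwoCl.ne_one [Finite G] (hG : 2 < Nat.card G) {χ : IrrCharacter G} {c : G}
    (h : TwoCl χ c) : χ ≠ oneIrr G := by
  classical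
  intro h1
  have := Fintype.ofFinite G
  have h2 := h.sum_eq (χ : G → ℂ) (fun g hg => hg)
    (fun g hg => (classFun_eq_of_isConj (irr_isClassFunction χ) hg).symm)
  rw [h1] at h2
  simp only [oneIrr_apply, Finset.sum_const, Finset.card_univ, nsmul_eq_mul, mul_one] at h2
  rw [← Nat.card_eq_fintype_card] at h2
  have h3 : Nat.card G = 1 + Nat.card {x : G // IsConj c x} := by exact_mod_cast h2
  have h4 := card_isConj_mul_card_centralizer c
  have h5 : Nat.card {x : G // IsConj c x} ∣ Nat.card G := ⟨_, h4.symm⟩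
  have h6 : Nat.card {x : G // IsConj c x} ∣ 1 := by
    rw [h3] at h5
    exact (Nat.dvd_add_left dvd_rfl).mp h5
  rw [Nat.dvd_one] at h6
  omega

theorem TwoCl.inner_eq_zero [Finite G] {χ : IrrCharacter G} {c : G}
    (h : TwoCl χ c) {ψ : IrrCharacter G} (hψ : ψ ≠ χ) :
    (χ : G → ℂ) 1 * (ψ : G → ℂ) 1 + (Nat.card {x : G // IsConj c x} : ℂ) *
      ((χ : G → ℂ) c * conj ((ψ : G → ℂ) c)) = 0 := by
  classical
  have := Fintype.ofFinite G
  have h1 := classInner_irr_of_ne hψ.symm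
  unfold classInner at h1
  rw [mul_eq_zero, or_iff_right (inv_ne_zero (by exact_mod_cast Nat.card_pos.ne'))] at h1
  rw [h.sum_eq _ (fun g hg => by rw [hg, zero_mul]) (fun g hg => by
    rw [← classFun_eq_of_isConj (irr_isClassFunction χ) hg,
      ← classFun_eq_of_isConj (irr_isClassFunction ψ) hg])] at h1
  rw [← h1, deg_spec ψ, Complex.conj_natCast]

/-- `χ(1) + |C| χ(c) = 0`. -/
theorem TwoCl.one_add [Finite G] (hG : 2 < Nat.card G) {χ : IrrCharacter G} {c : G}
    (h : TwoCl χ c) :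
    (χ : G → ℂ) 1 + (Nat.card {x : G // IsConj c x} : ℂ) * (χ : G → ℂ) c = 0 := by
  have h1 := h.inner_eq_zero (h.ne_one hG).symm
  simpa using h1

/-- Every other irreducible character contains `c` in its kernel. -/
theorem TwoCl.other [Finite G] (hG : 2 < Nat.card G) {χ : IrrCharacter G} {c : G}
    (h : TwoCl χ c) {ψ : IrrCharacter G} (hψ : ψ ≠ χ) {g : G} (hg : (χ : G → ℂ) g ≠ 0) :
    (ψ : G → ℂ) g = (ψ : G → ℂ) 1 := by
  rcases (h.2 g).mp hg with rfl | h1
  · rfl
  · rw [← classFun_eq_of_isConj (irr_isClassFunction ψ) h1]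
    have h2 := h.inner_eq_zero hψ
    have h3 := h.one_add hG
    have h4 : (χ : G → ℂ) 1 * ((ψ : G → ℂ) 1 - conj ((ψ : G → ℂ) c)) = 0 := by
      linear_combination h2 - conj ((ψ : G → ℂ) c) * h3
    rw [mul_eq_zero, or_iff_right (irr_one_ne_zero χ.2), sub_eq_zero] at h4
    have h5 := congrArg conj h4
    rw [Complex.conj_conj] at h5
    rw [← h5, deg_spec ψ, Complex.conj_natCast]

/-- The vanishing set as a subgroup. -/
def nvSub [Finite G] (χ : IrrCharacter G) : Subgroup G :=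
  ⨅ ψ : {ψ : IrrCharacter G // ψ ≠ χ}, charKer (irr_isCharacter ψ.1)

theorem TwoCl.mem_nvSub [Finite G] (hG : 2 < Nat.card G) {χ : IrrCharacter G} {c : G}
    (h : TwoCl χ c) (g : G) : g ∈ nvSub χ ↔ (χ : G → ℂ) g ≠ 0 := by
  classical
  have := Fintype.ofFinite (IrrCharacter G)
  unfold nvSub
  rw [Subgroup.mem_iInf]
  constructor
  · intro h1
    have h2 : ∀ ψ : IrrCharacter G, ψ ≠ χ → (ψ : G → ℂ) g = (ψ : G → ℂ) 1 := fun ψ hψ =>
      (mem_charKer _ _).mp (h1 ⟨ψ, hψ⟩)
    by_cases hg : g = 1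
    · rw [hg]; exact irr_one_ne_zero χ.2
    intro h3
    have h4 := sum_degree_mul g
    rw [if_neg hg, ← Finset.add_sum_erase _ _ (Finset.mem_univ χ), h3, mul_zero, zero_add] at h4
    have h5 : ∑ ψ ∈ Finset.univ.erase χ, (ψ : G → ℂ) 1 * (ψ : G → ℂ) g =
        ((∑ ψ ∈ Finset.univ.erase χ, deg ψ * deg ψ : ℕ) : ℂ) := by
      push_cast
      refine Finset.sum_congr rfl (fun ψ hψ => ?_)
      rw [h2 ψ (Finset.ne_of_mem_erase hψ), deg_spec ψ]
    rw [h5] at h4
    have h6 : ∑ ψ ∈ Finset.univ.erase χ, deg ψ * deg ψ = 0 := by exact_mod_cast h4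
    rw [Finset.sum_eq_zero_iff] at h6
    have h7 := h6 (oneIrr G) (Finset.mem_erase.mpr ⟨(h.ne_one hG).symm, Finset.mem_univ _⟩)
    have h8 := deg_pos (oneIrr G)
    have := Nat.mul_pos h8 h8
    omega
  · rintro h1 ⟨ψ, hψ⟩
    rw [mem_charKer]
    exact h.other hG hψ h1

theorem nvSub_normal [Finite G] (χ : IrrCharacter G) : (nvSub χ).Normal := by
  unfold nvSub
  exact Subgroup.normal_iInf_normal (fun ψ => charKer_normal _)

theorem TwoCl.c_mem [Finite G] (hG : 2 < Nat.card G) {χ : IrrCharacter G} {c : G}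
    (h : TwoCl χ c) : c ∈ nvSub χ :=
  (h.mem_nvSub hG c).mpr ((h.2 c).mpr (Or.inr (IsConj.refl c)))

theorem TwoCl.faithful [Finite G] (hG : 2 < Nat.card G) {χ : IrrCharacter G} {c : G}
    (h : TwoCl χ c) (g : G) (hg : (χ : G → ℂ) g = (χ : G → ℂ) 1) : g = 1 := by
  have h0 : (χ : G → ℂ) g ≠ 0 := by rw [hg]; exact irr_one_ne_zero χ.2
  rcases (h.2 g).mp h0 with h1 | h1
  · exact h1
  · exfalso
    rw [← classFun_eq_of_isConj (irr_isClassFunction χ) h1] at hg
    have h3 := h.one_add hG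
    rw [hg, deg_spec χ] at h3
    have h4 : deg χ + Nat.card {x : G // IsConj c x} * deg χ = 0 := by exact_mod_cast h3
    have := deg_pos χ
    omega

theorem TwoCl.le_of_normal [Finite G] (hG : 2 < Nat.card G) {χ : IrrCharacter G} {c : G}
    (h : TwoCl χ c) (K : Subgroup G) [K.Normal] (hK : K ≠ ⊥) : nvSub χ ≤ K := by
  intro g hg
  by_contra hgK
  obtain ⟨ψ, hψ, hψg⟩ := exists_irr_of_notMem K hgK
  obtain ⟨⟨k, hk⟩, hk1⟩ := (Subgroup.ne_bot_iff_exists_ne_one).mp hK
  have h1 : ψ ≠ χ := by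
    rintro rfl
    exact hk1 (Subtype.ext (h.faithful hG k (hψ k hk)))
  exact hψg (h.other hG h1 ((h.mem_nvSub hG g).mp hg))

theorem TwoCl.conj_of_mem [Finite G] (hG : 2 < Nat.card G) {χ : IrrCharacter G} {c : G}
    (h : TwoCl χ c) {x y : G} (hx : x ∈ nvSub χ) (hy : y ∈ nvSub χ) (hx1 : x ≠ 1) (hy1 : y ≠ 1) :
    IsConj x y := by
  rw [h.mem_nvSub hG, h.2] at hx hy
  rcases hx with hx | hx
  · exact absurd hx hx1
  rcases hy with hy | hy
  · exact absurd hy hy1
  exact hx.symm.trans hy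

theorem TwoCl.elemAb [Finite G] (hG : 2 < Nat.card G) {χ : IrrCharacter G} {c : G}
    (h : TwoCl χ c) : ∃ p : ℕ, p.Prime ∧ IsElementaryAbelian p (nvSub χ) ∧ IsPGroup p (nvSub χ) := by
  have hN := nvSub_normal χ
  have hc := h.c_mem hG
  have hne : Nat.card (nvSub χ) ≠ 1 := by
    intro h1
    have h2 := Subgroup.card_eq_one.mp h1
    rw [h2, Subgroup.mem_bot] at hc
    exact h.1 hc
  obtain ⟨p, hp, hpd⟩ := Nat.exists_prime_and_dvd hne
  have := Fact.mk hp
  obtain ⟨⟨x, hx⟩, hxo⟩ := exists_prime_orderOf_dvd_card' p hpd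
  rw [Subgroup.orderOf_mk] at hxo
  have hx1 : x ≠ 1 := by
    rintro rfl
    rw [orderOf_one] at hxo
    exact hp.one_lt.ne hxo
  have hexp : ∀ y ∈ nvSub χ, y ^ p = 1 := by
    intro y hy
    by_cases hy1 : y = 1
    · rw [hy1, one_pow]
    · obtain ⟨g, hg⟩ := isConj_iff.mp (h.conj_of_mem hG hx hy hx1 hy1)
      rw [← hg, conj_pow, ← hxo, pow_orderOf_eq_one]
      group
  have hpg : IsPGroup p (nvSub χ) := by
    intro y
    refine ⟨1, ?_⟩
    rw [pow_one]
    exact Subtype.ext (hexp y y.2)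
  refine ⟨p, hp, ⟨?_, hexp⟩, hpg⟩
  have : Nontrivial (nvSub χ) := ⟨⟨⟨c, hc⟩, 1, fun h1 => h.1 (congrArg Subtype.val h1)⟩⟩
  have h2 := hpg.center_nontrivial
  -- the centre of N mapped to G is normal
  have h3 : ((Subgroup.center (nvSub χ)).map (nvSub χ).subtype).Normal := inferInstance
  have h4 : (Subgroup.center (nvSub χ)).map (nvSub χ).subtype ≠ ⊥ := by
    rw [Ne, Subgroup.map_eq_bot_iff_of_injective _ (Subgroup.subtype_injective _)]
    exact (Subgroup.nontrivial_iff_ne_bot _).mp h2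
  have h5 := h.le_of_normal hG _ h4
  refine ⟨⟨fun a b => ?_⟩⟩
  have h6 := h5 a.2
  rw [Subgroup.mem_map] at h6
  obtain ⟨z, hz, hza⟩ := h6
  have : z = a := Subtype.ext hza
  rw [this] at hz
  exact (Subgroup.mem_center_iff.mp hz b).symm

end Cfsg.Agent.H80
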