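import Cfsg.Agent.H80.TwoClass
import Cfsg.Agent.Char.Correspondence
import Cfsg.Agent.H75.Ito

/-!
# Characters nonzero on exactly two classes: centralizers and inertia groups (owner: helper80)
-/

set_option autoImplicit false

namespace Cfsg.Agent.H80

open scoped ComplexConjugate BigOperators
open Cfsg Cfsg.Agent.CharBase Cfsg.Agent.H75 Cfsg.Agent.Char

universe u v

variable {G : Type u} [Group G] [Finite G]

theorem TwoCl.card_nvSub (hG : 2 < Nat.card G) {χ : IrrCharacter G} {c : G}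
    (h : TwoCl χ c) : Nat.card (nvSub χ) = 1 + Nat.card {x : G // IsConj c x} := by
  classical
  have := Fintype.ofFinite G
  have h1 := h.sum_eq (fun g => if (χ : G → ℂ) g ≠ 0 then 1 else 0) (fun g hg => by simp [hg])
    (fun g hg => by
      rw [classFun_eq_of_isConj (irr_isClassFunction χ) hg])
  rw [if_pos (irr_one_ne_zero χ.2), if_pos ((h.2 c).mpr (Or.inr (IsConj.refl c))), mul_one,
    ← Finset.sum_filter, Finset.sum_const, nsmul_eq_mul, mul_one] at h1
  have h2 : Nat.card (nvSub χ) = (Finset.univ.filter fun g : G => (χ : G → ℂ) g ≠ 0).card := by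
    rw [← Fintype.card_subtype, ← Nat.card_eq_fintype_card]
    exact Nat.card_congr (Equiv.subtypeEquivRight (fun g => h.mem_nvSub hG g))
  rw [h2]
  exact_mod_cast h1

/-- There is a positive integer `a` with `χ(c) = -a`, `χ(1) = a (|N|-1)`, `|G| = a²|N|(|N|-1)`. -/
theorem TwoCl.exists_a (hG : 2 < Nat.card G) {χ : IrrCharacter G} {c : G}
    (h : TwoCl χ c) : ∃ a : ℕ, 0 < a ∧ (∀ g, IsConj c g → (χ : G → ℂ) g = -(a : ℂ)) ∧
      deg χ = a * Nat.card {x : G // IsConj c x} ∧
      Nat.card G = a ^ 2 * Nat.card (nvSub χ) * Nat.card {x : G // IsConj c x} := by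
  classical
  have := Fintype.ofFinite G
  set m := Nat.card {x : G // IsConj c x} with hm
  have hmpos : 0 < m := by
    have : Nonempty {x : G // IsConj c x} := ⟨⟨c, IsConj.refl c⟩⟩
    exact Nat.card_pos
  have h1 := h.one_add hG
  rw [← hm, deg_spec χ] at h1
  have hmC : (m : ℂ) ≠ 0 := by exact_mod_cast hmpos.ne'
  -- χ c = -(deg χ / m)
  have h2 : -(χ : G → ℂ) c = (((deg χ : ℚ) / (m : ℚ) : ℚ) : ℂ) := by
    push_cast
    field_simp
    linear_combination -h1
  have h3 : IsIntegral ℤ (-(χ : G → ℂ) c) := (irr_isIntegral χ c).neg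
  rw [h2] at h3
  have h4 : IsIntegral ℤ ((deg χ : ℚ) / (m : ℚ) : ℚ) := by
    have : IsIntegral ℤ (algebraMap ℚ ℂ ((deg χ : ℚ) / (m : ℚ))) := by simpa using h3
    exact (isIntegral_algebraMap_iff (algebraMap ℚ ℂ).injective).mp this
  obtain ⟨z, hz⟩ := IsIntegrallyClosed.isIntegral_iff.mp h4
  have h5 : (deg χ : ℤ) = z * m := by
    have hmQ : (m : ℚ) ≠ 0 := by exact_mod_cast hmpos.ne'
    have hz' : (z : ℚ) = (deg χ : ℚ) / (m : ℚ) := by simpa using hz
    rw [eq_div_iff hmQ] at hz'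
    exact_mod_cast hz'.symm
  have hzpos : 0 < z := by
    by_contra hz0
    push Not at hz0
    have h6 : (deg χ : ℤ) ≤ 0 := by
      rw [h5]
      exact mul_nonpos_of_nonpos_of_nonneg hz0 (by positivity)
    have := deg_pos χ
    omega
  obtain ⟨a, rfl⟩ := Int.eq_ofNat_of_zero_le hzpos.le
  have ha : deg χ = a * m := by exact_mod_cast h5
  have hc : (χ : G → ℂ) c = -(a : ℂ) := by
    have h6 : (m : ℂ) * ((a : ℂ) + (χ : G → ℂ) c) = 0 := by
      rw [← h1, ha]; push_cast; ring
    rw [mul_eq_zero, or_iff_right hmC] at h6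
    linear_combination h6
  refine ⟨a, by exact_mod_cast hzpos, fun g hg => ?_, ha, ?_⟩
  · rw [← classFun_eq_of_isConj (irr_isClassFunction χ) hg, hc]
  · have h7 := classInner_irr_self χ
    unfold classInner at h7
    rw [h.sum_eq _ (fun g hg => by rw [hg, zero_mul]) (fun g hg => by
      rw [← classFun_eq_of_isConj (irr_isClassFunction χ) hg]), deg_spec χ, hc, ← hm] at h7
    have hG0 : (Nat.card G : ℂ) ≠ 0 := by exact_mod_cast Nat.card_pos.ne'
    rw [inv_mul_eq_one₀ hG0] at h7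
    simp only [map_neg, Complex.conj_natCast, ha] at h7
    rw [h.card_nvSub hG, ← hm]
    have h8 : (Nat.card G : ℂ) = ((a ^ 2 * (1 + m) * m : ℕ) : ℂ) := by
      rw [h7]; push_cast; ring
    exact_mod_cast h8

/-- multiplicity of a nontrivial linear character of `N` in `χ_N`. -/
theorem TwoCl.inner_res (hG : 2 < Nat.card G) {χ : IrrCharacter G} {c : G}
    (h : TwoCl χ c) {a : ℕ} (ha : ∀ g, IsConj c g → (χ : G → ℂ) g = -(a : ℂ))
    (hdeg : deg χ = a * Nat.card {x : G // IsConj c x}) [Fintype (nvSub χ)]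
    (μ : IrrCharacter (nvSub χ)) (hμ1 : (μ : nvSub χ → ℂ) 1 = 1) (hμ : μ ≠ oneIrr (nvSub χ)) :
    classInner (fun n : nvSub χ => (χ : G → ℂ) n) (μ : nvSub χ → ℂ) = a := by
  classical
  have h1 := classInner_irr_of_ne hμ.symm
  unfold classInner at h1 ⊢
  have hN0 : (Nat.card (nvSub χ) : ℂ) ≠ 0 := by exact_mod_cast Nat.card_pos.ne'
  rw [mul_eq_zero, or_iff_right (inv_ne_zero hN0)] at h1
  simp only [oneIrr_apply, one_mul] at h1
  have h2 : ∀ n : nvSub χ, (χ : G → ℂ) n * conj ((μ : nvSub χ → ℂ) n) =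
      -(a : ℂ) * conj ((μ : nvSub χ → ℂ) n) + (if n = 1 then (a : ℂ) * Nat.card (nvSub χ) else 0) := by
    intro n
    by_cases hn : n = 1
    · subst hn
      rw [if_pos rfl, hμ1, OneMemClass.coe_one, deg_spec χ, hdeg, h.card_nvSub hG]
      push_cast
      simp only [map_one]
      ring
    · rw [if_neg hn, add_zero]
      have h3 : IsConj c (n : G) := by
        rcases (h.2 n).mp ((h.mem_nvSub hG n).mp n.2) with h4 | h4
        · exact absurd (Subtype.ext h4) hn
        · exact h4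
      rw [ha _ h3]
  rw [Finset.sum_congr rfl (fun n _ => h2 n), Finset.sum_add_distrib, ← Finset.mul_sum, h1,
    mul_zero, zero_add, Finset.sum_ite_eq', if_pos (Finset.mem_univ _)]
  field_simp

theorem prime_dvd_eq {p : ℕ} (hp : p.Prime) {n : ℕ} (hn : n ≠ 0)
    (h : ∀ q : ℕ, q.Prime → q ≠ p → ¬ q ∣ n) : ∃ k, n = p ^ k := by
  refine ⟨n.factorization p, ?_⟩
  have := Fact.mk hp
  obtain ⟨m, hm, hmp⟩ : ∃ m, n = p ^ n.factorization p * m ∧ ¬ p ∣ m :=
    ⟨n / p ^ n.factorization p, (Nat.mul_div_cancel' (Nat.ordProj_dvd n p)).symm,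
      Nat.not_dvd_ordCompl hp hn⟩
  have hm1 : m = 1 := by
    by_contra hm1
    obtain ⟨q, hq, hqm⟩ := Nat.exists_prime_and_dvd hm1
    refine h q hq ?_ (hm ▸ hqm.mul_left _)
    rintro rfl
    exact hmp hqm
  rw [hm1, mul_one] at hm
  exact hm

/-- The inertia group of a nontrivial character of `N`. -/
theorem TwoCl.inertia (hG : 2 < Nat.card G) {χ : IrrCharacter G} {c : G}
    (h : TwoCl χ c) {p : ℕ} [Fact p.Prime] (hp : IsPGroup p (nvSub χ)) [(nvSub χ).Normal]
    (μ : IrrCharacter (nvSub χ)) (hμ : μ ≠ oneIrr (nvSub χ)) :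
    IsPGroup p (Char.inertia (nvSub χ) (μ : nvSub χ → ℂ)) ∧
      (Char.inertia (nvSub χ) (μ : nvSub χ → ℂ)).index = Nat.card {x : G // IsConj c x} := by
  classical
  have := Fintype.ofFinite G
  have := Fintype.ofFinite (nvSub χ)
  obtain ⟨a, hapos, ha, hdeg, hcard⟩ := h.exists_a hG
  set m := Nat.card {x : G // IsConj c x} with hm
  have hmpos : 0 < m := by
    have : Nonempty {x : G // IsConj c x} := ⟨⟨c, IsConj.refl c⟩⟩
    exact Nat.card_pos
  obtain ⟨p', hp', ⟨⟨hcomm⟩, -⟩, -⟩ := h.elemAb hG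
  have hμ1 : (μ : nvSub χ → ℂ) 1 = 1 := irr_one_of_comm (fun a b => hcomm.comm a b) μ
  have hin := h.inner_res hG ha hdeg μ hμ1 hμ
  have ha0 : (a : ℂ) ≠ 0 := by exact_mod_cast hapos.ne'
  have hne : classInner (fun n : nvSub χ => (χ : G → ℂ) n) (μ : nvSub χ → ℂ) ≠ 0 := by
    rw [hin]; exact ha0
  have hidx : (Char.inertia (nvSub χ) (μ : nvSub χ → ℂ)).index = m := by
    have h1 := clifford_degree (nvSub χ) χ.2 μ.2 hne
    rw [hin, hμ1, mul_one, deg_spec χ, hdeg] at h1
    have h2 : a * m = a * (Char.inertia (nvSub χ) (μ : nvSub χ → ℂ)).index := by exact_mod_cast h1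
    exact (Nat.eq_of_mul_eq_mul_left hapos h2).symm
  refine ⟨?_, hidx⟩
  obtain ⟨T, hT⟩ : ∃ T, T = Char.inertia (nvSub χ) (μ : nvSub χ → ℂ) := ⟨_, rfl⟩
  have hNT : nvSub χ ≤ T := by
    rw [hT]; exact le_inertia _ (irr_isClassFunction μ)
  rw [← hT] at hidx ⊢
  have := Fintype.ofFinite T
  have hcT : Nat.card T = a ^ 2 * Nat.card (nvSub χ) := by
    have h1 := T.card_mul_index
    rw [hidx, hcard] at h1
    exact Nat.eq_of_mul_eq_mul_right hmpos h1
  obtain ⟨ψ, hψ, -, hψin⟩ := clifford_correspondence (nvSub χ) T μ.2 hT hNT χ.2 hne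
  rw [hin] at hψin
  have hres := restrict_eq_smul_of_le_inertia (nvSub χ) T hNT μ.2
    (fun g hg => by rw [hT] at hg; exact hg) hψ (by rw [hψin]; exact ha0)
  rw [hψin] at hres
  have hres' : ∀ n : nvSub χ, ψ ⟨n, hNT n.2⟩ = a * (μ : nvSub χ → ℂ) n := fun n => congrFun hres n
  have hψ1 : ψ 1 = a := by
    have := hres' 1
    rw [hμ1, mul_one] at this
    exact this
  -- ψ vanishes off N
  have hvan : ∀ t : T, (t : G) ∉ nvSub χ → ψ t = 0 := by
    have h1 := classInner_irr_self (⟨ψ, hψ⟩ : IrrCharacter T)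
    have h2 := classInner_irr_self μ
    unfold classInner at h1 h2
    have hT0 : (Nat.card T : ℂ) ≠ 0 := by exact_mod_cast Nat.card_pos.ne'
    have hN0 : (Nat.card (nvSub χ) : ℂ) ≠ 0 := by exact_mod_cast Nat.card_pos.ne'
    rw [inv_mul_eq_one₀ hT0] at h1
    rw [inv_mul_eq_one₀ hN0] at h2
    have h3 : ∑ t : T, ψ t * conj (ψ t) = ∑ n : nvSub χ, ψ ⟨n, hNT n.2⟩ * conj (ψ ⟨n, hNT n.2⟩) := by
      have h4 : ∑ n : nvSub χ, ψ ⟨n, hNT n.2⟩ * conj (ψ ⟨n, hNT n.2⟩) =
          (a : ℂ) ^ 2 * Nat.card (nvSub χ) := by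
        rw [h2, Finset.mul_sum]
        refine Finset.sum_congr rfl (fun n _ => ?_)
        rw [hres' n, map_mul, Complex.conj_natCast]
        ring
      rw [h4, ← h1, hcT]
      push_cast; ring
    have h5 : ∑ t : T, Complex.normSq (ψ t) = ∑ n : nvSub χ, Complex.normSq (ψ ⟨n, hNT n.2⟩) := by
      have : ((∑ t : T, Complex.normSq (ψ t) : ℝ) : ℂ) =
          ((∑ n : nvSub χ, Complex.normSq (ψ ⟨n, hNT n.2⟩) : ℝ) : ℂ) := by
        push_cast
        simp only [← Complex.mul_conj]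
        exact h3
      exact_mod_cast this
    have h6 : ∑ n : nvSub χ, Complex.normSq (ψ ⟨n, hNT n.2⟩) =
        ∑ t ∈ Finset.univ.filter (fun t : T => (t : G) ∈ nvSub χ), Complex.normSq (ψ t) := by
      refine Finset.sum_bij (fun n _ => (⟨n, hNT n.2⟩ : T)) ?_ ?_ ?_ ?_
      · intro n _
        simp
      · intro n _ n' _ h
        exact Subtype.ext (congrArg (fun x : T => (x : G)) h)
      · intro t ht
        simp only [Finset.mem_filter, Finset.mem_univ, true_and] at ht
        exact ⟨⟨t, ht⟩, Finset.mem_univ _, rfl⟩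
      · intro n _
        rfl
    rw [h6, ← Finset.sum_filter_add_sum_filter_not Finset.univ
      (fun t : T => (t : G) ∈ nvSub χ)] at h5
    have h7 : ∑ t ∈ Finset.univ.filter (fun t : T => ¬ (t : G) ∈ nvSub χ),
        Complex.normSq (ψ t) = 0 := by linarith
    intro t ht
    have h8 := (Finset.sum_eq_zero_iff_of_nonneg (fun t _ => Complex.normSq_nonneg _)).mp h7 t
      (by simp [ht])
    exact Complex.normSq_eq_zero.mp h8
  -- T is a p-group
  have hpp : p.Prime := Fact.out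
  have hq : ∀ q : ℕ, q.Prime → q ≠ p → ¬ q ∣ Nat.card T := by
    intro q hq hqp hqT
    have := Fact.mk hq
    obtain ⟨Q⟩ : Nonempty (Sylow q T) := inferInstance
    have := Fintype.ofFinite Q
    -- the restriction to Q
    obtain ⟨k, hk⟩ := classInner_natCast
      (isCharacter_restrict (isCharacter_of_isIrr hψ) (Q : Subgroup T))
      (isCharacter_of_isIrr (CharBase.isIrrCharacter_one (G := (Q : Subgroup T))))
    unfold classInner at hk
    have h1 : ∑ x : (Q : Subgroup T), ψ x * conj (1 : ℂ) = a := by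
      rw [← Finset.add_sum_erase _ _ (Finset.mem_univ 1), Finset.sum_eq_zero, add_zero,
        OneMemClass.coe_one, hψ1, map_one, mul_one]
      intro x hx
      rw [hvan, zero_mul]
      intro hxN
      apply Finset.ne_of_mem_erase hx
      -- x has order a power of p and a power of q
      obtain ⟨i, hi⟩ := hp ⟨_, hxN⟩
      obtain ⟨j, hj⟩ := Q.isPGroup' x
      have h2 : orderOf (x : T) ∣ p ^ i := by
        rw [orderOf_dvd_iff_pow_eq_one]
        have := congrArg Subtype.val hi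
        exact Subtype.ext (by simpa using this)
      have h3 : orderOf (x : T) ∣ q ^ j := by
        rw [orderOf_dvd_iff_pow_eq_one]
        have := congrArg Subtype.val hj
        simpa using this
      have h4 : Nat.Coprime (p ^ i) (q ^ j) :=
        Nat.Coprime.pow _ _ ((Nat.coprime_primes hpp hq).mpr hqp.symm)
      have h5 : orderOf (x : T) = 1 := Nat.eq_one_of_dvd_coprimes h4 h2 h3
      exact Subtype.ext (orderOf_eq_one_iff.mp h5)
    rw [h1] at hk
    have hQ0 : (Nat.card (Q : Subgroup T) : ℂ) ≠ 0 := by exact_mod_cast Nat.card_pos.ne'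
    have h2 : a = Nat.card (Q : Subgroup T) * k := by
      have : (a : ℂ) = Nat.card (Q : Subgroup T) * k := by
        rw [← hk]; field_simp
      exact_mod_cast this
    have h3 : Nat.card (Q : Subgroup T) = q ^ (Nat.card T).factorization q :=
      Q.card_eq_multiplicity
    have h4 : (Nat.card T).factorization q = 2 * a.factorization q := by
      rw [hcT, Nat.factorization_mul (by positivity) Nat.card_pos.ne', Nat.factorization_pow]
      obtain ⟨j, hj⟩ := IsPGroup.iff_card.mp hp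
      rw [hj]
      simp [Nat.factorization_pow, hpp.factorization, hqp.symm]
    have h5 : (Nat.card T).factorization q ≤ a.factorization q := by
      rw [← hq.pow_dvd_iff_le_factorization hapos.ne', ← h3, h2]
      exact dvd_mul_right _ _
    have h6 : (Nat.card T).factorization q = 0 := by omega
    rw [Nat.factorization_eq_zero_iff] at h6
    rcases h6 with h6 | h6 | h6
    · exact h6 hq
    · exact h6 hqT
    · exact Nat.card_pos.ne' h6
  obtain ⟨k, hk⟩ := prime_dvd_eq hpp (Nat.card_pos (α := T)).ne' hq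
  exact IsPGroup.of_card hk

/-- some nontrivial irreducible character of `N` -/
theorem TwoCl.exists_mu (hG : 2 < Nat.card G) {χ : IrrCharacter G} {c : G}
    (h : TwoCl χ c) : ∃ μ : IrrCharacter (nvSub χ), μ ≠ oneIrr (nvSub χ) := by
  obtain ⟨ψ, hψ⟩ := exists_irr_ne_one (G := nvSub χ) (g := ⟨c, h.c_mem hG⟩)
    (fun h1 => h.1 (congrArg Subtype.val h1))
  refine ⟨ψ, ?_⟩
  rintro rfl
  exact hψ rfl

theorem TwoCl.not_dvd_card_class (hG : 2 < Nat.card G) {χ : IrrCharacter G} {c : G}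
    (h : TwoCl χ c) {p : ℕ} [hpf : Fact p.Prime] (hp : IsPGroup p (nvSub χ)) :
    ¬ p ∣ Nat.card {x : G // IsConj c x} := by
  intro h1
  have h2 := h.card_nvSub hG
  have h3 : p ∣ Nat.card (nvSub χ) := by
    have : Nontrivial (nvSub χ) := ⟨⟨⟨c, h.c_mem hG⟩, 1, fun h1 => h.1 (congrArg Subtype.val h1)⟩⟩
    obtain ⟨n, hn0, hn⟩ := hp.nontrivial_iff_card.mp this
    rw [hn]
    exact dvd_pow_self _ hn0.ne'
  rw [h2] at h3
  have h4 := (Nat.dvd_add_left h1).mp h3
  exact hpf.out.one_lt.ne' (Nat.dvd_one.mp h4)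

theorem TwoCl.centralizer (hG : 2 < Nat.card G) {χ : IrrCharacter G} {c : G}
    (h : TwoCl χ c) {p : ℕ} [Fact p.Prime] (hp : IsPGroup p (nvSub χ)) [(nvSub χ).Normal]
    {x : G} (hx : x ∈ nvSub χ) (hx1 : x ≠ 1) :
    IsPGroup p (Subgroup.centralizer ({x} : Set G)) ∧
      (Subgroup.centralizer ({x} : Set G)).index = Nat.card {x : G // IsConj c x} := by
  have h1 : (Subgroup.centralizer ({x} : Set G)).index = Nat.card {x : G // IsConj c x} := by
    rw [← card_isConj_eq_index]
    apply Nat.card_congr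
    have h2 := h.conj_of_mem hG (h.c_mem hG) hx h.1 hx1
    exact Equiv.subtypeEquivRight (fun y => ⟨fun hy => h2.trans hy, fun hy => h2.symm.trans hy⟩)
  refine ⟨?_, h1⟩
  obtain ⟨μ, hμ⟩ := h.exists_mu hG
  obtain ⟨h2, h3⟩ := h.inertia hG hp μ hμ
  obtain ⟨k, hk⟩ := IsPGroup.iff_card.mp h2
  apply IsPGroup.of_card (n := k)
  rw [← hk]
  have h4 := (Subgroup.centralizer ({x} : Set G)).card_mul_index
  have h5 := (Char.inertia (nvSub χ) (μ : nvSub χ → ℂ)).card_mul_index
  rw [h1] at h4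
  rw [h3] at h5
  have : Nonempty {x : G // IsConj c x} := ⟨⟨c, IsConj.refl c⟩⟩
  exact Nat.eq_of_mul_eq_mul_right (Nat.card_pos (α := {x : G // IsConj c x})) (h4.trans h5.symm)

end Cfsg.Agent.H80
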