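import Cfsg.Agent.H80.TwoClass2

/-!
# Characters nonzero on exactly two classes: structure of Sylow subgroups (owner: helper80)
-/

set_option autoImplicit false

namespace Cfsg.Agent.H80

open scoped ComplexConjugate BigOperators
open Cfsg Cfsg.Agent.CharBase Cfsg.Agent.H75 Cfsg.Agent.Char

universe u v

variable {G : Type u} [Group G] [Finite G]

theorem TwoCl.card_centralizer (hG : 2 < Nat.card G) {χ : IrrCharacter G} {c : G}
    (h : TwoCl χ c) [(nvSub χ).Normal] {x : G} (hx : x ∉ nvSub χ) :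
    Nat.card (Subgroup.centralizer ({x} : Set G)) =
      Nat.card (Subgroup.centralizer ({(x : G ⧸ nvSub χ)} : Set (G ⧸ nvSub χ))) := by
  classical
  have := Fintype.ofFinite (IrrCharacter G)
  have hx0 : (χ : G → ℂ) x = 0 := by
    by_contra h0
    exact hx ((h.mem_nvSub hG x).mpr h0)
  have h1 := column_orthogonality_of_isConj (IsConj.refl x)
  have h2 := sum_ker_normSq (nvSub χ) x
  have h3 : Finset.univ.filter (fun ψ : IrrCharacter G =>
      ∀ k ∈ nvSub χ, (ψ : G → ℂ) k = (ψ : G → ℂ) 1) = Finset.univ.erase χ := by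
    ext ψ
    simp only [Finset.mem_filter, Finset.mem_univ, true_and, Finset.mem_erase, and_true]
    constructor
    · rintro h4 rfl
      exact h.1 (h.faithful hG c (h4 c (h.c_mem hG)))
    · intro h4 k hk
      exact h.other hG h4 ((h.mem_nvSub hG k).mp hk)
  rw [h3] at h2
  rw [← Finset.add_sum_erase _ _ (Finset.mem_univ χ), hx0, zero_mul, zero_add, h2] at h1
  exact_mod_cast h1.symm

/-- The `p`-part of the centralizer of an element outside `N`. -/
theorem TwoCl.card_pSub_mul_dvd (hG : 2 < Nat.card G) {χ : IrrCharacter G} {c : G}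
    (h : TwoCl χ c) {p : ℕ} [Fact p.Prime] (hp : IsPGroup p (nvSub χ)) [(nvSub χ).Normal]
    (P : Sylow p G) {x : G} (hx : x ∉ nvSub χ) (Q : Subgroup G) (hQ : IsPGroup p Q)
    (hQx : Q ≤ Subgroup.centralizer ({x} : Set G)) :
    Nat.card Q * Nat.card (nvSub χ) ≤ Nat.card P := by
  have h1 : Nat.card Q ∣ Nat.card (G ⧸ nvSub χ) := by
    refine (Subgroup.card_dvd_of_le hQx).trans ?_
    rw [h.card_centralizer hG hx]
    exact Subgroup.card_subgroup_dvd_card _
  have h2 : Nat.card Q * Nat.card (nvSub χ) ∣ Nat.card G := by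
    rw [Subgroup.card_eq_card_quotient_mul_card_subgroup (nvSub χ)]
    exact Nat.mul_dvd_mul_right h1 _
  obtain ⟨i, hi⟩ := IsPGroup.iff_card.mp hQ
  obtain ⟨j, hj⟩ := IsPGroup.iff_card.mp hp
  have hpp : p.Prime := Fact.out
  rw [hi, hj, ← pow_add] at h2 ⊢
  rw [P.card_eq_multiplicity]
  exact Nat.pow_le_pow_right hpp.pos ((hpp.pow_dvd_iff_le_factorization Nat.card_pos.ne').mp h2)

theorem TwoCl.nv_le_sylow {χ : IrrCharacter G}
    {p : ℕ} [Fact p.Prime] (hp : IsPGroup p (nvSub χ)) [(nvSub χ).Normal]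
    (P : Sylow p G) : nvSub χ ≤ (P : Subgroup G) := by
  obtain ⟨Q, hQ⟩ := hp.exists_le_sylow
  obtain ⟨g, hg⟩ := MulAction.exists_smul_eq G Q P
  intro x hx
  have h1 : g⁻¹ * x * g ∈ (Q : Subgroup G) := hQ (by
    have := (inferInstance : (nvSub χ).Normal).conj_mem x hx g⁻¹
    simpa using this)
  rw [← hg]
  have h2 : g * (g⁻¹ * x * g) * g⁻¹ ∈ ((g • Q : Sylow p G) : Subgroup G) := by
    rw [Sylow.coe_subgroup_smul]
    exact Subgroup.smul_mem_pointwise_smul _ (MulAut.conj g) _ h1
  have h3 : g * (g⁻¹ * x * g) * g⁻¹ = x := by group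
  rwa [h3] at h2

theorem TwoCl.card_nv_gt_one (hG : 2 < Nat.card G) {χ : IrrCharacter G} {c : G}
    (h : TwoCl χ c) : 1 < Nat.card (nvSub χ) := by
  have : Nontrivial (nvSub χ) := ⟨⟨⟨c, h.c_mem hG⟩, 1, fun h1 => h.1 (congrArg Subtype.val h1)⟩⟩
  exact Finite.one_lt_card

theorem TwoCl.center_le (hG : 2 < Nat.card G) {χ : IrrCharacter G} {c : G}
    (h : TwoCl χ c) {p : ℕ} [Fact p.Prime] (hp : IsPGroup p (nvSub χ)) [(nvSub χ).Normal]
    (P : Sylow p G) :
    (Subgroup.center (P : Subgroup G)).map (P : Subgroup G).subtype ≤ nvSub χ := by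
  rintro x ⟨⟨z, hzP⟩, hz, rfl⟩
  by_contra hx
  have h1 := h.card_pSub_mul_dvd hG hp P hx (P : Subgroup G) P.isPGroup' (by
    intro g hg
    rw [Subgroup.mem_centralizer_singleton_iff]
    have := Subgroup.mem_center_iff.mp hz ⟨g, hg⟩
    exact congrArg Subtype.val this)
  have h2 := h.card_nv_gt_one hG
  have h3 : 0 < Nat.card (P : Subgroup G) := Nat.card_pos
  nlinarith

theorem TwoCl.center_eq_iff (hG : 2 < Nat.card G) {χ : IrrCharacter G} {c : G}
    (h : TwoCl χ c) {p : ℕ} [Fact p.Prime] (hp : IsPGroup p (nvSub χ)) [(nvSub χ).Normal]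
    (P : Sylow p G) :
    (Subgroup.center (P : Subgroup G)).map (P : Subgroup G).subtype = nvSub χ ↔
      (P : Subgroup G).Normal := by
  have hle := TwoCl.nv_le_sylow hp P
  have hcz := h.center_le hG hp P
  have hnd := h.not_dvd_card_class hG hp
  -- the centralizers have the order of `P`
  have hcard : ∀ x ∈ nvSub χ, x ≠ 1 → Nat.card (Subgroup.centralizer ({x} : Set G)) =
      Nat.card (P : Subgroup G) := by
    intro x hx hx1
    obtain ⟨h1, h2⟩ := h.centralizer hG hp hx hx1
    have h3 := (h1.toSylow (by rwa [h2])).card_eq_multiplicity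
    rw [← P.card_eq_multiplicity] at h3
    exact h3
  constructor
  · intro heq
    -- P ≤ C_G(x) for all x in N
    have h1 : ∀ x ∈ nvSub χ, x ≠ 1 → (P : Subgroup G) = Subgroup.centralizer ({x} : Set G) := by
      intro x hx hx1
      apply Subgroup.eq_of_le_of_card_ge
      · intro g hg
        rw [Subgroup.mem_centralizer_singleton_iff]
        rw [← heq] at hx
        obtain ⟨z, hz, rfl⟩ := hx
        exact congrArg Subtype.val (Subgroup.mem_center_iff.mp hz ⟨g, hg⟩)
      · exact (hcard x hx hx1).le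
    refine ⟨fun g hg y => ?_⟩
    have hcm := h.c_mem hG
    have h2 : y * c * y⁻¹ ∈ nvSub χ := (inferInstance : (nvSub χ).Normal).conj_mem c hcm y
    have h3 : y * c * y⁻¹ ≠ 1 := by
      intro h4
      apply h.1
      have : c = y⁻¹ * (y * c * y⁻¹) * y := by group
      rw [this, h4]; group
    rw [h1 _ h2 h3, Subgroup.mem_centralizer_singleton_iff]
    rw [h1 _ hcm h.1, Subgroup.mem_centralizer_singleton_iff] at hg
    calc y * g * y⁻¹ * (y * c * y⁻¹) = y * (g * c) * y⁻¹ := by group
      _ = y * (c * g) * y⁻¹ := by rw [hg]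
      _ = y * c * y⁻¹ * (y * g * y⁻¹) := by group
  · intro hPn
    refine le_antisymm hcz ?_
    -- a nontrivial element of Z(P)
    have hnt : Nontrivial (P : Subgroup G) := by
      refine ⟨⟨⟨c, hle (h.c_mem hG)⟩, 1, fun h1 => h.1 (congrArg Subtype.val h1)⟩⟩
    have hcn := P.isPGroup'.center_nontrivial
    obtain ⟨⟨z, hz⟩, hz1⟩ := exists_ne (1 : Subgroup.center (P : Subgroup G))
    have hzN : (z : G) ∈ nvSub χ := hcz ⟨z, hz, rfl⟩
    have hz1' : (z : G) ≠ 1 := fun h1 => hz1 (Subtype.ext (Subtype.ext h1))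
    intro x hx
    by_cases hx1 : x = 1
    · subst hx1
      exact Subgroup.one_mem _
    refine ⟨⟨x, hle hx⟩, ?_, rfl⟩
    rw [SetLike.mem_coe, Subgroup.mem_center_iff]
    rintro ⟨g, hg⟩
    apply Subtype.ext
    change g * x = x * g
    obtain ⟨y, hy⟩ := isConj_iff.mp (h.conj_of_mem hG hzN hx hz1' hx1)
    have h1 : y⁻¹ * g * y ∈ (P : Subgroup G) := by
      simpa using hPn.conj_mem g hg y⁻¹
    have h2 := congrArg Subtype.val (Subgroup.mem_center_iff.mp hz ⟨_, h1⟩)
    change y⁻¹ * g * y * z = z * (y⁻¹ * g * y) at h2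
    rw [← hy]
    calc g * (y * z * y⁻¹) = y * (y⁻¹ * g * y * z) * y⁻¹ := by group
      _ = y * (z * (y⁻¹ * g * y)) * y⁻¹ := by rw [h2]
      _ = _ := by group

/-- `N` is a term of the upper central series of `P`. -/
theorem TwoCl.upper (hG : 2 < Nat.card G) {χ : IrrCharacter G} {c : G}
    (h : TwoCl χ c) {p : ℕ} [Fact p.Prime] (hp : IsPGroup p (nvSub χ)) [(nvSub χ).Normal]
    (P : Sylow p G) :
    ∃ i : ℕ, Subgroup.upperCentralSeries (P : Subgroup G) i = (nvSub χ).subgroupOf (P : Subgroup G) := by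
  classical
  have hle := TwoCl.nv_le_sylow hp P
  set M := (nvSub χ).subgroupOf (P : Subgroup G) with hM
  have hMcard : Nat.card M = Nat.card (nvSub χ) :=
    Nat.card_congr (Subgroup.subgroupOfEquivOfLe hle).toEquiv
  -- key step
  have key : ∀ i, Subgroup.upperCentralSeries (P : Subgroup G) i < M →
      Subgroup.upperCentralSeries (P : Subgroup G) (i + 1) ≤ M := by
    intro i hi x hx
    by_contra hxM
    have hxN : (x : G) ∉ nvSub χ := fun h1 => hxM (Subgroup.mem_subgroupOf.mpr h1)
    set Q := (Subgroup.centralizer ({x} : Set (P : Subgroup G))) with hQ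
    have h1 := h.card_pSub_mul_dvd hG hp P hxN (Q.map (P : Subgroup G).subtype)
      ((P.isPGroup'.to_subgroup Q).map _) (by
        rintro g ⟨g', hg', rfl⟩
        rw [Subgroup.mem_centralizer_singleton_iff]
        rw [hQ, SetLike.mem_coe, Subgroup.mem_centralizer_singleton_iff] at hg'
        exact congrArg Subtype.val hg')
    rw [Subgroup.card_map_of_injective (Subgroup.subtype_injective _)] at h1
    -- class of x has at most |Z_i| elements
    have h2 : Nat.card {y : (P : Subgroup G) // IsConj x y} ≤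
        Nat.card (Subgroup.upperCentralSeries (P : Subgroup G) i) := by
      have h3 : ∀ y : (P : Subgroup G), IsConj x y →
          y * x⁻¹ ∈ Subgroup.upperCentralSeries (P : Subgroup G) i := by
        intro y hy
        obtain ⟨g, rfl⟩ := isConj_iff.mp hy
        rw [Subgroup.mem_upperCentralSeries_succ_iff] at hx
        have h4 := hx g
        have h5 := (inferInstance : (Subgroup.upperCentralSeries (P : Subgroup G) i).Normal).conj_mem
          _ ((Subgroup.upperCentralSeries (P : Subgroup G) i).inv_mem h4) 1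
        have h6 : (g * x * g⁻¹) * x⁻¹ = 1 * (x * g * x⁻¹ * g⁻¹)⁻¹ * 1⁻¹ := by group
        rw [h6]
        exact h5
      exact Nat.card_le_card_of_injective
        (fun y : {y : (P : Subgroup G) // IsConj x y} =>
          (⟨y.1 * x⁻¹, h3 y.1 y.2⟩ : Subgroup.upperCentralSeries (P : Subgroup G) i))
        (fun a b hab => Subtype.ext (mul_right_cancel (congrArg Subtype.val hab)))
    have h3 := card_isConj_mul_card_centralizer x
    rw [← hQ] at h3
    have h4 : Nat.card (Subgroup.upperCentralSeries (P : Subgroup G) i) < Nat.card M :=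
      Set.ncard_lt_ncard hi (Set.toFinite _)
    rw [hMcard] at h4
    have h5 : 0 < Nat.card Q := Nat.card_pos
    have h6 : Nat.card (P : Subgroup G) < Nat.card Q * Nat.card (nvSub χ) := by
      rw [← h3, mul_comm]
      exact Nat.mul_lt_mul_of_pos_left (lt_of_le_of_lt h2 h4) h5
    exact absurd h1 (not_le.mpr h6)
  -- take the first i with Z_i not strictly below M
  have hnil : Group.IsNilpotent (P : Subgroup G) := P.isPGroup'.isNilpotent
  obtain ⟨n, hn⟩ := hnil.nilpotent'
  have hex : ∃ i, ¬ Subgroup.upperCentralSeries (P : Subgroup G) i < M := by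
    refine ⟨n, ?_⟩
    rw [hn]
    exact not_top_lt
  set i := Nat.find hex with hi
  have h1 : ¬ Subgroup.upperCentralSeries (P : Subgroup G) i < M := Nat.find_spec hex
  have h2 : ∀ j < i, Subgroup.upperCentralSeries (P : Subgroup G) j < M := fun j hj => by
    by_contra h3
    exact Nat.find_min hex hj h3
  have h0 : i ≠ 0 := by
    intro h0
    apply h1
    rw [h0, Subgroup.upperCentralSeries_zero, bot_lt_iff_ne_bot]
    intro h3
    have := h.card_nv_gt_one hG
    rw [← hMcard, h3] at this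
    simp at this
  obtain ⟨j, hj⟩ := Nat.exists_eq_succ_of_ne_zero h0
  have h3 := key j (h2 j (by omega))
  refine ⟨i, ?_⟩
  rcases (hj ▸ h3 : Subgroup.upperCentralSeries (P : Subgroup G) i ≤ M).lt_or_eq with h4 | h4
  · exact absurd h4 h1
  · exact h4

end Cfsg.Agent.H80
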